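import Mathlib
import Cfsg.Agent.Lib.Cores.Components
import Cfsg.Agent.Lib.OddOrderApps.ClassSizeFour

/-!
Groups in which cyclic `2`-subgroups of equal order are conjugate have at most one component.
-/

set_option autoImplicit false
set_option linter.style.haveILetI false

namespace CfsgLib.ElementOrders

universe u

open Cfsg CfsgLib Subgroup

variable {G : Type u} [Group G] [Finite G]

/-- Given the odd order theorem, a component has a non-central element of `2`-power order. -/
theorem exists_twoElement_not_commuting (hFT : OddOrderApps.OddOrder.{u}) {K : Subgroup G}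
    (hK : IsComponent K) :
    ∃ a ∈ K, (∃ n, orderOf a = 2 ^ n) ∧ ∃ y ∈ K, a * y ≠ y * a := by
  haveI : Fact (Nat.Prime 2) := ⟨Nat.prime_two⟩
  by_contra h
  push Not at h
  obtain ⟨P⟩ : Nonempty (Sylow 2 K) := inferInstance
  have hP : normalizer ((P : Subgroup K) : Set K) ≤ centralizer ((P : Subgroup K) : Set K) :=
    fun g _ => Subgroup.mem_centralizer_iff.mpr fun t ht => by
      obtain ⟨n, hn⟩ := (IsPGroup.iff_orderOf.mp P.2) ⟨t, ht⟩
      rw [Subgroup.orderOf_mk, ← Subgroup.orderOf_coe] at hn
      exact Subtype.ext (h (t : G) t.2 ⟨n, hn⟩ (g : G) g.2)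
  haveI : Group.IsSolvable K := OddOrderApps.isSolvable_of_hasNormalPComplement_two hFT
    ⟨P, _, inferInstance, MonoidHom.ker_transferSylow_isComplement' P hP⟩
  exact Cores.not_le_of_isSolvable (S := K) hK le_rfl

/-- If cyclic `2`-subgroups of the same order are conjugate, there is only one component. -/
theorem component_unique (hFT : OddOrderApps.OddOrder.{u})
    (hP : ∀ A B : Subgroup G, IsCyclic ↥A → IsCyclic ↥B → IsPGroup 2 ↥A →
      Nat.card ↥A = Nat.card ↥B → ∃ g : G, B = A.map (MulAut.conj g).toMonoidHom)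
    {K L : Subgroup G} (hK : IsComponent K) (hL : IsComponent L) : K = L := by
  by_contra hne
  obtain ⟨a, haK, ⟨α, hα⟩, y, hy, hay⟩ := exists_twoElement_not_commuting hFT hK
  obtain ⟨b, hbL, ⟨β, hβ⟩, z, hz, hbz⟩ := exists_twoElement_not_commuting hFT hL
  -- we may assume that `orderOf a ≤ orderOf b`
  wlog hle : α ≤ β generalizing K L a α y b β z with H
  · exact H hL hK (Ne.symm hne) b hbL β hβ z hz hbz a haK α hα y hy hay (le_of_not_ge hle)
  have hcKL : ∀ u ∈ K, ∀ v ∈ L, u * v = v * u := fun u hu v hv =>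
    (Subgroup.mem_centralizer_iff.mp (Cores.le_centralizer_of_isComponent_ne hK hL hne hu) v hv).symm
  set c := a * b
  have hco : Commute a b := hcKL a haK b hbL
  have hcord : orderOf c ∣ 2 ^ β := by
    refine hco.orderOf_mul_dvd_lcm.trans (Nat.lcm_dvd ?_ (hβ ▸ dvd_rfl))
    rw [hα]; exact pow_dvd_pow 2 hle
  obtain ⟨i, hiβ, hi⟩ := (Nat.dvd_prime_pow Nat.prime_two).mp hcord
  set d := b ^ 2 ^ (β - i)
  have hd : orderOf d = 2 ^ i := by
    rw [orderOf_pow_of_dvd (by positivity) (hβ ▸ pow_dvd_pow 2 (Nat.sub_le β i)), hβ,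
      Nat.pow_div (Nat.sub_le β i) (by norm_num), Nat.sub_sub_self hiβ]
  obtain ⟨g, hg⟩ := hP (zpowers d) (zpowers c) inferInstance inferInstance
    (IsPGroup.of_card (n := i) (by rw [Nat.card_zpowers, hd]))
    (by rw [Nat.card_zpowers, Nat.card_zpowers, hd, hi])
  have hcd : c ∈ (zpowers d).map (MulAut.conj g).toMonoidHom := hg ▸ Subgroup.mem_zpowers c
  have hsupp : ∀ J : Subgroup G, IsComponent J → J ≠ L.map (MulAut.conj g).toMonoidHom →
      c ∈ centralizer (J : Set G) := by
    intro J hJ hJne
    refine Cores.le_centralizer_of_isComponent_ne (Cores.isComponent_map_equiv hL (MulAut.conj g))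
      hJ (Ne.symm hJne) (Subgroup.map_mono ?_ hcd)
    exact Subgroup.zpowers_le.mpr (pow_mem hbL _)
  have h1 : K = L.map (MulAut.conj g).toMonoidHom := by
    by_contra h
    have := Subgroup.mem_centralizer_iff.mp (hsupp K hK h) y hy
    refine hay (mul_right_cancel (b := b) ?_)
    calc a * y * b = a * (b * y) := by rw [mul_assoc, hcKL y hy b hbL]
      _ = y * a * b := by rw [← mul_assoc, mul_assoc y a b]; exact this.symm
  have h2 : L = L.map (MulAut.conj g).toMonoidHom := by
    by_contra h
    have := Subgroup.mem_centralizer_iff.mp (hsupp L hL h) z hz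
    refine hbz (mul_left_cancel (a := a) ?_)
    calc a * (b * z) = z * (a * b) := by rw [← mul_assoc]; exact this.symm
      _ = a * (z * b) := by rw [← mul_assoc, ← hcKL a haK z hz, mul_assoc]
  exact hne (h1.trans h2.symm)

/-- Given the odd order theorem, the layer is then quasisimple. -/
theorem layer_quotient_simple (hFT : OddOrderApps.OddOrder.{u})
    (hP : ∀ A B : Subgroup G, IsCyclic ↥A → IsCyclic ↥B → IsPGroup 2 ↥A →
      Nat.card ↥A = Nat.card ↥B → ∃ g : G, B = A.map (MulAut.conj g).toMonoidHom)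
    (hE : layer G ≠ ⊥) :
    IsSimpleGroup (↥(layer G) ⧸ center ↥(layer G)) ∧
      ¬ IsMulCommutative (↥(layer G) ⧸ center ↥(layer G)) := by
  obtain ⟨K, hK⟩ : ∃ K : Subgroup G, IsComponent K := by
    by_contra h
    push Not at h
    exact hE (Cores.layer_eq_bot_iff.mpr h)
  have hEK : layer G = K := by
    refine le_antisymm (Cores.layer_le_iff.mpr fun L hL => ?_) (Cores.le_layer hK)
    exact (component_unique hFT hP hL hK).le
  rw [hEK]
  refine ⟨hK.2.2, fun hcomm => Cores.ne_bot_of_isComponent hK ?_⟩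
  rw [← Cores.commutator_self_eq_of_isComponent hK]
  haveI : Group.IsSolvable (center ↥K) :=
    Group.isSolvable_of_comm fun x y => Subtype.ext (Subgroup.mem_center_iff.mp y.2 x)
  haveI : Group.IsSolvable (↥K ⧸ center ↥K) :=
    Group.isSolvable_of_comm fun x y => hcomm.is_comm.comm x y
  haveI : Group.IsSolvable K :=
    Group.isSolvable_of_ker_le_range (center ↥K).subtype (QuotientGroup.mk' (center ↥K)) (by simp)
  exact absurd le_rfl (Cores.not_le_of_isSolvable (S := K) hK)

end CfsgLib.ElementOrders
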