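import Cfsg.Agent.Lib.OddOrderApps.HallExtension
import Cfsg.Agent.Lib.InvChar.BaerSuzuki
import Cfsg.Agent.Lib.Cores.PCore

/-!
If in every subgroup any two non-central classes have non-coprime sizes then the group modulo its
2-core has odd order; so, given the odd order theorem, it is solvable.
-/

set_option autoImplicit false

open scoped Pointwise

namespace CfsgLib.ElementOrders

universe u

variable {G : Type u} [Group G] [Finite G]

/-- `x` a 2-element inverting an element `v` of odd prime order: the subgroup `⟨v, x⟩` has two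
non-central classes of coprime sizes. -/
theorem exists_coprime_classes {v x : G} {q k : ℕ} (hq : q.Prime) (hq2 : q ≠ 2)
    (hv : orderOf v = q) (hx : orderOf x = 2 ^ k) (hinv : x * v * x⁻¹ = v⁻¹) :
    ∃ (H : Subgroup G) (a b : H), 1 < (Subgroup.centralizer ({a} : Set H)).index ∧
      1 < (Subgroup.centralizer ({b} : Set H)).index ∧
      ((Subgroup.centralizer ({a} : Set H)).index).Coprime
        (Subgroup.centralizer ({b} : Set H)).index := by
  haveI := Fact.mk hq
  have hnorm : Subgroup.zpowers x ≤ Subgroup.normalizer (Subgroup.zpowers v : Set G) := by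
    rw [Subgroup.zpowers_le]
    refine Subgroup.mem_normalizer_fintype fun w hw => ?_
    obtain ⟨i, rfl⟩ := Subgroup.mem_zpowers_iff.1 hw
    rw [← conj_zpow, hinv, inv_zpow']
    exact Subgroup.zpow_mem_zpowers v (-i)
  let H := Subgroup.zpowers v ⊔ Subgroup.zpowers x
  let a : H := ⟨v, Subgroup.mem_sup_left (Subgroup.mem_zpowers v)⟩
  let b : H := ⟨x, Subgroup.mem_sup_right (Subgroup.mem_zpowers x)⟩
  have ha : orderOf a = q := by rw [← hv, ← Subgroup.orderOf_coe]
  have hb : orderOf b = 2 ^ k := by rw [← hx, ← Subgroup.orderOf_coe]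
  have hcop : q.Coprime (2 ^ k) :=
    ((Nat.coprime_primes hq Nat.prime_two).2 hq2).pow_right k
  have hcard : Nat.card H ∣ q * 2 ^ k := by
    have h : ((Subgroup.zpowers v ⊔ Subgroup.zpowers x : Subgroup G) : Set G) =
        (Subgroup.zpowers v : Set G) * (Subgroup.zpowers x : Set G) :=
      Subgroup.coe_mul_of_right_le_normalizer_left _ _ hnorm
    have hn : ((Subgroup.zpowers v).subgroupOf H).Normal :=
      Subgroup.normal_subgroupOf_of_le_normalizer
        (sup_le Subgroup.le_normalizer hnorm)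
    have h1 : Nat.card H = Nat.card ((Subgroup.zpowers v).subgroupOf H) *
        ((Subgroup.zpowers v).subgroupOf H).index := (Subgroup.card_mul_index _).symm
    have hQ : Nat.card ((Subgroup.zpowers v).subgroupOf H) = q := by
      rw [Nat.card_congr (Subgroup.subgroupOfEquivOfLe
        (show Subgroup.zpowers v ≤ H from le_sup_left)).toEquiv, Nat.card_zpowers, hv]
    have htop : (Subgroup.zpowers x).subgroupOf H ⊔ (Subgroup.zpowers v).subgroupOf H = ⊤ := by
      rw [← Subgroup.subgroupOf_sup le_sup_right le_sup_left, Subgroup.subgroupOf_eq_top, sup_comm]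
    rw [h1, hQ]
    refine mul_dvd_mul_left q ?_
    rw [← Subgroup.relIndex_top_right, ← htop, Subgroup.relIndex_sup_right]
    refine (Subgroup.relIndex_dvd_card _ _).trans ?_
    rw [Nat.card_congr (Subgroup.subgroupOfEquivOfLe
      (show Subgroup.zpowers x ≤ H from le_sup_right)).toEquiv, Nat.card_zpowers, hx]
  have hab : a * b ≠ b * a := fun h => by
    have h1 : v * x = x * v := congrArg Subtype.val h
    rw [← h1, mul_inv_cancel_right] at hinv
    have h2 : v ^ 2 = 1 := by rw [pow_two]; exact mul_eq_one_iff_eq_inv.2 hinv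
    have h3 := orderOf_dvd_of_pow_eq_one h2
    rw [hv] at h3
    exact hq2 ((Nat.prime_dvd_prime_iff_eq hq Nat.prime_two).1 h3)
  have hb_cases : (Subgroup.centralizer ({b} : Set H)).index = q := by
    have hle : Nat.card (Subgroup.zpowers b) ∣ Nat.card (Subgroup.centralizer ({b} : Set H)) :=
      Subgroup.card_dvd_of_le (Subgroup.zpowers_le.2 (Subgroup.mem_centralizer_singleton_iff.2 rfl))
    rw [Nat.card_zpowers, hb] at hle
    have h1 : (Subgroup.centralizer ({b} : Set H)).index * 2 ^ k ∣ q * 2 ^ k :=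
      ((mul_dvd_mul_left _ hle).trans (Subgroup.index_mul_card _).dvd).trans hcard
    refine ((Nat.dvd_prime hq).1 (Nat.dvd_of_mul_dvd_mul_right (pow_pos Nat.two_pos k) h1)).resolve_left
      fun h => hab ?_
    rw [Subgroup.index_eq_one, Subgroup.centralizer_eq_top_iff_subset] at h
    exact Subgroup.mem_center_iff.1 (h rfl) a
  have ha_cases : (Subgroup.centralizer ({a} : Set H)).index = 2 := by
    rcases k with _ | k
    · rw [pow_zero, orderOf_eq_one_iff] at hb
      exact absurd (show a * b = b * a by rw [hb, mul_one, one_mul]) hab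
    have hc : Commute (b ^ 2) a := by
      have h1 : b * a * b⁻¹ = a⁻¹ := Subtype.ext hinv
      have h2 : b ^ 2 * a * (b ^ 2)⁻¹ = a := by
        calc b ^ 2 * a * (b ^ 2)⁻¹ = b * (b * a * b⁻¹) * b⁻¹ := by rw [pow_two]; group
          _ = b * a⁻¹ * b⁻¹ := by rw [h1]
          _ = (b * a * b⁻¹)⁻¹ := by group
          _ = a := by rw [h1, inv_inv]
      exact mul_inv_eq_iff_eq_mul.1 h2
    have hd1 : q ∣ Nat.card (Subgroup.centralizer ({a} : Set H)) := by
      rw [← ha, ← Nat.card_zpowers]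
      exact Subgroup.card_dvd_of_le
        (Subgroup.zpowers_le.2 (Subgroup.mem_centralizer_singleton_iff.2 rfl))
    have hd2 : 2 ^ k ∣ Nat.card (Subgroup.centralizer ({a} : Set H)) := by
      have : orderOf (b ^ 2) = 2 ^ k := by
        rw [orderOf_pow' b two_ne_zero, hb, pow_succ, Nat.gcd_eq_right (dvd_mul_left _ _),
          Nat.mul_div_cancel _ Nat.two_pos]
      rw [← this, ← Nat.card_zpowers]
      exact Subgroup.card_dvd_of_le
        (Subgroup.zpowers_le.2 (Subgroup.mem_centralizer_singleton_iff.2 hc.eq))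
    have hd : q * 2 ^ k ∣ Nat.card (Subgroup.centralizer ({a} : Set H)) :=
      (((Nat.coprime_primes hq Nat.prime_two).2 hq2).pow_right k).mul_dvd_of_dvd_of_dvd hd1 hd2
    have h1 : (Subgroup.centralizer ({a} : Set H)).index * (q * 2 ^ k) ∣ 2 * (q * 2 ^ k) :=
      (((mul_dvd_mul_left _ hd).trans (Subgroup.index_mul_card _).dvd).trans hcard).trans
        (dvd_of_eq (by ring))
    refine ((Nat.dvd_prime Nat.prime_two).1
      (Nat.dvd_of_mul_dvd_mul_right (Nat.mul_pos hq.pos (pow_pos Nat.two_pos k)) h1)).resolve_left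
      fun h => hab ?_
    rw [Subgroup.index_eq_one, Subgroup.centralizer_eq_top_iff_subset] at h
    exact (Subgroup.mem_center_iff.1 (h rfl) b).symm
  refine ⟨H, a, b, by rw [ha_cases]; norm_num, by rw [hb_cases]; exact hq.one_lt, ?_⟩
  rw [ha_cases, hb_cases]
  exact ((Nat.coprime_primes hq Nat.prime_two).2 hq2).symm

theorem odd_card_quotient_of_no_coprime_classes
    (h : ∀ (H : Subgroup G) (x y : H), 1 < (Subgroup.centralizer ({x} : Set H)).index →
      1 < (Subgroup.centralizer ({y} : Set H)).index →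
      ¬ ((Subgroup.centralizer ({x} : Set H)).index).Coprime
        (Subgroup.centralizer ({y} : Set H)).index) :
    Odd (Nat.card (G ⧸ Cfsg.pCore 2 G)) := by
  haveI : Fact (Nat.Prime 2) := ⟨Nat.prime_two⟩
  by_contra hev
  rw [Nat.not_odd_iff_even, even_iff_two_dvd] at hev
  obtain ⟨xb, hxb⟩ := exists_prime_orderOf_dvd_card' (G := G ⧸ Cfsg.pCore 2 G) 2 hev
  have hnot : xb ∉ Cfsg.pCore 2 (G ⧸ Cfsg.pCore 2 G) := by
    intro hm
    rw [CfsgLib.Cores.pCore_quotient_pCore, Subgroup.mem_bot] at hm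
    rw [hm, orderOf_one] at hxb
    omega
  obtain ⟨yb, hy, hodd, hne⟩ := CfsgLib.InvChar.exists_conj_odd_orderOf_mul xb hxb hnot
  obtain ⟨c, hc⟩ := isConj_iff.1 hy
  have hxb2 : xb * xb = 1 := by
    have := pow_orderOf_eq_one xb
    rwa [hxb, pow_two] at this
  have hyb2 : yb * yb = 1 := by
    rw [← hc, show c * xb * c⁻¹ * (c * xb * c⁻¹) = c * (xb * xb) * c⁻¹ by group, hxb2, mul_one,
      mul_inv_cancel]
  have hinv : xb * (xb * yb) * xb⁻¹ = (xb * yb)⁻¹ := by
    rw [mul_inv_rev, inv_eq_of_mul_eq_one_right hxb2, inv_eq_of_mul_eq_one_right hyb2,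
      ← mul_assoc xb xb, hxb2, one_mul]
  obtain ⟨q, hq, hqd⟩ := Nat.exists_prime_and_dvd (mt orderOf_eq_one_iff.1 hne)
  have hq2 : q ≠ 2 := by
    rintro rfl
    exact (Nat.not_even_iff_odd.2 hodd) (even_iff_two_dvd.2 hqd)
  haveI := Fact.mk hq
  set r := (xb * yb) ^ (orderOf (xb * yb) / q) with hr
  have hro : orderOf r = q := orderOf_pow_orderOf_div (orderOf_pos _).ne' hqd
  have hrinv : xb * r * xb⁻¹ = r⁻¹ := by rw [hr, ← conj_pow, hinv, inv_pow]
  -- lift `r`
  let π := QuotientGroup.mk' (Cfsg.pCore 2 G)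
  let W : Subgroup G := (Subgroup.zpowers r).comap π
  obtain ⟨u, hu⟩ := QuotientGroup.mk'_surjective (Cfsg.pCore 2 G) r
  obtain ⟨t, ht⟩ := QuotientGroup.mk'_surjective (Cfsg.pCore 2 G) xb
  have hWconj : ∀ w ∈ W, t * w * t⁻¹ ∈ W := by
    intro w hw
    obtain ⟨i, hi⟩ := Subgroup.mem_zpowers_iff.1 hw
    refine Subgroup.mem_zpowers_iff.2 ⟨-i, ?_⟩
    rw [map_mul, map_mul, map_inv, ← hi, show π t = xb from ht, ← conj_zpow, hrinv, inv_zpow']
  have hWn : t ∈ Subgroup.normalizer (W : Set G) := Subgroup.mem_normalizer_fintype hWconj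
  have hcardW : Nat.card W = Nat.card (Cfsg.pCore 2 G) * q := by
    have h1 := (π.ker.subgroupOf W).card_mul_index
    have hk : π.ker ≤ W := MonoidHom.ker_le_comap _ _
    have hidx : (π.ker.subgroupOf W).index = q := by
      show π.ker.relIndex W = q
      rw [Subgroup.relIndex_ker, Subgroup.map_comap_eq_self_of_surjective (QuotientGroup.mk'_surjective _),
        Nat.card_zpowers, hro]
    rw [hidx, Nat.card_congr (Subgroup.subgroupOfEquivOfLe hk).toEquiv, QuotientGroup.ker_mk'] at h1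
    exact h1.symm
  obtain ⟨P⟩ : Nonempty (Sylow q W) := inferInstance
  have hPcard : Nat.card P = q := by
    obtain ⟨j, hj⟩ := IsPGroup.iff_card.1 (CfsgLib.Cores.isPGroup_pCore 2 G)
    rw [P.card_eq_multiplicity, hcardW, hj, Nat.factorization_mul (by positivity) hq.ne_zero]
    simp [hq.factorization_self, Nat.factorization_eq_zero_of_not_dvd
      (fun hd => hq2 ((Nat.prime_dvd_prime_iff_eq hq Nat.prime_two).1 hd) : ¬ q ∣ 2)]
  -- Frattini argument
  let σ : W →* W :=
    { toFun := fun w => ⟨t * w * t⁻¹, hWconj w w.2⟩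
      map_one' := Subtype.ext (by simp)
      map_mul' := fun a b => Subtype.ext (show t * ((a : G) * b) * t⁻¹ = (t * a * t⁻¹) * (t * b * t⁻¹) from by group) }
  have hσ : Function.Injective σ := fun a b e => by
    have := congrArg Subtype.val e
    exact Subtype.ext (mul_left_cancel (mul_right_cancel this))
  obtain ⟨w, hw⟩ := MulAction.exists_smul_eq W
    (Sylow.ofCard ((P : Subgroup W).map σ) (by
      rw [Subgroup.card_map_of_injective hσ, P.card_eq_multiplicity] : Nat.card _ = _)) P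
  set g := (w : G) * t with hg
  obtain ⟨v0, hv0⟩ := exists_prime_orderOf_dvd_card' (G := P) q (by rw [hPcard])
  set v : G := ((v0 : W) : G) with hv
  have hvo : orderOf v = q := by rw [hv, Subgroup.orderOf_coe, Subgroup.orderOf_coe, hv0]
  have hgv : g * v * g⁻¹ ∈ Subgroup.zpowers v := by
    have hmem : w * σ (v0 : W) * w⁻¹ ∈ (P : Subgroup W) := by
      have h1 := Subgroup.smul_mem_pointwise_smul (σ (v0 : W)) (MulAut.conj w) ((P : Subgroup W).map σ)
        (Subgroup.mem_map_of_mem σ v0.2)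
      have h2 : MulAut.conj w • (P : Subgroup W).map σ = (P : Subgroup W) :=
        congrArg (fun S : Sylow q W => (S : Subgroup W)) hw
      rw [h2] at h1
      exact h1
    have hP : (P : Subgroup W) = Subgroup.zpowers (v0 : W) :=
      (Subgroup.eq_of_le_of_card_ge (Subgroup.zpowers_le.2 v0.2)
        (le_of_eq (by rw [Nat.card_zpowers, Subgroup.orderOf_coe, hv0]; exact hPcard))).symm
    obtain ⟨i, hi⟩ := Subgroup.mem_zpowers_iff.1 (hP.le hmem)
    refine Subgroup.mem_zpowers_iff.2 ⟨i, ?_⟩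
    have h3 := congrArg Subtype.val hi
    simp only [SubgroupClass.coe_zpow, Subgroup.coe_mul, Subgroup.coe_inv] at h3
    rw [hv, h3, hg]
    show (w : G) * (t * ((v0 : W) : G) * t⁻¹) * (w : G)⁻¹ = _
    group
  have hπv : π v ≠ 1 := fun h1 => by
    have h2 := Subgroup.orderOf_dvd_natCard _ ((QuotientGroup.eq_one_iff v).1 h1)
    obtain ⟨j, hj⟩ := IsPGroup.iff_card.1 (CfsgLib.Cores.isPGroup_pCore 2 G)
    rw [hvo, hj] at h2
    exact hq2 ((Nat.prime_dvd_prime_iff_eq hq Nat.prime_two).1 (hq.dvd_of_dvd_pow h2))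
  obtain ⟨iv, hiv⟩ := Subgroup.mem_zpowers_iff.1 (show π v ∈ Subgroup.zpowers r from (v0 : W).2)
  obtain ⟨iw, hiw⟩ := Subgroup.mem_zpowers_iff.1 (show π (w : G) ∈ Subgroup.zpowers r from w.2)
  have hginv : π (g * v * g⁻¹) = (π v)⁻¹ := by
    rw [map_mul, map_mul, map_inv, hg, map_mul, show π t = xb from ht, ← hiv, ← hiw,
      show r ^ iw * xb * r ^ iv * (r ^ iw * xb)⁻¹ = r ^ iw * (xb * r ^ iv * xb⁻¹) * (r ^ iw)⁻¹ by group,
      ← conj_zpow, hrinv]
    group
  have hgg : (π g) ^ 2 = 1 := by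
    rw [hg, map_mul, show π t = xb from ht, ← hiw, pow_two,
      show r ^ iw * xb * (r ^ iw * xb) = r ^ iw * (xb * r ^ iw * xb⁻¹) * (xb * xb) by group,
      ← conj_zpow, hrinv, hxb2]
    group
  -- the inverting 2-element
  obtain ⟨k, l, hl, hkl⟩ := Nat.exists_eq_two_pow_mul_odd (orderOf_pos g).ne'
  have hxo : orderOf (g ^ l) = 2 ^ k := by
    rw [orderOf_pow' g (by rintro rfl; simp at hl), hkl, Nat.gcd_eq_right (dvd_mul_left _ _),
      Nat.mul_div_cancel _ (Nat.pos_of_ne_zero (by rintro rfl; simp at hl))]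
  have hpow : ∀ j : ℕ, g ^ j * v * (g ^ j)⁻¹ ∈ Subgroup.zpowers v := by
    intro j
    induction j with
    | zero => simp
    | succ j ih =>
      obtain ⟨i, hi⟩ := Subgroup.mem_zpowers_iff.1 ih
      have h1 : g ^ (j + 1) * v * (g ^ (j + 1))⁻¹ = g * (g ^ j * v * (g ^ j)⁻¹) * g⁻¹ := by
        rw [pow_succ']; group
      rw [h1, ← hi, ← conj_zpow]
      exact zpow_mem hgv i
  have hxinv : g ^ l * v * (g ^ l)⁻¹ = v⁻¹ := by
    have hmem : g ^ l * v * (g ^ l)⁻¹ * v ∈ Subgroup.zpowers v :=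
      mul_mem (hpow l) (Subgroup.mem_zpowers v)
    obtain ⟨i, hi⟩ := Subgroup.mem_zpowers_iff.1 hmem
    obtain ⟨j, rfl⟩ := hl
    have hone : π (g ^ (2 * j + 1) * v * (g ^ (2 * j + 1))⁻¹ * v) = 1 := by
      have h1 : π (g ^ (2 * j + 1)) = π g := by
        rw [map_pow, pow_succ, pow_mul, hgg, one_pow, one_mul]
      rw [map_mul, map_mul, map_mul, map_inv, h1, ← map_inv, ← map_mul, ← map_mul, hginv,
        inv_mul_cancel]
    rw [← hi, map_zpow] at hone
    have h2 : orderOf (π v) = q := by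
      refine ((Nat.dvd_prime hq).1 (hvo ▸ orderOf_map_dvd π v)).resolve_left fun h1 => hπv ?_
      exact orderOf_eq_one_iff.1 h1
    have h3 : v ^ i = 1 := by
      rw [← orderOf_dvd_iff_zpow_eq_one, hvo, ← h2, orderOf_dvd_iff_zpow_eq_one]
      exact hone
    rw [hi] at h3
    exact mul_eq_one_iff_eq_inv.1 h3
  obtain ⟨H, a, b, ha, hb, hab⟩ := exists_coprime_classes hq hq2 hvo hxo hxinv
  exact h H a b ha hb hab

theorem isSolvable_of_no_coprime_classes (hFT : CfsgLib.OddOrderApps.OddOrder.{u})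
    (h : ∀ (H : Subgroup G) (x y : H), 1 < (Subgroup.centralizer ({x} : Set H)).index →
      1 < (Subgroup.centralizer ({y} : Set H)).index →
      ¬ ((Subgroup.centralizer ({x} : Set H)).index).Coprime
        (Subgroup.centralizer ({y} : Set H)).index) :
    Group.IsSolvable G := by
  haveI : Fact (Nat.Prime 2) := ⟨Nat.prime_two⟩
  haveI := hFT (G ⧸ Cfsg.pCore 2 G) (odd_card_quotient_of_no_coprime_classes h)
  haveI : Group.IsNilpotent (Cfsg.pCore 2 G) := (CfsgLib.Cores.isPGroup_pCore 2 G).isNilpotent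
  haveI : Group.IsSolvable (Cfsg.pCore 2 G) := inferInstance
  exact Group.isSolvable_of_ker_le_range (Cfsg.pCore 2 G).subtype
    (QuotientGroup.mk' (Cfsg.pCore 2 G)) (by simp)

end CfsgLib.ElementOrders
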