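import Cfsg.Agent.Lib.ElementOrders.PiSplit
import Cfsg.Agent.Lib.Transfer.Hall

/-!
Many classes of `π`-elements force an abelian Hall `π`-subgroup.
-/

set_option autoImplicit false

namespace CfsgLib.ElementOrders

open Cfsg CfsgLib.HallClasses

universe u

theorem bound_antitone {p q : ℕ} (hp : 2 ≤ p) (hpq : p ≤ q) :
    p ^ 3 * (q ^ 2 + q - 1) ≤ (p ^ 2 + p - 1) * q ^ 3 := by
  obtain ⟨d, rfl⟩ := Nat.exists_eq_add_of_le hpq
  obtain ⟨a, rfl⟩ := Nat.exists_eq_add_of_le hp
  have e1 : (2 + a + d) ^ 2 + (2 + a + d) - 1 = (2 + a + d) ^ 2 + (1 + a + d) := by omega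
  have e2 : (2 + a) ^ 2 + (2 + a) - 1 = (2 + a) ^ 2 + (1 + a) := by omega
  rw [e1, e2]
  ring_nf
  nlinarith [Nat.zero_le (a * d), Nat.zero_le (d ^ 2), Nat.zero_le (a ^ 2 * d), Nat.zero_le (a * d ^ 2),
    Nat.zero_le (a ^ 3 * d), Nat.zero_le (a ^ 2 * d ^ 2), Nat.zero_le (a * d ^ 3), Nat.zero_le (d ^ 3),
    Nat.zero_le (a ^ 4 * d), Nat.zero_le (a ^ 3 * d ^ 2), Nat.zero_le (a ^ 2 * d ^ 3)]

theorem bound_normal_case {p q r : ℕ} (hp : 2 ≤ p) (hpq : p ≤ q) (hpr : p ≤ r) (hqr : q ≠ r) :
    p ^ 3 * (q ^ 3 + (r - 1) * (q + 1)) ≤ (p ^ 2 + p - 1) * r * q ^ 3 := by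
  rcases Nat.lt_or_ge r q with h | h
  · have key : r ^ 2 * (q ^ 3 + (r - 1) * (q + 1)) ≤ (r ^ 2 + r - 1) * q ^ 3 := by
      obtain ⟨b, rfl⟩ := Nat.exists_eq_add_of_lt h
      obtain ⟨a, rfl⟩ := Nat.exists_eq_add_of_le (hp.trans hpr)
      have e1 : (2 + a) ^ 2 + (2 + a) - 1 = (2 + a) ^ 2 + (1 + a) := by omega
      have e2 : 2 + a - 1 = 1 + a := by omega
      rw [e1, e2]
      nlinarith [Nat.zero_le (a * b), Nat.zero_le (b ^ 2), Nat.zero_le (a ^ 2), Nat.zero_le (a ^ 3),
        Nat.zero_le (a ^ 2 * b), Nat.zero_le (a * b ^ 2), Nat.zero_le (b ^ 3)]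
    refine Nat.le_of_mul_le_mul_left ?_ (pow_pos (show 0 < r by omega) 3)
    calc r ^ 3 * (p ^ 3 * (q ^ 3 + (r - 1) * (q + 1)))
        = p ^ 3 * r * (r ^ 2 * (q ^ 3 + (r - 1) * (q + 1))) := by ring
      _ ≤ p ^ 3 * r * ((r ^ 2 + r - 1) * q ^ 3) := Nat.mul_le_mul_left _ key
      _ = (p ^ 3 * (r ^ 2 + r - 1)) * r * q ^ 3 := by ring
      _ ≤ ((p ^ 2 + p - 1) * r ^ 3) * r * q ^ 3 := by
          exact Nat.mul_le_mul_right _ (Nat.mul_le_mul_right _ (bound_antitone hp hpr))
      _ = _ := by ring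
  · have key : q ^ 3 + (r - 1) * (q + 1) ≤ (q ^ 2 + q - 1) * r := by
      obtain ⟨b, rfl⟩ := Nat.exists_eq_add_of_lt (lt_of_le_of_ne h hqr)
      obtain ⟨a, rfl⟩ := Nat.exists_eq_add_of_le (hp.trans hpq)
      have e1 : (2 + a) ^ 2 + (2 + a) - 1 = (2 + a) ^ 2 + (1 + a) := by omega
      have e2 : 2 + a + b + 1 - 1 = 2 + a + b := by omega
      rw [e1, e2]
      nlinarith [Nat.zero_le (a * b), Nat.zero_le (a ^ 2), Nat.zero_le (a ^ 2 * b)]
    calc p ^ 3 * (q ^ 3 + (r - 1) * (q + 1)) ≤ p ^ 3 * ((q ^ 2 + q - 1) * r) := Nat.mul_le_mul_left _ key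
      _ = (p ^ 3 * (q ^ 2 + q - 1)) * r := by ring
      _ ≤ ((p ^ 2 + p - 1) * q ^ 3) * r := Nat.mul_le_mul_right _ (bound_antitone hp hpq)
      _ = _ := by ring

theorem bound_other_case {p q r : ℕ} (hp : 2 ≤ p) (hpq : p ≤ q) (hpr : p ≤ r) (hqr : q ≠ r) :
    p * ((q + 1) * (q + r - 1)) ≤ 2 * r * q ^ 2 := by
  rcases Nat.lt_or_ge r q with h | h
  · refine (Nat.mul_le_mul_right _ hpr).trans ?_
    obtain ⟨b, rfl⟩ := Nat.exists_eq_add_of_lt h
    have e : r + b + 1 + r - 1 = r + b + r := by omega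
    rw [e]
    nlinarith [Nat.zero_le (r * b), Nat.zero_le (b ^ 2), hp.trans hpr]
  · refine (Nat.mul_le_mul_right _ hpq).trans ?_
    obtain ⟨b, rfl⟩ := Nat.exists_eq_add_of_lt (lt_of_le_of_ne h hqr)
    have e : q + (q + b + 1) - 1 = q + q + b := by omega
    rw [e]
    nlinarith [Nat.zero_le (q * b), hp.trans hpq, Nat.zero_le (q * q * b)]

variable {G : Type u} [Group G] [Finite G]

theorem isMulCommutative_sup (A B : Subgroup G) (hA : IsMulCommutative A) (hB : IsMulCommutative B)
    (hAB : A ≤ Subgroup.centralizer (B : Set G)) : IsMulCommutative ↥(A ⊔ B) := by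
  refine Subgroup.le_centralizer_iff_isMulCommutative.1 ?_
  refine sup_le (Subgroup.le_centralizer_iff.1 (sup_le ?_ ?_)) (Subgroup.le_centralizer_iff.1 (sup_le ?_ ?_))
  · exact Subgroup.le_centralizer_iff_isMulCommutative.2 hA
  · exact Subgroup.le_centralizer_iff.1 hAB
  · exact hAB
  · exact Subgroup.le_centralizer_iff_isMulCommutative.2 hB

theorem card_sup_of_commute (A B : Subgroup G) (hAB : A ≤ Subgroup.centralizer (B : Set G))
    (hcop : (Nat.card A).Coprime (Nat.card B)) : Nat.card ↥(A ⊔ B) = Nat.card A * Nat.card B := by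
  have hc : ∀ (a : A) (b : B), Commute (A.subtype a) (B.subtype b) := fun a b =>
    ((Subgroup.mem_centralizer_iff.1 (hAB a.2)) b b.2).symm
  refine Nat.dvd_antisymm ?_ (hcop.mul_dvd_of_dvd_of_dvd (Subgroup.card_dvd_of_le le_sup_left)
    (Subgroup.card_dvd_of_le le_sup_right))
  have h := Subgroup.card_range_dvd (MonoidHom.noncommCoprod A.subtype B.subtype hc)
  rw [MonoidHom.noncommCoprod_range, Subgroup.range_subtype, Subgroup.range_subtype, Nat.card_prod] at h
  exact h

theorem coprime_index_of_card_eq_piPart (σ : Finset ℕ) (hσ : ∀ q ∈ σ, q.Prime) (H : Subgroup G)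
    (hH : Nat.card H = piPart σ (Nat.card G)) : (Nat.card H).Coprime H.index :=
  Nat.coprime_of_dvd fun t ht h1 h2 =>
    not_dvd_div_piPart hσ Nat.card_pos.ne' (by rw [← hH, H.card_mul_index])
      (mem_of_dvd_piPart hσ ht (hH ▸ h1)) h2

theorem card_rClasses_le_of_action {r : ℕ} [hr : Fact r.Prime] (S : Sylow r G)
    (A : Subgroup G)
    (hA : A ≤ Subgroup.normalizer ((S : Subgroup G) : Set G))
    (hnc : ¬ A ≤ Subgroup.centralizer ((S : Subgroup G) : Set G)) (hcop : (Nat.card A).Coprime r) :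
    ∃ s : ℕ, s.Prime ∧ s ∣ Nat.card A ∧
      r * s * Nat.card (RClasses r G) ≤ (s + (r - 1)) * Nat.card (S : Subgroup G) := by
  classical
  obtain ⟨y₀, hy₀, hy₀c⟩ := SetLike.not_le_iff_exists.1 hnc
  obtain ⟨y, ⟨hy, hyc⟩, hmin⟩ := Set.Finite.exists_minimalFor (fun y : G => orderOf y)
    {y | y ∈ A ∧ y ∉ Subgroup.centralizer ((S : Subgroup G) : Set G)} (Set.toFinite _) ⟨y₀, hy₀, hy₀c⟩
  have hy1 : orderOf y ≠ 1 := fun h => hyc (orderOf_eq_one_iff.1 h ▸ one_mem _)
  set s := (orderOf y).minFac with hs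
  have hsp : s.Prime := Nat.minFac_prime hy1
  have hsy : s ∣ orderOf y := Nat.minFac_dvd _
  have hpow : ∀ t : ℕ, t.Prime → t ∣ orderOf y → y ^ t ∈ Subgroup.centralizer ((S : Subgroup G) : Set G) := by
    intro t ht htd
    by_contra hn
    have h1 := hmin (j := y ^ t) ⟨A.pow_mem hy t, hn⟩
    have h2 : orderOf (y ^ t) < orderOf y := by
      rw [orderOf_pow_of_dvd ht.ne_zero htd]
      exact Nat.div_lt_self (orderOf_pos y) ht.one_lt
    exact absurd (h1 h2.le) (not_le.2 h2)
  have honly : ∀ t : ℕ, t.Prime → t ∣ orderOf y → t = s := by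
    intro t ht htd
    by_contra hne
    apply hyc
    have hcp : Nat.gcd s t = 1 := (Nat.coprime_primes hsp ht).2 (Ne.symm hne)
    have := Nat.gcd_eq_gcd_ab s t
    rw [hcp, Nat.cast_one] at this
    rw [← zpow_one y, this, zpow_add, zpow_mul, zpow_mul, zpow_natCast, zpow_natCast]
    exact Subgroup.mul_mem _ (Subgroup.zpow_mem _ (hpow s hsp hsy) _) (Subgroup.zpow_mem _ (hpow t ht htd) _)
  have hyr : (orderOf y).Coprime r := hcop.coprime_dvd_left (Subgroup.orderOf_dvd_natCard A hy)
  refine ⟨s, hsp, hsy.trans (Subgroup.orderOf_dvd_natCard A hy), ?_⟩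
  have hcen : (Subgroup.center ↥(S : Subgroup G)).map (S : Subgroup G).subtype ≤ (S : Subgroup G) :=
    Subgroup.map_subtype_le _
  obtain ⟨c, q, hcq, -, hqN, hk⟩ := card_pClasses_le_of_action S (S : Subgroup G) le_rfl hcen y (hA hy) hyc hyr s
    (fun j hj0 hjs => Nat.coprime_of_dvd fun t ht h1 h2 => by
      have := honly t ht h1
      have := Nat.le_of_dvd hj0 h2
      omega)
  have hr2 := hr.out.two_le
  have hs2 := hsp.two_le
  have hcq' : r * c ≤ q := Nat.le_of_mul_le_mul_left (by rw [← mul_assoc, ← sq]; exact hcq) hr.out.pos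
  generalize Nat.card (RClasses r G) = k at hk ⊢
  generalize Nat.card (S : Subgroup G) = N at hqN hk ⊢
  clear_value s
  clear hs
  obtain ⟨r', rfl⟩ := Nat.exists_eq_add_of_le (show 1 ≤ r by omega)
  obtain ⟨s', rfl⟩ := Nat.exists_eq_add_of_le (show 1 ≤ s by omega)
  rw [Nat.add_sub_cancel_left]
  nlinarith [Nat.mul_le_mul_left r' hqN, Nat.mul_le_mul_left s' hcq']

theorem not_le_centralizer_bound {r : ℕ} [hr : Fact r.Prime] (S : Sylow r G)
    (hS : IsMulCommutative (S : Subgroup G)) (A : Subgroup G)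
    (hA : A ≤ Subgroup.normalizer ((S : Subgroup G) : Set G))
    (hnc : ¬ A ≤ Subgroup.centralizer ((S : Subgroup G) : Set G)) (hcop : (Nat.card A).Coprime r) :
    ∃ s : ℕ, s.Prime ∧ s ∣ Nat.card A ∧
      r * s * Nat.card (RClasses r G) ≤ (s + (r - 1)) * Nat.card (S : Subgroup G) :=
  card_rClasses_le_of_action S A hA hnc hcop

set_option maxHeartbeats 1600000 in
/-- Many classes of `π`-elements give an abelian Hall `π`-subgroup. -/
theorem exists_abelian_piHall : ∀ (π : Finset ℕ), (∀ q ∈ π, q.Prime) → ∀ (p : ℕ), 2 ≤ p →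
    (∀ q ∈ π, p ≤ q) → ∀ (G : Type u) [Group G] [Finite G],
      (p ^ 2 + p - 1) * piPart π (Nat.card G) < p ^ 3 * piCount π G →
      ∃ H : Subgroup G, IsMulCommutative H ∧ Nat.card H = piPart π (Nat.card G) := by
  classical
  intro π
  induction π using Finset.strongInduction with
  | _ π ih => ?_
  intro hπ p hp hpmin G _ _ hk
  -- Sylow subgroups are abelian
  have hsyl : ∀ r ∈ π, ∀ [Fact r.Prime], ∀ P : Sylow r G, IsMulCommutative (P : Subgroup G) := by
    intro r hr _ P
    by_contra hna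
    have hkr := card_pClasses_le_of_nonabelian P hna
    rw [P.card_eq_multiplicity] at hkr
    have h1 := piCount_le_erase (G := G) π hπ hr
    rw [piPart_erase hr] at hk
    have hb := bound_antitone hp (hpmin r hr)
    set M' := piPart (π.erase r) (Nat.card G)
    set A := r ^ (Nat.card G).factorization r
    set kr := Nat.card (RClasses r G)
    have hr0 : 0 < r ^ 3 := pow_pos (hπ r hr).pos 3
    refine absurd hk (not_lt.2 (Nat.le_of_mul_le_mul_left ?_ hr0))
    calc r ^ 3 * (p ^ 3 * piCount π G) ≤ r ^ 3 * (p ^ 3 * (kr * M')) :=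
          Nat.mul_le_mul_left _ (Nat.mul_le_mul_left _ h1)
      _ = p ^ 3 * (r ^ 3 * kr) * M' := by ring
      _ ≤ p ^ 3 * ((r ^ 2 + r - 1) * A) * M' := Nat.mul_le_mul_right _ (Nat.mul_le_mul_left _ hkr)
      _ = p ^ 3 * (r ^ 2 + r - 1) * (A * M') := by ring
      _ ≤ (p ^ 2 + p - 1) * r ^ 3 * (A * M') := Nat.mul_le_mul_right _ hb
      _ = _ := by ring
  by_cases hall : ∀ r ∈ π, ∀ [Fact r.Prime], HasNormalPComplement r G
  · obtain ⟨N, -, hN1, hN2, H, hNH, hHc⟩ := exists_piComplement π hπ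
      fun r hr _ => ⟨hall r hr, hsyl r hr⟩
    exact ⟨H, hHc, eq_piPart hπ Nat.card_pos.ne' hNH.card_mul_card hN1 (hNH.symm.index_eq_card ▸ hN2)⟩
  push Not at hall
  obtain ⟨r, hr, hrp, hrn⟩ := hall
  set σ := π.erase r with hσdef
  have hrσ : r ∉ σ := Finset.notMem_erase r π
  have hπσ : insert r σ = π := Finset.insert_erase hr
  have hσ : ∀ q ∈ σ, q.Prime := fun q hq => hπ q (Finset.mem_of_mem_erase hq)
  have hσp : ∀ q ∈ σ, p ≤ q := fun q hq => hpmin q (Finset.mem_of_mem_erase hq)
  obtain ⟨R⟩ := (inferInstance : Nonempty (Sylow r G))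
  have hRc := hsyl r hr R
  set N := r ^ (Nat.card G).factorization r with hNdef
  have hNR : Nat.card (R : Subgroup G) = N := R.card_eq_multiplicity
  rcases σ.eq_empty_or_nonempty with hσe | hσne
  · refine ⟨R, hRc, ?_⟩
    rw [piPart_erase hr, ← hσdef, hσe, hNR]
    simp [piPart, hNdef]
  set q := σ.min' hσne with hqdef
  have hqσ : q ∈ σ := σ.min'_mem hσne
  have hq2 : 2 ≤ q := (hσ q hqσ).two_le
  have hqmin : ∀ t ∈ σ, q ≤ t := fun t ht => σ.min'_le t ht
  have hqr : q ≠ r := fun h => hrσ (h ▸ hqσ)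
  set M := piPart σ (Nat.card G) with hMdef
  have hπpart : piPart π (Nat.card G) = N * M := piPart_erase hr _
  rw [hπpart] at hk ⊢
  -- a Hall subgroup for the other primes
  obtain ⟨H, hHc, hH⟩ := ih σ (Finset.erase_ssubset hr) hσ p hp hσp G (by
    refine Nat.lt_of_mul_lt_mul_left (a := N) ?_
    calc N * ((p ^ 2 + p - 1) * M) = (p ^ 2 + p - 1) * (N * M) := by ring
      _ < p ^ 3 * piCount π G := hk
      _ ≤ p ^ 3 * (piCount σ G * N) := Nat.mul_le_mul_left _ (hπσ ▸ piCount_insert_le σ hσ hrp.out hrσ G)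
      _ = _ := by ring)
  have hHall := coprime_index_of_card_eq_piPart σ hσ H hH
  obtain ⟨R₁, hR₁⟩ : ∃ R₁ : Sylow r (Subgroup.centralizer (H : Set G)), True := ⟨default, trivial⟩
  set N₁ := Nat.card (R₁ : Subgroup (Subgroup.centralizer (H : Set G))) with hN₁
  set R₁' := (R₁ : Subgroup (Subgroup.centralizer (H : Set G))).map (Subgroup.centralizer (H : Set G)).subtype with hR₁'
  have hR₁c : Nat.card R₁' = N₁ := Subgroup.card_map_of_injective (Subgroup.subtype_injective _)
  by_cases hfull : N ≤ N₁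
  · -- a Sylow subgroup commutes with `H`
    have hp' : IsPGroup r R₁' := R₁.2.map _
    obtain ⟨S, hS⟩ := hp'.exists_le_sylow
    have hRS : R₁' = (S : Subgroup G) := Subgroup.eq_of_le_of_card_ge hS (by
      rw [hR₁c, S.card_eq_multiplicity]; exact hfull)
    have hSH : (S : Subgroup G) ≤ Subgroup.centralizer (H : Set G) := hRS ▸ Subgroup.map_subtype_le _
    refine ⟨(S : Subgroup G) ⊔ H, isMulCommutative_sup _ _ (hsyl r hr S) hHc hSH, ?_⟩
    rw [card_sup_of_commute _ _ hSH, S.card_eq_multiplicity, hH]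
    rw [S.card_eq_multiplicity, hH]
    exact Nat.coprime_of_dvd fun t ht h1 h2 => hrσ ((Nat.prime_dvd_prime_iff_eq ht hrp.out).1
      (ht.dvd_of_dvd_pow h1) ▸ mem_of_dvd_piPart hσ ht h2)
  exfalso
  push Not at hfull
  -- `N₁` is at most `N / r`
  have hN₁r : r * N₁ ≤ N := by
    obtain ⟨j, hj⟩ := IsPGroup.iff_card.1 R₁.2
    rw [hN₁, hj] at hfull ⊢
    rw [hNdef] at hfull ⊢
    rw [← pow_succ']
    exact Nat.pow_le_pow_right hrp.out.pos ((Nat.pow_lt_pow_iff_right hrp.out.one_lt).1 hfull)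
  let good : RClasses r G → Prop := fun c => ∃ g : G,
    H.map (MulAut.conj g).toMonoidHom ≤ Subgroup.centralizer ({Quotient.out c.1} : Set G)
  have : Fintype (RClasses r G) := Fintype.ofFinite _
  set T := (Finset.univ.filter fun c => good c).card with hT
  -- few good classes
  have hTN : r * T ≤ N := by
    refine (Nat.mul_le_mul_left r ?_).trans hN₁r
    have key : ∀ c : RClasses r G, good c → ∃ u : R₁', ConjClasses.mk (u : G) = c.1 := by
      rintro c ⟨g, hg⟩
      have hx : g⁻¹ * Quotient.out c.1 * g ∈ Subgroup.centralizer (H : Set G) := by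
        rw [Subgroup.mem_centralizer_iff]
        intro h hh
        have h1 : g * h * g⁻¹ * Quotient.out c.1 = Quotient.out c.1 * (g * h * g⁻¹) :=
          Subgroup.mem_centralizer_singleton_iff.1 (hg (Subgroup.mem_map_of_mem _ hh))
        calc h * (g⁻¹ * Quotient.out c.1 * g) = g⁻¹ * (g * h * g⁻¹ * Quotient.out c.1) * g := by group
          _ = _ := by rw [h1]; group
      obtain ⟨j, hj⟩ := out_rClass c
      have hxo : orderOf (g⁻¹ * Quotient.out c.1 * g) = r ^ j := by
        rw [← hj]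
        have := orderOf_injective (MulAut.conj g⁻¹).toMonoidHom (MulAut.conj g⁻¹).injective (Quotient.out c.1)
        simpa using this
      obtain ⟨U, hU⟩ := (IsPGroup.of_card (p := r) (n := j)
        (show Nat.card (Subgroup.zpowers (⟨_, hx⟩ : Subgroup.centralizer (H : Set G))) = r ^ j by
          rw [Nat.card_zpowers, Subgroup.orderOf_mk, hxo])).exists_le_sylow
      obtain ⟨d, hd⟩ := MulAction.exists_smul_eq (Subgroup.centralizer (H : Set G)) U R₁
      have hmem : d * ⟨_, hx⟩ * d⁻¹ ∈ (d • U : Sylow r (Subgroup.centralizer (H : Set G))).1 :=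
        ⟨_, hU (Subgroup.mem_zpowers _), rfl⟩
      rw [hd] at hmem
      refine ⟨⟨_, Subgroup.mem_map_of_mem _ hmem⟩, ?_⟩
      refine (ConjClasses.mk_eq_mk_iff_isConj.2 (isConj_iff.2 ⟨g * (d : G)⁻¹, ?_⟩)).trans (Quotient.out_eq c.1)
      show g * (d : G)⁻¹ * ((d : G) * (g⁻¹ * Quotient.out c.1 * g) * (d : G)⁻¹) * (g * (d : G)⁻¹)⁻¹ = Quotient.out c.1
      group
    rw [hT, ← hR₁c, ← Fintype.card_subtype, ← Nat.card_eq_fintype_card]
    refine Nat.card_le_card_of_injective (fun c => Classical.choose (key c.1 c.2)) ?_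
    intro a b hab
    refine Subtype.ext (Subtype.ext ?_)
    have hab' : Classical.choose (key a.1 a.2) = Classical.choose (key b.1 b.2) := hab
    rw [← Classical.choose_spec (key a.1 a.2), ← Classical.choose_spec (key b.1 b.2), hab']
  -- classes outside are small
  have hbad : ∀ c, ¬ good c → q ^ 2 * piCount σ (Subgroup.centralizer ({Quotient.out c.1} : Set G)) ≤ (q + 1) * M := by
    intro c hc
    set C := Subgroup.centralizer ({Quotient.out c.1} : Set G) with hC
    have hle := piCount_le (G := C) σ hσ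
    have hdvd : piPart σ (Nat.card C) ∣ M := piPart_dvd_of_subgroup σ C
    by_cases heq : piPart σ (Nat.card C) = M
    · by_contra hlt
      push Not at hlt
      apply hc
      obtain ⟨K, hKc, hK⟩ := ih σ (Finset.erase_ssubset hr) hσ q hq2 hqmin C (by
        rw [heq]
        have e : q ^ 2 + q - 1 ≤ q * (q + 1) := by rw [Nat.mul_succ]; rw [sq]; omega
        calc (q ^ 2 + q - 1) * M ≤ q * (q + 1) * M := Nat.mul_le_mul_right _ e
          _ = q * ((q + 1) * M) := by ring
          _ < q * (q ^ 2 * piCount σ C) := (Nat.mul_lt_mul_left (by omega)).2 hlt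
          _ = _ := by ring)
      set K' := K.map C.subtype
      have hK'c : IsMulCommutative K' := Subgroup.map_isMulCommutative K C.subtype
      obtain ⟨g, hg⟩ := CfsgLib.Transfer.abelian_hall_conj (Nat.card G) le_rfl H K' hHc hK'c
        (by rw [Subgroup.card_map_of_injective C.subtype_injective, hK, heq, hH]) hHall
      refine ⟨g⁻¹, ?_⟩
      rw [← hg, Subgroup.map_map]
      rintro _ ⟨x, hx, rfl⟩
      have : ((MulAut.conj g⁻¹).toMonoidHom.comp (MulAut.conj g).toMonoidHom) x = x := by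
        simp [MulAut.conj_apply, mul_assoc]
      rw [this]
      exact Subgroup.map_subtype_le _ hx
    · obtain ⟨d, hd⟩ := hdvd
      have hd1 : d ≠ 1 := by rintro rfl; exact heq (by rw [hd, mul_one])
      have hd0 : d ≠ 0 := by
        rintro rfl
        exact (piPart_pos σ hσ (Nat.card G)).ne' (hd.trans (mul_zero _))
      obtain ⟨t, ht, htd⟩ := Nat.exists_prime_and_dvd hd1
      have htq : q ≤ d := (hqmin t (mem_of_dvd_piPart hσ ht (htd.trans (Dvd.intro_left _ hd.symm)))).trans
        (Nat.le_of_dvd (Nat.pos_of_ne_zero hd0) htd)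
      rw [hd]
      calc q ^ 2 * piCount σ C ≤ q ^ 2 * piPart σ (Nat.card C) := Nat.mul_le_mul_left _ hle
        _ ≤ (q + 1) * (piPart σ (Nat.card C) * d) := by
          have := Nat.mul_le_mul_left (q * piPart σ (Nat.card C)) htq
          nlinarith
  have hall' : ∀ c : RClasses r G, piCount σ (Subgroup.centralizer ({Quotient.out c.1} : Set G)) ≤ M := fun c =>
    (piCount_le σ hσ).trans (Nat.le_of_dvd (piPart_pos σ hσ _) (piPart_dvd_of_subgroup σ _))
  set k := Fintype.card (RClasses r G) with hkdef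
  have hTk : T ≤ k := Finset.card_filter_le _ _
  have hsum : piCount π G = ∑ c : RClasses r G, piCount σ (Subgroup.centralizer ({Quotient.out c.1} : Set G)) := by
    rw [← hπσ, piCount_insert σ r hrσ]
  -- summation against a weight
  have hweight : ∀ a w : ℕ, (∀ c, good c → a * piCount σ (Subgroup.centralizer ({Quotient.out c.1} : Set G)) ≤ w) →
      ∀ v : ℕ, (∀ c, ¬ good c → a * piCount σ (Subgroup.centralizer ({Quotient.out c.1} : Set G)) ≤ v) →
      a * piCount π G + T * v ≤ T * w + k * v := by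
    intro a w hw v hv
    rw [hsum, Finset.mul_sum, ← Finset.sum_filter_add_sum_filter_not _ good]
    have h1 := Finset.sum_le_card_nsmul (Finset.univ.filter fun c => good c) _ w
      fun c hc => hw c (Finset.mem_filter.1 hc).2
    have h2 := Finset.sum_le_card_nsmul (Finset.univ.filter fun c => ¬ good c) _ v
      fun c hc => hv c (Finset.mem_filter.1 hc).2
    have h3 : (Finset.univ.filter fun c => ¬ good c).card + T = k := by
      rw [hT, add_comm, Finset.card_filter_add_card_filter_not, hkdef, Finset.card_univ]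
    rw [smul_eq_mul, ← hT] at h1
    rw [smul_eq_mul] at h2
    have h4 : (Finset.univ.filter fun c => ¬ good c).card * v + T * v = k * v := by rw [← h3, add_mul]
    omega
  by_cases hcase : ∃ c : RClasses r G, good c ∧ ∀ s ∈ σ, ∀ [Fact s.Prime],
      HasNormalPComplement s (Subgroup.centralizer ({Quotient.out c.1} : Set G))
  · obtain ⟨c, ⟨g, hg⟩, hnil⟩ := hcase
    set C := Subgroup.centralizer ({Quotient.out c.1} : Set G) with hC
    obtain ⟨j, hj⟩ := out_rClass c
    obtain ⟨S, hS⟩ := (IsPGroup.of_card (p := r) (n := j)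
      (show Nat.card (Subgroup.zpowers (Quotient.out c.1)) = r ^ j by rw [Nat.card_zpowers, hj])).exists_le_sylow
    have hSC : (S : Subgroup G) ≤ C := fun u hu => Subgroup.mem_centralizer_singleton_iff.2
      (congrArg Subtype.val ((hsyl r hr S).is_comm.comm ⟨u, hu⟩ ⟨_, hS (Subgroup.mem_zpowers _)⟩))
    obtain ⟨K, hKn, hK1, hK2, HC, hKH, hHCc⟩ := exists_piComplement (G := C) σ hσ fun s hs _ => by
      refine ⟨hnil s hs, fun P => ?_⟩
      obtain ⟨Q, hQ⟩ := (P.2.map C.subtype).exists_le_sylow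
      have hQc := hsyl s (Finset.mem_of_mem_erase hs) Q
      exact ⟨⟨fun a b => Subtype.ext (Subtype.ext (congrArg Subtype.val
        (hQc.is_comm.comm ⟨_, hQ (Subgroup.mem_map_of_mem _ a.2)⟩ ⟨_, hQ (Subgroup.mem_map_of_mem _ b.2)⟩) :))⟩⟩
    have hCfull : piPart σ (Nat.card C) = M := Nat.dvd_antisymm (piPart_dvd_of_subgroup σ C) (by
      have h1 : M ∣ Nat.card C := by
        rw [hMdef, ← hH, ← Subgroup.card_map_of_injective (K := H) (f := (MulAut.conj g).toMonoidHom) (MulAut.conj g).injective]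
        exact Subgroup.card_dvd_of_le hg
      obtain ⟨c', hc'⟩ := piPart_dvd σ hσ (Nat.card C)
      exact (Nat.coprime_of_dvd (n := c') fun t ht h2 h3 =>
        not_dvd_div_piPart hσ Nat.card_pos.ne' hc'.symm (mem_of_dvd_piPart hσ ht h2) h3).dvd_of_dvd_mul_right
          (hc' ▸ h1))
    have hKi : K.index = M := by
      rw [hKH.symm.index_eq_card]
      exact (eq_piPart hσ Nat.card_pos.ne' hKH.card_mul_card hK1 (hKH.symm.index_eq_card ▸ hK2)).trans hCfull
    set SC : Sylow r C := S.subtype hSC with hSCdef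
    have hSK : (SC : Subgroup C) ≤ K := by
      intro u hu
      rw [← QuotientGroup.eq_one_iff, ← orderOf_eq_one_iff]
      refine Nat.Coprime.eq_one_of_dvd ?_ (orderOf_map_dvd (QuotientGroup.mk' K) u)
      have hd : orderOf (QuotientGroup.mk' K u) ∣ M := hKi ▸ (Subgroup.index_eq_card K ▸ orderOf_dvd_natCard _)
      refine Nat.coprime_of_dvd fun t ht h1 h2 => ?_
      have h3 := mem_of_dvd_piPart hσ ht (h1.trans hd)
      obtain ⟨i, hi⟩ := IsPGroup.iff_card.1 SC.2
      have h4 := h2.trans (hi ▸ Subgroup.orderOf_dvd_natCard _ hu)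
      exact hrσ ((Nat.prime_dvd_prime_iff_eq ht hrp.out).1 (ht.dvd_of_dvd_pow h4) ▸ h3)
    set NS := Subgroup.normalizer ((SC : Subgroup C) : Set C) with hNS
    have hfr : NS ⊔ K = ⊤ := Sylow.normalizer_sup_eq_top' SC hSK
    have hKN : (K.subgroupOf NS).index = M := by
      rw [← hKi, ← Subgroup.relIndex_top_right K, ← hfr, Subgroup.relIndex_sup_right]; rfl
    obtain ⟨A, hA⟩ := Subgroup.exists_right_complement'_of_coprime (N := K.subgroupOf NS) (by
      rw [hKN]
      exact Nat.coprime_of_dvd fun t ht h1 h2 => hK1 t ht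
        (h1.trans (Subgroup.card_comap_dvd_of_injective K NS.subtype NS.subtype_injective))
        (mem_of_dvd_piPart hσ ht h2))
    have hAc : Nat.card A = M := by rw [← hA.symm.index_eq_card, hKN]
    set A' := (A.map NS.subtype).map C.subtype with hA'
    have hA'c : Nat.card A' = M := by
      rw [Subgroup.card_map_of_injective C.subtype_injective, Subgroup.card_map_of_injective NS.subtype_injective, hAc]
    have hA'comm : IsMulCommutative A' := by
      have hCK : IsMulCommutative (C ⧸ K) := ⟨⟨fun a b => by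
        apply hKH.symm.QuotientMulEquiv.symm.symm.injective
        rw [map_mul, map_mul]
        exact hHCc.is_comm.comm _ _⟩⟩
      have : IsMulCommutative A := ⟨⟨fun a b => by
        let f : A →* C ⧸ K := ((QuotientGroup.mk' K).comp NS.subtype).comp A.subtype
        have hf : Function.Injective f := (injective_iff_map_eq_one f).2 fun x hx => by
          have h1 : (x : NS) ∈ K.subgroupOf NS := (QuotientGroup.eq_one_iff ((x : NS) : C)).1 hx
          have h2 : (x : NS) ∈ K.subgroupOf NS ⊓ A := ⟨h1, x.2⟩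
          rw [hA.disjoint.eq_bot, Subgroup.mem_bot] at h2
          exact Subtype.ext h2
        apply hf
        rw [map_mul, map_mul]
        exact hCK.is_comm.comm _ _⟩⟩
      have : IsMulCommutative (A.map NS.subtype) := Subgroup.map_isMulCommutative A _
      exact Subgroup.map_isMulCommutative _ _
    have hA'N : A' ≤ Subgroup.normalizer ((S : Subgroup G) : Set G) := by
      rintro _ ⟨a, ha, rfl⟩
      have hle : (SC : Subgroup C).map C.subtype = (S : Subgroup G) := Subgroup.map_subgroupOf_eq_of_le hSC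
      rw [← hle]
      exact Subgroup.le_normalizer_map C.subtype ⟨a, Subgroup.map_subtype_le _ ha, rfl⟩
    by_cases hcen : A' ≤ Subgroup.centralizer ((S : Subgroup G) : Set G)
    · obtain ⟨g', hg'⟩ := CfsgLib.Transfer.abelian_hall_conj (Nat.card G) le_rfl H A' hHc hA'comm
        (by rw [hA'c, hH]) hHall
      have hS' : (S : Subgroup G).map (MulAut.conj g').toMonoidHom ≤ Subgroup.centralizer (H : Set G) := by
        rw [← hg']
        rintro _ ⟨u, hu, rfl⟩
        rw [Subgroup.mem_centralizer_iff]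
        rintro _ ⟨a, ha, rfl⟩
        rw [← map_mul, ← map_mul, ← Subgroup.mem_centralizer_iff.1 (Subgroup.le_centralizer_iff.1 hcen hu) a ha]
      have hp' : IsPGroup r (((S : Subgroup G).map (MulAut.conj g').toMonoidHom).subgroupOf (Subgroup.centralizer (H : Set G))) :=
        (S.2.map _).comap_of_injective _ (Subgroup.subtype_injective _)
      obtain ⟨U, hU⟩ := hp'.exists_le_sylow
      have h1 := Subgroup.card_le_of_le hU
      rw [Nat.card_congr (Subgroup.subgroupOfEquivOfLe hS').toEquiv, Subgroup.card_map_of_injective (MulAut.conj g').injective,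
        S.card_eq_multiplicity, U.card_eq_multiplicity, ← R₁.card_eq_multiplicity] at h1
      exact absurd h1 (not_le.2 hfull)
    obtain ⟨s, hsp, hsA, hks⟩ := not_le_centralizer_bound S (hsyl r hr S) A' hA'N hcen (by
      rw [hA'c]
      exact (hrp.out.coprime_iff_not_dvd.2 fun h => hrσ (mem_of_dvd_piPart hσ hrp.out h)).symm)
    have hsσ : s ∈ σ := mem_of_dvd_piPart hσ hsp (hA'c ▸ hsA)
    rw [S.card_eq_multiplicity, ← hNdef, Nat.card_eq_fintype_card, ← hkdef] at hks
    have hqs := hqmin s hsσ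
    have hk' : r * q * k ≤ (q + (r - 1)) * N := by
      refine Nat.le_of_mul_le_mul_left ?_ hsp.pos
      calc s * (r * q * k) = q * (r * s * k) := by ring
        _ ≤ q * ((s + (r - 1)) * N) := Nat.mul_le_mul_left _ hks
        _ ≤ s * ((q + (r - 1)) * N) := by nlinarith [Nat.mul_le_mul_right ((r - 1) * N) hqs]
    have hb := bound_normal_case hp (hσp q hqσ) (hpmin r hr) hqr
    have hw := hweight (q ^ 2) (q ^ 2 * M) (fun c _ => Nat.mul_le_mul_left _ (hall' c)) ((q + 1) * M) hbad
    have hq1 : q + 1 ≤ q ^ 2 := by nlinarith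
    obtain ⟨e, he⟩ := Nat.exists_eq_add_of_le hq1
    rw [he] at hw
    have h1 : (q + 1 + e) * piCount π G ≤ M * ((q + 1) * k + e * T) :=
      Nat.le_of_add_le_add_right (b := T * ((q + 1) * M)) (hw.trans_eq (by ring))
    have h2 : r * q ^ 3 * piCount π G ≤ N * M * (q ^ 3 + (r - 1) * (q + 1)) := by
      calc r * q ^ 3 * piCount π G = r * q * ((q + 1 + e) * piCount π G) := by rw [← he]; ring
        _ ≤ r * q * (M * ((q + 1) * k + e * T)) := Nat.mul_le_mul_left _ h1
        _ = M * ((q + 1) * (r * q * k) + q * e * (r * T)) := by ring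
        _ ≤ M * ((q + 1) * ((q + (r - 1)) * N) + q * e * N) := by
            exact Nat.mul_le_mul_left _ (Nat.add_le_add (Nat.mul_le_mul_left _ hk') (Nat.mul_le_mul_left _ hTN))
        _ = N * M * (q * (q + 1 + e) + (r - 1) * (q + 1)) := by ring
        _ = _ := by rw [← he]; ring
    have hpos : 0 < r * q ^ 3 := Nat.mul_pos hrp.out.pos (pow_pos (by omega) 3)
    refine absurd hk (not_lt.2 (Nat.le_of_mul_le_mul_left ?_ hpos))
    calc r * q ^ 3 * (p ^ 3 * piCount π G) = p ^ 3 * (r * q ^ 3 * piCount π G) := by ring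
      _ ≤ p ^ 3 * (N * M * (q ^ 3 + (r - 1) * (q + 1))) := Nat.mul_le_mul_left _ h2
      _ = N * M * (p ^ 3 * (q ^ 3 + (r - 1) * (q + 1))) := by ring
      _ ≤ N * M * ((p ^ 2 + p - 1) * r * q ^ 3) := Nat.mul_le_mul_left _ hb
      _ = _ := by ring
  · push Not at hcase
    have hk' : 2 * r * k ≤ (r + 1) * N := by
      rw [hkdef, ← Nat.card_eq_fintype_card, ← hNR]
      by_cases h2 : r = 2
      · subst h2
        have := card_twoClasses_le_of_not R hrn
        change 2 * Nat.card (RClasses 2 G) ≤ _ at this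
        nlinarith
      · exact card_pClasses_le_of_not h2 R fun h => hrn h.1
    have hgood : ∀ c, good c → 2 * q ^ 2 * piCount σ (Subgroup.centralizer ({Quotient.out c.1} : Set G)) ≤ q * (q + 1) * M := by
      intro c hc
      obtain ⟨s, hs, hsp, hsn⟩ := hcase c hc
      set C := Subgroup.centralizer ({Quotient.out c.1} : Set G)
      obtain ⟨P⟩ := (inferInstance : Nonempty (Sylow s C))
      have hks : 2 * s * Nat.card (RClasses s C) ≤ (s + 1) * Nat.card (P : Subgroup C) := by
        by_cases h2 : s = 2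
        · subst h2
          have := card_twoClasses_le_of_not P hsn
          change 2 * Nat.card (RClasses 2 C) ≤ _ at this
          nlinarith
        · exact card_pClasses_le_of_not h2 P fun h => hsn h.1
      rw [P.card_eq_multiplicity] at hks
      have h1 := piCount_le_erase (G := C) σ hσ hs
      have h2 := piPart_erase hs (Nat.card C)
      have h3 := Nat.le_of_dvd (piPart_pos σ hσ _) (piPart_dvd_of_subgroup σ C)
      have hqs := hqmin s hs
      set M' := piPart (σ.erase s) (Nat.card C)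
      have hs0 : 0 < s := hsp.out.pos
      refine Nat.le_of_mul_le_mul_left ?_ hs0
      calc s * (2 * q ^ 2 * piCount σ C) ≤ s * (2 * q ^ 2 * (Nat.card (RClasses s C) * M')) :=
            Nat.mul_le_mul_left _ (Nat.mul_le_mul_left _ h1)
        _ = q ^ 2 * (2 * s * Nat.card (RClasses s C)) * M' := by ring
        _ ≤ q ^ 2 * ((s + 1) * s ^ (Nat.card C).factorization s) * M' :=
            Nat.mul_le_mul_right _ (Nat.mul_le_mul_left _ hks)
        _ = q * (q * (s + 1)) * piPart σ (Nat.card C) := by rw [h2]; ring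
        _ ≤ q * ((q + 1) * s) * M := Nat.mul_le_mul (Nat.mul_le_mul_left _ (by nlinarith)) h3
        _ = _ := by ring
    have hw := hweight (2 * q ^ 2) _ hgood (2 * ((q + 1) * M)) (fun c hc => by
      rw [mul_assoc]; exact Nat.mul_le_mul_left _ (hbad c hc))
    have hb := bound_other_case hp (hσp q hqσ) (hpmin r hr) hqr
    obtain ⟨e, he⟩ := Nat.exists_eq_add_of_le hq2
    have h1 : 2 * q ^ 2 * piCount π G ≤ M * (q + 1) * (2 * k + e * T) :=
      Nat.le_of_add_le_add_right (b := T * (2 * ((q + 1) * M))) (hw.trans_eq (by rw [he]; ring))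
    have h2 : r * (2 * q ^ 2 * piCount π G) ≤ N * M * ((q + 1) * (q + r - 1)) := by
      calc r * (2 * q ^ 2 * piCount π G) ≤ r * (M * (q + 1) * (2 * k + e * T)) := Nat.mul_le_mul_left _ h1
        _ = M * (q + 1) * (2 * r * k + e * (r * T)) := by ring
        _ ≤ M * (q + 1) * ((r + 1) * N + e * N) := Nat.mul_le_mul_left _ (Nat.add_le_add hk' (Nat.mul_le_mul_left _ hTN))
        _ = N * M * ((q + 1) * (r + 1 + e)) := by ring
        _ = _ := by rw [show q + r - 1 = r + 1 + e by omega]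
    have hpos : 0 < 2 * r * q ^ 2 := Nat.mul_pos (Nat.mul_pos two_pos hrp.out.pos) (pow_pos (by omega) 2)
    have h3 : p * piCount π G ≤ N * M := by
      refine Nat.le_of_mul_le_mul_left ?_ hpos
      calc 2 * r * q ^ 2 * (p * piCount π G) = p * (r * (2 * q ^ 2 * piCount π G)) := by ring
        _ ≤ p * (N * M * ((q + 1) * (q + r - 1))) := Nat.mul_le_mul_left _ h2
        _ = N * M * (p * ((q + 1) * (q + r - 1))) := by ring
        _ ≤ N * M * (2 * r * q ^ 2) := Nat.mul_le_mul_left _ hb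
        _ = _ := by ring
    have h4 : p ^ 2 ≤ p ^ 2 + p - 1 := by omega
    nlinarith [Nat.mul_le_mul_left (p ^ 2) h3, Nat.mul_le_mul_right (N * M) h4]

end CfsgLib.ElementOrders
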