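import Cfsg.Agent.Lib.ElementOrders.PiHallAbelian
import Cfsg.Agent.Lib.CoprimeAction.Sylow
import Cfsg.Agent.Lib.CharTheory.Linear
import Cfsg.Agent.Lib.CharTheory.Degree
import Cfsg.Agent.Lib.TwoGroups.PBasics

/-!
More than `|G|_π / p` classes of `π`-elements, `p = min π`: a Sylow `p`-subgroup centralises an
abelian Hall subgroup for the other primes.
-/

set_option autoImplicit false

namespace CfsgLib.ElementOrders

open Cfsg CfsgLib.HallClasses
open scoped commutatorElement

universe u

variable {G : Type u} [Group G] [Finite G]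

/-- A `p`-group with `|P'| ≥ p ^ 2` has at most `|P| / p` classes. -/
theorem mul_card_conjClasses_le {p : ℕ} [hp : Fact p.Prime] {P : Type*} [Group P] [Finite P]
    (hP : IsPGroup p P) (h : p ^ 2 ≤ Nat.card (commutator P)) :
    p * Nat.card (ConjClasses P) ≤ Nat.card P := by
  classical
  haveI := Fintype.ofFinite (Cfsg.IrrCharacter P)
  let deg : Cfsg.IrrCharacter P → ℕ := fun χ =>
    Classical.choose (CfsgLib.CharTheory.IsIrrCharacter.exists_degree_dvd χ.2)
  have hdeg : ∀ χ, 0 < deg χ ∧ deg χ ∣ Nat.card P ∧ (χ : P → ℂ) 1 = deg χ := fun χ =>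
    Classical.choose_spec (CfsgLib.CharTheory.IsIrrCharacter.exists_degree_dvd χ.2)
  have hsum : ∑ χ, deg χ ^ 2 = Nat.card P := by
    have h1 := CfsgLib.CharTheory.sum_degree_sq (G := P)
    simp only [(hdeg _).2.2] at h1
    exact_mod_cast h1
  have hlin : (Finset.univ.filter fun χ => deg χ = 1).card = (commutator P).index := by
    rw [← CfsgLib.CharTheory.card_linear, Nat.card_eq_fintype_card, Fintype.card_subtype]
    congr 1
    ext χ
    simp only [Finset.mem_filter, Finset.mem_univ, true_and, (hdeg χ).2.2, Nat.cast_eq_one]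
  obtain ⟨a, ha⟩ := IsPGroup.iff_card.1 hP
  have hrest : ∀ χ, ¬ deg χ = 1 → p ^ 2 ≤ deg χ ^ 2 := by
    intro χ h1
    obtain ⟨j, -, hj⟩ := (Nat.dvd_prime_pow hp.out).1 (ha ▸ (hdeg χ).2.1)
    refine Nat.pow_le_pow_left ?_ 2
    rw [hj]
    exact Nat.le_self_pow (by rintro rfl; exact h1 (by rw [hj, pow_zero])) p
  have hk : Nat.card (ConjClasses P) = (Finset.univ.filter fun χ => deg χ = 1).card +
      (Finset.univ.filter fun χ => ¬ deg χ = 1).card := by
    rw [Finset.card_filter_add_card_filter_not, ← CfsgLib.CharTheory.card_irrCharacter,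
      Nat.card_eq_fintype_card, Finset.card_univ]
  have h2 : (Finset.univ.filter fun χ => ¬ deg χ = 1).card * p ^ 2 ≤ Nat.card P := by
    rw [← smul_eq_mul, ← hsum]
    refine (Finset.card_nsmul_le_sum _ (fun χ => deg χ ^ 2) _ fun χ hχ => hrest χ (Finset.mem_filter.1 hχ).2).trans ?_
    exact Finset.sum_le_univ_sum_of_nonneg fun _ => Nat.zero_le _
  have h3 : (Finset.univ.filter fun χ => deg χ = 1).card * p ^ 2 ≤ Nat.card P := by
    rw [hlin, ← (commutator P).card_mul_index, mul_comm (Nat.card (commutator P))]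
    exact Nat.mul_le_mul_left _ h
  refine Nat.le_of_mul_le_mul_left ?_ hp.out.pos
  rw [hk]
  have := Nat.mul_le_mul_right (Nat.card P) hp.out.two_le
  nlinarith

theorem card_rClasses_le_conjClasses {p : ℕ} [Fact p.Prime] (P : Sylow p G) :
    Nat.card (RClasses p G) ≤ Nat.card (ConjClasses (P : Subgroup G)) := by
  classical
  refine (card_pClasses_le_ncard_image P).trans ?_
  rw [← Nat.card_coe_set_eq]
  refine Nat.card_le_card_of_surjective
    (Quotient.lift (fun u : (P : Subgroup G) =>
      (⟨ConjClasses.mk (u : G), ⟨(u : G), u.2, rfl⟩⟩ : ↥(ConjClasses.mk '' ((P : Subgroup G) : Set G))))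
      (fun u v huv => Subtype.ext (ConjClasses.mk_eq_mk_iff_isConj.2
        ((P : Subgroup G).subtype.map_isConj huv)))) ?_
  rintro ⟨_, u, hu, rfl⟩
  exact ⟨ConjClasses.mk ⟨u, hu⟩, rfl⟩

/-- Unless there are an abelian Sylow subgroup and a normal complement, few `s`-classes. -/
theorem card_rClasses_le_half {s : ℕ} [hs : Fact s.Prime]
    (h : ¬ (HasNormalPComplement s G ∧ ∀ P : Sylow s G, IsMulCommutative (P : Subgroup G))) :
    2 * s * Nat.card (RClasses s G) ≤ (s + 1) * s ^ (Nat.card G).factorization s := by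
  classical
  by_cases hn : HasNormalPComplement s G
  · have h' : ¬ ∀ P : Sylow s G, IsMulCommutative (P : Subgroup G) := fun h1 => h ⟨hn, h1⟩
    push Not at h'
    obtain ⟨P, hP⟩ := h'
    rw [← P.card_eq_multiplicity]
    by_cases h2 : s = 2
    · subst h2
      have := card_pClasses_le_of_nonabelian P hP
      change 2 ^ 3 * Nat.card (RClasses 2 G) ≤ _ at this
      norm_num at this ⊢
      omega
    · exact card_pClasses_le_of_not h2 P fun h1 => hP h1.2
  · obtain ⟨P⟩ := (inferInstance : Nonempty (Sylow s G))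
    rw [← P.card_eq_multiplicity]
    by_cases h2 : s = 2
    · subst h2
      have := card_twoClasses_le_of_not P hn
      change 2 * Nat.card (RClasses 2 G) ≤ _ at this
      omega
    · exact card_pClasses_le_of_not h2 P fun h1 => hn h1.1

/-- The good classes inject into a Sylow subgroup of the centraliser of `H`. -/
theorem card_good_le {r : ℕ} [hr : Fact r.Prime] (H : Subgroup G)
    (R₁ : Sylow r (Subgroup.centralizer (H : Set G))) :
    Nat.card {c : RClasses r G // ∃ g : G,
      H.map (MulAut.conj g).toMonoidHom ≤ Subgroup.centralizer ({Quotient.out c.1} : Set G)} ≤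
      Nat.card (R₁ : Subgroup (Subgroup.centralizer (H : Set G))) := by
  classical
  have key : ∀ c : {c : RClasses r G // ∃ g : G,
      H.map (MulAut.conj g).toMonoidHom ≤ Subgroup.centralizer ({Quotient.out c.1} : Set G)},
      ∃ u : (R₁ : Subgroup (Subgroup.centralizer (H : Set G))),
        ConjClasses.mk ((u : Subgroup.centralizer (H : Set G)) : G) = c.1.1 := by
    rintro ⟨c, g, hg⟩
    have hx : g⁻¹ * Quotient.out c.1 * g ∈ Subgroup.centralizer (H : Set G) := by
      rw [Subgroup.mem_centralizer_iff]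
      intro h hh
      have h1 : g * h * g⁻¹ * Quotient.out c.1 = Quotient.out c.1 * (g * h * g⁻¹) :=
        Subgroup.mem_centralizer_singleton_iff.1 (hg (Subgroup.mem_map_of_mem _ hh))
      calc h * (g⁻¹ * Quotient.out c.1 * g) = g⁻¹ * (g * h * g⁻¹ * Quotient.out c.1) * g := by group
        _ = _ := by rw [h1]; group
    obtain ⟨j, hj⟩ := out_rClass c
    have hxo : orderOf (g⁻¹ * Quotient.out c.1 * g) = r ^ j := by
      rw [← hj]
      have := orderOf_injective (MulAut.conj g⁻¹).toMonoidHom (MulAut.conj g⁻¹).injective (Quotient.out c.1)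
      simpa using this
    obtain ⟨U, hU⟩ := (IsPGroup.of_card (p := r) (n := j)
      (show Nat.card (Subgroup.zpowers (⟨_, hx⟩ : Subgroup.centralizer (H : Set G))) = r ^ j by
        rw [Nat.card_zpowers, Subgroup.orderOf_mk, hxo])).exists_le_sylow
    obtain ⟨d, hd⟩ := MulAction.exists_smul_eq (Subgroup.centralizer (H : Set G)) U R₁
    have hmem : d * ⟨_, hx⟩ * d⁻¹ ∈ (d • U : Sylow r (Subgroup.centralizer (H : Set G))).1 :=
      ⟨_, hU (Subgroup.mem_zpowers _), rfl⟩
    rw [hd] at hmem
    refine ⟨⟨_, hmem⟩, ?_⟩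
    refine (ConjClasses.mk_eq_mk_iff_isConj.2 (isConj_iff.2 ⟨g * (d : G)⁻¹, ?_⟩)).trans (Quotient.out_eq c.1)
    show g * (d : G)⁻¹ * ((d : G) * (g⁻¹ * Quotient.out c.1 * g) * (d : G)⁻¹) * (g * (d : G)⁻¹)⁻¹ = Quotient.out c.1
    group
  refine Nat.card_le_card_of_injective (fun c => Classical.choose (key c)) ?_
  intro a b hab
  refine Subtype.ext (Subtype.ext ?_)
  have hab' : Classical.choose (key a) = Classical.choose (key b) := hab
  rw [← Classical.choose_spec (key a), ← Classical.choose_spec (key b), hab']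

/-- Two weights over a set of classes `T` and the others. -/
theorem weight_le (σ : Finset ℕ) {r : ℕ} [Fact r.Prime] (hrσ : r ∉ σ) (good : RClasses r G → Prop)
    (a w v : ℕ) (hw : ∀ c, good c → a * piCount σ (Subgroup.centralizer ({Quotient.out c.1} : Set G)) ≤ w)
    (hv : ∀ c, ¬ good c → a * piCount σ (Subgroup.centralizer ({Quotient.out c.1} : Set G)) ≤ v) :
    a * piCount (insert r σ) G + Nat.card {c // good c} * v ≤
      Nat.card {c // good c} * w + Nat.card (RClasses r G) * v := by
  classical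
  have : Fintype (RClasses r G) := Fintype.ofFinite _
  rw [piCount_insert σ r hrσ, Finset.mul_sum, ← Finset.sum_filter_add_sum_filter_not _ good,
    Nat.card_eq_fintype_card, Fintype.card_subtype, Nat.card_eq_fintype_card]
  have h1 := Finset.sum_le_card_nsmul (Finset.univ.filter fun c => good c) _ w
    fun c hc => hw c (Finset.mem_filter.1 hc).2
  have h2 := Finset.sum_le_card_nsmul (Finset.univ.filter fun c => ¬ good c) _ v
    fun c hc => hv c (Finset.mem_filter.1 hc).2
  have h3 : (Finset.univ.filter fun c => ¬ good c).card + (Finset.univ.filter fun c => good c).card =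
      Fintype.card (RClasses r G) := by
    rw [add_comm, Finset.card_filter_add_card_filter_not, Finset.card_univ]
  rw [smul_eq_mul] at h1 h2
  rw [← h3, add_mul]
  omega

/-- With normal complements and abelian Sylow subgroups for `σ`, an abelian Hall `σ`-subgroup
normalises any given Sylow subgroup for another prime. -/
theorem exists_hall_normalizing (σ : Finset ℕ) (hσ : ∀ q ∈ σ, q.Prime) {r : ℕ} [hr : Fact r.Prime]
    (hrσ : r ∉ σ) (h : ∀ q ∈ σ, ∀ [Fact q.Prime], HasNormalPComplement q G ∧
      ∀ P : Sylow q G, IsMulCommutative (P : Subgroup G)) (S : Sylow r G) :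
    ∃ K A : Subgroup G, K.Normal ∧ (S : Subgroup G) ≤ K ∧
      (∀ t : ℕ, t.Prime → t ∣ Nat.card K → t ∉ σ) ∧ (∀ t : ℕ, t.Prime → t ∣ K.index → t ∈ σ) ∧
      IsMulCommutative A ∧ Nat.card A = piPart σ (Nat.card G) ∧
      A ≤ Subgroup.normalizer ((S : Subgroup G) : Set G) := by
  obtain ⟨K, hKn, hK1, hK2, HC, hKH, hHCc⟩ := exists_piComplement σ hσ h
  have hKi : K.index = piPart σ (Nat.card G) := by
    rw [hKH.symm.index_eq_card]
    exact eq_piPart hσ Nat.card_pos.ne' hKH.card_mul_card hK1 (hKH.symm.index_eq_card ▸ hK2)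
  have hSK : (S : Subgroup G) ≤ K := by
    intro u hu
    rw [← QuotientGroup.eq_one_iff, ← orderOf_eq_one_iff]
    refine Nat.Coprime.eq_one_of_dvd ?_ (orderOf_map_dvd (QuotientGroup.mk' K) u)
    have hd : orderOf (QuotientGroup.mk' K u) ∣ K.index := Subgroup.index_eq_card K ▸ orderOf_dvd_natCard _
    refine Nat.coprime_of_dvd fun t ht h1 h2 => ?_
    have h3 := hK2 t ht (h1.trans hd)
    obtain ⟨i, hi⟩ := IsPGroup.iff_card.1 S.2
    have h4 := h2.trans (hi ▸ Subgroup.orderOf_dvd_natCard _ hu)
    exact hrσ ((Nat.prime_dvd_prime_iff_eq ht hr.out).1 (ht.dvd_of_dvd_pow h4) ▸ h3)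
  refine ⟨K, ?_⟩
  set NS := Subgroup.normalizer ((S : Subgroup G) : Set G) with hNS
  have hfr : NS ⊔ K = ⊤ := Sylow.normalizer_sup_eq_top' S hSK
  have hKN : (K.subgroupOf NS).index = piPart σ (Nat.card G) := by
    rw [← hKi, ← Subgroup.relIndex_top_right K, ← hfr, Subgroup.relIndex_sup_right]; rfl
  obtain ⟨A, hA⟩ := Subgroup.exists_right_complement'_of_coprime (N := K.subgroupOf NS) (by
    rw [hKN]
    exact Nat.coprime_of_dvd fun t ht h1 h2 => hK1 t ht
      (h1.trans (Subgroup.card_comap_dvd_of_injective K NS.subtype NS.subtype_injective))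
      (mem_of_dvd_piPart hσ ht h2))
  refine ⟨A.map NS.subtype, hKn, hSK, hK1, hK2, ?_, ?_, Subgroup.map_subtype_le _⟩
  · have hCK : IsMulCommutative (G ⧸ K) := ⟨⟨fun a b => by
      apply hKH.symm.QuotientMulEquiv.symm.symm.injective
      rw [map_mul, map_mul]
      exact hHCc.is_comm.comm _ _⟩⟩
    have : IsMulCommutative A := ⟨⟨fun a b => by
      let f : A →* G ⧸ K := ((QuotientGroup.mk' K).comp NS.subtype).comp A.subtype
      have hf : Function.Injective f := (injective_iff_map_eq_one f).2 fun x hx => by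
        have h1 : (x : NS) ∈ K.subgroupOf NS := (QuotientGroup.eq_one_iff ((x : NS) : G)).1 hx
        have h2 : (x : NS) ∈ K.subgroupOf NS ⊓ A := ⟨h1, x.2⟩
        rw [hA.disjoint.eq_bot, Subgroup.mem_bot] at h2
        exact Subtype.ext h2
      apply hf
      rw [map_mul, map_mul]
      exact hCK.is_comm.comm _ _⟩⟩
    exact Subgroup.map_isMulCommutative A _
  · rw [Subgroup.card_map_of_injective NS.subtype_injective, ← hA.symm.index_eq_card, hKN]

theorem piPart_eq_of_dvd {σ : Finset ℕ} (hσ : ∀ q ∈ σ, q.Prime) (C : Subgroup G) {M : ℕ}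
    (hM : M = piPart σ (Nat.card G)) (h : M ∣ Nat.card C) : piPart σ (Nat.card C) = M := by
  refine Nat.dvd_antisymm (hM ▸ piPart_dvd_of_subgroup σ C) ?_
  obtain ⟨c', hc'⟩ := piPart_dvd σ hσ (Nat.card C)
  exact (Nat.coprime_of_dvd (n := c') fun t ht h2 h3 =>
    not_dvd_div_piPart hσ Nat.card_pos.ne' hc'.symm (mem_of_dvd_piPart hσ ht (hM ▸ h2)) h3).dvd_of_dvd_mul_right
      (hc' ▸ h)

theorem mul_piCount_le_of_ne {σ : Finset ℕ} (hσ : ∀ q ∈ σ, q.Prime) {p : ℕ} (hp : ∀ q ∈ σ, p ≤ q)
    (C : Subgroup G) (h : piPart σ (Nat.card C) ≠ piPart σ (Nat.card G)) :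
    p * piCount σ C ≤ piPart σ (Nat.card G) := by
  obtain ⟨d, hd⟩ := piPart_dvd_of_subgroup σ C
  have hd1 : d ≠ 1 := by rintro rfl; exact h (by rw [hd, mul_one])
  have hd0 : d ≠ 0 := by
    rintro rfl
    exact (piPart_pos σ hσ (Nat.card G)).ne' (hd.trans (mul_zero _))
  obtain ⟨t, ht, htd⟩ := Nat.exists_prime_and_dvd hd1
  have htp : p ≤ d := (hp t (mem_of_dvd_piPart hσ ht (htd.trans (Dvd.intro_left _ hd.symm)))).trans
    (Nat.le_of_dvd (Nat.pos_of_ne_zero hd0) htd)
  rw [hd, mul_comm _ d]
  exact Nat.mul_le_mul htp (piCount_le σ hσ)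

theorem exists_conj_pair {p : ℕ} [hp : Fact p.Prime] {σ : Finset ℕ} (hσ : ∀ q ∈ σ, q.Prime)
    (P P' : Sylow p G) (A A' : Subgroup G) (hA : IsMulCommutative A) (hA' : IsMulCommutative A')
    (hAP : A ≤ Subgroup.centralizer ((P : Subgroup G) : Set G))
    (hAP' : A' ≤ Subgroup.centralizer ((P' : Subgroup G) : Set G))
    (hAc : Nat.card A = piPart σ (Nat.card G)) (hAc' : Nat.card A' = piPart σ (Nat.card G)) :
    ∃ g : G, ((P : Subgroup G) ⊔ A).map (MulAut.conj g).toMonoidHom ≤ (P' : Subgroup G) ⊔ A' := by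
  obtain ⟨g, hg⟩ := MulAction.exists_smul_eq G P P'
  have hgP : (P : Subgroup G).map (MulAut.conj g).toMonoidHom = (P' : Subgroup G) := by
    rw [← hg, Sylow.coe_subgroup_smul]; rfl
  set C := Subgroup.centralizer ((P' : Subgroup G) : Set G) with hC
  set B := A.map (MulAut.conj g).toMonoidHom with hB
  have hBC : B ≤ C := by
    rw [hB, hC, ← hgP]
    rintro _ ⟨a, ha, rfl⟩
    rw [Subgroup.mem_centralizer_iff]
    rintro _ ⟨u, hu, rfl⟩
    rw [← map_mul, ← map_mul, Subgroup.mem_centralizer_iff.1 (hAP ha) u hu]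
  have hBc : IsMulCommutative B := Subgroup.map_isMulCommutative A _
  have hBcard : Nat.card B = piPart σ (Nat.card G) := by
    rw [hB, Subgroup.card_map_of_injective (MulAut.conj g).injective, hAc]
  have hcopG := coprime_index_of_card_eq_piPart σ hσ B hBcard
  have hcop : (Nat.card (A'.subgroupOf C)).Coprime (A'.subgroupOf C).index := by
    rw [Nat.card_congr (Subgroup.subgroupOfEquivOfLe hAP').toEquiv]
    exact (coprime_index_of_card_eq_piPart σ hσ A' hAc').coprime_dvd_right
      (Dvd.intro _ (Subgroup.relIndex_mul_index hAP'))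
  obtain ⟨c, hc⟩ := CfsgLib.Transfer.abelian_hall_conj (Nat.card C) le_rfl (A'.subgroupOf C) (B.subgroupOf C)
    inferInstance inferInstance
    (by rw [Nat.card_congr (Subgroup.subgroupOfEquivOfLe hAP').toEquiv,
      Nat.card_congr (Subgroup.subgroupOfEquivOfLe hBC).toEquiv, hBcard, hAc']) hcop
  refine ⟨(c : G) * g, ?_⟩
  rintro _ ⟨x, hx, rfl⟩
  have hx' : (MulAut.conj g).toMonoidHom x ∈ (P' : Subgroup G) ⊔ B := by
    have := Subgroup.mem_map_of_mem (MulAut.conj g).toMonoidHom hx
    rwa [Subgroup.map_sup, hgP] at this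
  have e : (MulAut.conj ((c : G) * g)).toMonoidHom x = (MulAut.conj (c : G)).toMonoidHom ((MulAut.conj g).toMonoidHom x) := by
    simp [mul_assoc]
  rw [e]
  have hle : ((P' : Subgroup G) ⊔ B).map (MulAut.conj (c : G)).toMonoidHom ≤ (P' : Subgroup G) ⊔ A' := by
    rw [Subgroup.map_sup]
    refine sup_le_sup ?_ ?_
    · rintro _ ⟨u, hu, rfl⟩
      show (c : G) * u * (c : G)⁻¹ ∈ _
      rw [← Subgroup.mem_centralizer_iff.1 c.2 u hu, mul_inv_cancel_right]
      exact hu
    · rintro _ ⟨b, hb, rfl⟩
      have h1 : (MulAut.conj c).toMonoidHom ⟨b, hBC hb⟩ ∈ A'.subgroupOf C :=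
        hc ▸ Subgroup.mem_map_of_mem _ (show (⟨b, hBC hb⟩ : C) ∈ B.subgroupOf C from hb)
      exact h1
  exact hle (Subgroup.mem_map_of_mem _ hx')

set_option maxHeartbeats 1600000 in
theorem exists_nilpotent_piHall : ∀ (π : Finset ℕ), (∀ q ∈ π, q.Prime) → ∀ (p : ℕ) [Fact p.Prime],
    p ∈ π → (∀ q ∈ π, p ≤ q) → ∀ (G : Type u) [Group G] [Finite G],
      piPart π (Nat.card G) < p * piCount π G →
      ∃ (P : Sylow p G) (A : Subgroup G), IsMulCommutative A ∧
        A ≤ Subgroup.centralizer ((P : Subgroup G) : Set G) ∧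
        Nat.card A = piPart (π.erase p) (Nat.card G) := by
  classical
  intro π
  induction π using Finset.strongInduction with
  | _ π ih => ?_
  intro hπ p hpfact hpπ hpmin G _ _ hk
  have hp2 := hpfact.out.two_le
  have hgt : ∀ q ∈ π, q ≠ p → p + 1 ≤ q := fun q hq hne => lt_of_le_of_ne (hpmin q hq) (Ne.symm hne)
  have hsyl : ∀ q ∈ π, q ≠ p → ∀ [Fact q.Prime], ∀ S : Sylow q G, IsMulCommutative (S : Subgroup G) := by
    intro q hq hne _ S
    by_contra hna
    have hkq := card_pClasses_le_of_nonabelian S hna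
    rw [S.card_eq_multiplicity] at hkq
    change q ^ 3 * Nat.card (RClasses q G) ≤ _ at hkq
    have h1 := piCount_le_erase (G := G) π hπ hq
    rw [piPart_erase hq] at hk
    set M' := piPart (π.erase q) (Nat.card G)
    set A := q ^ (Nat.card G).factorization q
    set kq := Nat.card (RClasses q G)
    have hpq := hgt q hq hne
    have hle : q ^ 2 + q - 1 ≤ q ^ 2 + q := Nat.sub_le _ _
    have h2 : p * kq ≤ A := by
      refine Nat.le_of_mul_le_mul_left ?_ (pow_pos (hπ q hq).pos 3)
      calc q ^ 3 * (p * kq) = p * (q ^ 3 * kq) := by ring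
        _ ≤ p * ((q ^ 2 + q) * A) := Nat.mul_le_mul_left _ (hkq.trans (Nat.mul_le_mul_right _ hle))
        _ = q * (p * (q + 1)) * A := by ring
        _ ≤ q * (q * q) * A := Nat.mul_le_mul_right _ (Nat.mul_le_mul_left _ (by nlinarith))
        _ = _ := by ring
    nlinarith [Nat.mul_le_mul_left p h1, Nat.mul_le_mul_right M' h2]
  by_cases hall : ∀ r ∈ π.erase p, ∀ [Fact r.Prime], HasNormalPComplement r G
  · -- a Hall subgroup for the other primes normalises `P`
    set σ := π.erase p with hσdef
    have hpσ : p ∉ σ := Finset.notMem_erase p π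
    have hσ : ∀ q ∈ σ, q.Prime := fun q hq => hπ q (Finset.mem_of_mem_erase hq)
    have hσgt : ∀ q ∈ σ, p + 1 ≤ q := fun q hq => hgt q (Finset.mem_of_mem_erase hq) (Finset.ne_of_mem_erase hq)
    obtain ⟨P⟩ := (inferInstance : Nonempty (Sylow p G))
    obtain ⟨K, A, hKn, hPK, hK1, hK2, hAc, hA, hAN⟩ := exists_hall_normalizing σ hσ hpσ
      (fun q hq _ => ⟨hall q hq, hsyl q (Finset.mem_of_mem_erase hq) (Finset.ne_of_mem_erase hq)⟩) P
    by_cases hcen : A ≤ Subgroup.centralizer ((P : Subgroup G) : Set G)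
    · exact ⟨P, A, hAc, hcen, hA⟩
    exfalso
    set N := p ^ (Nat.card G).factorization p with hNdef
    have hPN : Nat.card (P : Subgroup G) = N := P.card_eq_multiplicity
    have hAp : (Nat.card A).Coprime p := by
      rw [hA]
      exact (hpfact.out.coprime_iff_not_dvd.2 fun h => hpσ (mem_of_dvd_piPart hσ hpfact.out h)).symm
    obtain ⟨s, hsp, hsA, hks⟩ := card_rClasses_le_of_action P A hAN hcen hAp
    have hps := hσgt s (mem_of_dvd_piPart hσ hsp (hA ▸ hsA))
    rw [hPN] at hks
    set M := piPart σ (Nat.card G) with hMdef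
    have hcopAK : (Nat.card A).Coprime (Nat.card K) := Nat.coprime_of_dvd fun t ht h1 h2 =>
      hK1 t ht h2 (mem_of_dvd_piPart hσ ht (hA ▸ h1))
    have hAP : (Nat.card A).Coprime (Nat.card (P : Subgroup G)) := by
      rw [hPN]; exact hAp.pow_right _
    set D := (P : Subgroup G) ⊓ Subgroup.centralizer (A : Set G) with hD
    have hDN : p ^ 2 * Nat.card D ≤ N := by
      have hne : D < (P : Subgroup G) := lt_of_le_of_ne inf_le_left fun h =>
        hcen (Subgroup.le_centralizer_iff.1 (h ▸ inf_le_right))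
      obtain ⟨j, hj⟩ := P.2.index (D.subgroupOf (P : Subgroup G))
      have hcard : Nat.card D * p ^ j = N := by
        rw [← hPN, ← hj, ← Nat.card_congr (Subgroup.subgroupOfEquivOfLe hne.le).toEquiv, Subgroup.card_mul_index]
      by_contra hlt
      push Not at hlt
      have hj2 : j < 2 := by
        by_contra hj2
        push Not at hj2
        have := Nat.mul_le_mul_left (Nat.card D) (Nat.pow_le_pow_right hpfact.out.pos hj2)
        rw [hcard, mul_comm] at this
        omega
      interval_cases j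
      · rw [pow_zero] at hj
        exact hne.not_ge (Subgroup.relIndex_eq_one.1 hj)
      · rw [pow_one] at hj
        have hDn : (D.subgroupOf (P : Subgroup G)).Normal := by
          have := P.2.isNilpotent
          exact CfsgLib.TwoGroups.normal_of_isCoatom P.2 (CfsgLib.TwoGroups.isCoatom_of_index_prime (by rw [hj]; exact hpfact.out))
        -- `A` acts trivially on the quotient of prime order
        have hQc : Nat.card ((P : Subgroup G) ⧸ D.subgroupOf (P : Subgroup G)) = p := by
          rw [← Subgroup.index_eq_card, hj]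
        have hfix : ∀ b ∈ A, ∀ d ∈ D, b * d * b⁻¹ = d := fun b hb d hd => by
          rw [Subgroup.mem_centralizer_iff.1 hd.2 b hb, mul_inv_cancel_right]
        have hperm : ∀ b ∈ A, ∀ v ∈ (P : Subgroup G), b * v * b⁻¹ ∈ (P : Subgroup G) := fun b hb v hv =>
          (Subgroup.mem_normalizer_iff.1 (hAN hb) v).1 hv
        have hcomm : ⁅(P : Subgroup G), A⁆ ≤ D := by
          rw [Subgroup.commutator_le]
          intro u hu a ha
          by_cases huD : u ∈ D
          · have h1 : a * u⁻¹ * a⁻¹ = u⁻¹ := hfix a ha u⁻¹ (D.inv_mem huD)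
            have e : ⁅u, a⁆ = u * (a * u⁻¹ * a⁻¹) := by rw [commutatorElement_def]; group
            rw [e, h1, mul_inv_cancel]
            exact D.one_mem
          let R : Submonoid G :=
            { carrier := {b | b ∈ A ∧ b * u * b⁻¹ * u⁻¹ ∈ D}
              one_mem' := ⟨A.one_mem, by simp [D.one_mem]⟩
              mul_mem' := by
                rintro b c ⟨hb, hb'⟩ ⟨hc, hc'⟩
                refine ⟨A.mul_mem hb hc, ?_⟩
                have e : b * c * u * (b * c)⁻¹ * u⁻¹ =
                    b * (c * u * c⁻¹ * u⁻¹) * b⁻¹ * (b * u * b⁻¹ * u⁻¹) := by group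
                rw [e, hfix b hb _ hc']
                exact D.mul_mem hc' hb' }
          let f : Fin p → {z : (P : Subgroup G) ⧸ D.subgroupOf (P : Subgroup G) // z ≠ 1} := fun i =>
            ⟨QuotientGroup.mk ⟨_, hperm _ (A.pow_mem ha i) u hu⟩, fun h => by
              have h1 : a ^ (i : ℕ) * u * (a ^ (i : ℕ))⁻¹ ∈ D :=
                (QuotientGroup.eq_one_iff (⟨_, hperm _ (A.pow_mem ha i) u hu⟩ : (P : Subgroup G))).1 h
              have h2 := hfix _ (A.inv_mem (A.pow_mem ha i)) _ h1
              apply huD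
              have e : (a ^ (i : ℕ))⁻¹ * (a ^ (i : ℕ) * u * (a ^ (i : ℕ))⁻¹) * ((a ^ (i : ℕ))⁻¹)⁻¹ = u := by group
              rw [e] at h2
              exact h2 ▸ h1⟩
          have hni : ¬ Function.Injective f := fun hf => by
            have h1 := Nat.card_le_card_of_injective f hf
            have h2 : Nat.card {z : (P : Subgroup G) ⧸ D.subgroupOf (P : Subgroup G) // z ≠ 1} < p :=
              (Finite.card_subtype_lt (x := 1) (by simp)).trans_eq hQc
            rw [Nat.card_eq_fintype_card, Fintype.card_fin] at h1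
            omega
          have key : ∀ i j : Fin p, (i : ℕ) < j → f i = f j → ⁅u, a⁆ ∈ D := by
            intro i j hij hf
            obtain ⟨d, hd⟩ := Nat.exists_eq_add_of_le hij.le
            have h1 := QuotientGroup.eq.1 (congrArg Subtype.val hf)
            rw [Subgroup.mem_subgroupOf] at h1
            push_cast at h1
            rw [hd, pow_add] at h1
            have h2 := hfix _ (A.inv_mem (A.pow_mem ha i)) _ h1
            have e : (a ^ (i : ℕ))⁻¹ * ((a ^ (i : ℕ) * u * (a ^ (i : ℕ))⁻¹)⁻¹ *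
                (a ^ (i : ℕ) * a ^ d * u * (a ^ (i : ℕ) * a ^ d)⁻¹)) * ((a ^ (i : ℕ))⁻¹)⁻¹ =
                u⁻¹ * (a ^ d * u * (a ^ d)⁻¹) := by group
            rw [e] at h2
            rw [← h2] at h1
            have h3 := hDn.conj_mem ⟨_, h1.1⟩ h1 ⟨u, hu⟩
            rw [Subgroup.mem_subgroupOf] at h3
            push_cast at h3
            have e' : u * (u⁻¹ * (a ^ d * u * (a ^ d)⁻¹)) * u⁻¹ = a ^ d * u * (a ^ d)⁻¹ * u⁻¹ := by group
            rw [e'] at h3
            have hdR : a ^ d ∈ R := ⟨A.pow_mem ha d, h3⟩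
            have hcd : (orderOf a).Coprime d := Nat.coprime_of_dvd fun t ht ht1 ht2 => by
              have := hσgt t (mem_of_dvd_piPart hσ ht (hA ▸ ht1.trans (Subgroup.orderOf_dvd_natCard A ha)))
              have := Nat.le_of_dvd (by omega) ht2
              have := j.2
              omega
            obtain ⟨m, hm⟩ := exists_pow_eq_self_of_coprime hcd.symm
            have h4 := R.pow_mem hdR m
            rw [hm] at h4
            have e'' : ⁅u, a⁆ = (a * u * a⁻¹ * u⁻¹)⁻¹ := by rw [commutatorElement_def]; group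
            rw [e'']
            exact D.inv_mem h4.2
          simp only [Function.Injective, not_forall] at hni
          obtain ⟨i, j, hf, hne⟩ := hni
          rcases Nat.lt_trichotomy i j with h | h | h
          · exact key i j h hf
          · exact absurd (Fin.ext h) hne
          · exact key j i h hf.symm
        have h2 : ⁅⁅(P : Subgroup G), A⁆, A⁆ = ⊥ := by
          rw [Subgroup.commutator_eq_bot_iff_le_centralizer]
          exact hcomm.trans inf_le_right
        have hPn : Group.IsSolvable (P : Subgroup G) := by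
          have := P.2.isNilpotent; infer_instance
        rw [CfsgLib.CoprimeAction.commutator_commutator_eq hAN hAP (Or.inr hPn),
          Subgroup.commutator_eq_bot_iff_le_centralizer] at h2
        exact hcen (Subgroup.le_centralizer_iff.1 h2)
    obtain ⟨R₁⟩ := (inferInstance : Nonempty (Sylow p (Subgroup.centralizer (A : Set G))))
    set T := Nat.card {c : RClasses p G // ∃ g : G,
      A.map (MulAut.conj g).toMonoidHom ≤ Subgroup.centralizer ({Quotient.out c.1} : Set G)} with hT
    have hTN : p ^ 2 * T ≤ N := by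
      refine le_trans (Nat.mul_le_mul_left _ ((card_good_le A R₁).trans ?_)) hDN
      set U := (R₁ : Subgroup (Subgroup.centralizer (A : Set G))).map (Subgroup.centralizer (A : Set G)).subtype with hU
      rw [← Subgroup.card_map_of_injective (Subgroup.centralizer (A : Set G)).subtype_injective, ← hU]
      have hUK : U ≤ K := by
        intro u hu
        rw [← QuotientGroup.eq_one_iff, ← orderOf_eq_one_iff]
        refine Nat.Coprime.eq_one_of_dvd ?_ (orderOf_map_dvd (QuotientGroup.mk' K) u)
        refine Nat.coprime_of_dvd fun t ht h1 h2 => ?_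
        have h3 := hK2 t ht (h1.trans (Subgroup.index_eq_card K ▸ orderOf_dvd_natCard _))
        obtain ⟨i, hi⟩ := IsPGroup.iff_card.1 (R₁.2.map (Subgroup.centralizer (A : Set G)).subtype)
        have h4 := h2.trans (hi ▸ Subgroup.orderOf_dvd_natCard _ hu)
        exact hpσ ((Nat.prime_dvd_prime_iff_eq ht hpfact.out).1 (ht.dvd_of_dvd_pow h4) ▸ h3)
      have hUA : A ≤ Subgroup.normalizer (U : Set G) := fun a ha => Subgroup.mem_normalizer_fintype fun u hu => by
        rw [Subgroup.mem_centralizer_iff.1 (Subgroup.map_subtype_le _ hu) a ha, mul_inv_cancel_right]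
        exact hu
      have hAK : A ≤ Subgroup.normalizer (K : Set G) := by
        rw [Subgroup.normalizer_eq_top]; exact le_top
      have hsolv : Group.IsSolvable A ∨ Group.IsSolvable K :=
        Or.inl (Group.isSolvable_of_comm fun a b => hAc.is_comm.comm a b)
      obtain ⟨Q, hUQ, hQA⟩ := CfsgLib.CoprimeAction.exists_invariant_sylow_ge hAK hcopAK hsolv hUK (R₁.2.map _) hUA
      have hPmap : (P.subtype hPK : Subgroup K).map K.subtype = (P : Subgroup G) :=
        Subgroup.map_subgroupOf_eq_of_le hPK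
      obtain ⟨c, hcA, hc⟩ := CfsgLib.CoprimeAction.invariant_sylow_conj hAK hcopAK hsolv Q (P.subtype hPK)
        hQA (by rw [hPmap]; exact hAN)
      rw [← Subgroup.card_map_of_injective (K := U) (f := (MulAut.conj (c : G)).toMonoidHom) (MulAut.conj (c : G)).injective]
      refine Subgroup.card_le_of_le ?_
      rintro _ ⟨u, hu, rfl⟩
      refine ⟨?_, ?_⟩
      · obtain ⟨v, hv, hvu⟩ := hUQ hu
        rw [← hPmap]
        refine ⟨c * v * c⁻¹, ?_, ?_⟩
        · rw [SetLike.mem_coe, ← hc]; exact ⟨v, hv, rfl⟩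
        · rw [map_mul, map_mul, hvu, map_inv]; rfl
      · exact (Subgroup.centralizer (A : Set G)).mul_mem ((Subgroup.centralizer (A : Set G)).mul_mem hcA
          (Subgroup.map_subtype_le _ hu)) ((Subgroup.centralizer (A : Set G)).inv_mem hcA)
    have hbad : ∀ c : RClasses p G, ¬ (∃ g : G, A.map (MulAut.conj g).toMonoidHom ≤
        Subgroup.centralizer ({Quotient.out c.1} : Set G)) →
        p * piCount σ (Subgroup.centralizer ({Quotient.out c.1} : Set G)) ≤ M := by
      intro c hc
      set C := Subgroup.centralizer ({Quotient.out c.1} : Set G)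
      by_cases heq : piPart σ (Nat.card C) = M
      · by_contra hlt
        push Not at hlt
        apply hc
        obtain ⟨B, hBc, hB⟩ := exists_abelian_piHall σ hσ (p + 1) (by omega) hσgt C (by
          rw [heq]
          refine Nat.lt_of_mul_lt_mul_left (a := p) ?_
          have e : (p + 1) ^ 2 + (p + 1) - 1 = (p + 1) ^ 2 + p := by omega
          calc p * (((p + 1) ^ 2 + (p + 1) - 1) * M) = p * ((p + 1) ^ 2 + p) * M := by rw [e]; ring
            _ ≤ (p + 1) ^ 3 * M := Nat.mul_le_mul_right _ (by nlinarith)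
            _ < (p + 1) ^ 3 * (p * piCount σ C) := (Nat.mul_lt_mul_left (pow_pos (by omega) 3)).2 hlt
            _ = _ := by ring)
        have hB' : IsMulCommutative (B.map C.subtype) := Subgroup.map_isMulCommutative B C.subtype
        obtain ⟨g, hg⟩ := CfsgLib.Transfer.abelian_hall_conj (Nat.card G) le_rfl (B.map C.subtype) A hB' hAc
          (by rw [Subgroup.card_map_of_injective C.subtype_injective, hB, heq, hA])
          (coprime_index_of_card_eq_piPart σ hσ _ (by rw [Subgroup.card_map_of_injective C.subtype_injective, hB, heq]))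
        exact ⟨g, hg.trans_le (Subgroup.map_subtype_le _)⟩
      · exact mul_piCount_le_of_ne hσ (fun q hq => (Nat.le_succ p).trans (hσgt q hq)) C heq
    have hw := weight_le σ hpσ (fun c : RClasses p G => ∃ g : G, A.map (MulAut.conj g).toMonoidHom ≤
        Subgroup.centralizer ({Quotient.out c.1} : Set G)) p (p * M) M
      (fun c _ => Nat.mul_le_mul_left _ ((piCount_le σ hσ).trans
        (Nat.le_of_dvd (piPart_pos σ hσ _) (piPart_dvd_of_subgroup σ _)))) hbad
    rw [show insert p σ = π from Finset.insert_erase hpπ, ← hT] at hw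
    rw [piPart_erase hpπ, ← hσdef, ← hMdef, ← hNdef] at hk
    set k := Nat.card (RClasses p G)
    have hk' : p * (p + 1) * k ≤ 2 * p * N := by
      refine Nat.le_of_mul_le_mul_left ?_ hsp.pos
      calc s * (p * (p + 1) * k) = (p + 1) * (p * s * k) := by ring
        _ ≤ (p + 1) * ((s + (p - 1)) * N) := Nat.mul_le_mul_left _ hks
        _ ≤ s * (2 * p * N) := by
            obtain ⟨p', rfl⟩ := Nat.exists_eq_add_of_le (show 1 ≤ p by omega)
            rw [Nat.add_sub_cancel_left]
            nlinarith [Nat.mul_le_mul_right (p' * N) hps]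
    obtain ⟨p', rfl⟩ := Nat.exists_eq_add_of_le hp2
    have h1 : (2 + p') * piCount π G ≤ M * ((1 + p') * T + k) :=
      Nat.le_of_add_le_add_right (b := T * M) (hw.trans_eq (by ring))
    have hpos : 0 < (2 + p') ^ 2 * (3 + p') := Nat.mul_pos (pow_pos (by omega) 2) (by omega)
    have h2 : (2 + p') ^ 2 * (3 + p') * ((2 + p') * piCount π G) ≤
        N * M * ((1 + p') * (3 + p') + 2 * (2 + p') ^ 2) := by
      refine (Nat.mul_le_mul_left _ h1).trans ?_
      have e : (2 + p') ^ 2 * (3 + p') * (M * ((1 + p') * T + k)) =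
          M * ((1 + p') * (3 + p') * ((2 + p') ^ 2 * T) + (2 + p') * ((2 + p') * (2 + p' + 1) * k)) := by ring
      rw [e]
      refine (Nat.mul_le_mul_left _ (Nat.add_le_add (Nat.mul_le_mul_left _ hTN) (Nat.mul_le_mul_left _ hk'))).trans_eq ?_
      ring
    refine absurd hk (not_lt.2 (Nat.le_of_mul_le_mul_left (h2.trans ?_) hpos))
    rw [mul_comm _ (N * M)]
    exact Nat.mul_le_mul_left _ (by nlinarith)
  -- some `r ≠ p` without normal complement
  push Not at hall
  obtain ⟨r, hr', hrp, hrn⟩ := hall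
  have hr : r ∈ π := Finset.mem_of_mem_erase hr'
  have hrne : r ≠ p := Finset.ne_of_mem_erase hr'
  have hr1 := hgt r hr hrne
  set σ := π.erase r with hσdef
  have hpσ : p ∈ σ := Finset.mem_erase.2 ⟨hrne.symm, hpπ⟩
  have hrσ : r ∉ σ := Finset.notMem_erase r π
  have hπσ : insert r σ = π := Finset.insert_erase hr
  have hσ : ∀ q ∈ σ, q.Prime := fun q hq => hπ q (Finset.mem_of_mem_erase hq)
  have hσp : ∀ q ∈ σ, p ≤ q := fun q hq => hpmin q (Finset.mem_of_mem_erase hq)
  set τ := σ.erase p with hτdef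
  have hτ : ∀ q ∈ τ, q.Prime := fun q hq => hσ q (Finset.mem_of_mem_erase hq)
  set N := r ^ (Nat.card G).factorization r with hNdef
  set M := piPart σ (Nat.card G) with hMdef
  have hπpart : piPart π (Nat.card G) = N * M := piPart_erase hr _
  rw [hπpart] at hk
  obtain ⟨P, A, hAc, hAP, hA⟩ := ih σ (Finset.erase_ssubset hr) hσ p hpσ hσp G (by
    refine Nat.lt_of_mul_lt_mul_left (a := N) ?_
    calc N * M < p * piCount π G := hk
      _ ≤ p * (piCount σ G * N) := Nat.mul_le_mul_left _ (hπσ ▸ piCount_insert_le σ hσ hrp.out hrσ G)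
      _ = _ := by ring)
  set H := (P : Subgroup G) ⊔ A with hH
  obtain ⟨R₁⟩ := (inferInstance : Nonempty (Sylow r (Subgroup.centralizer (H : Set G))))
  set N₁ := Nat.card (R₁ : Subgroup (Subgroup.centralizer (H : Set G))) with hN₁
  set R₁' := (R₁ : Subgroup (Subgroup.centralizer (H : Set G))).map (Subgroup.centralizer (H : Set G)).subtype with hR₁'
  have hR₁c : Nat.card R₁' = N₁ := Subgroup.card_map_of_injective (Subgroup.subtype_injective _)
  by_cases hfull : N ≤ N₁
  · have hp' : IsPGroup r R₁' := R₁.2.map _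
    obtain ⟨S, hS⟩ := hp'.exists_le_sylow
    have hRS : R₁' = (S : Subgroup G) := Subgroup.eq_of_le_of_card_ge hS (by
      rw [hR₁c, S.card_eq_multiplicity]; exact hfull)
    have hSH : (S : Subgroup G) ≤ Subgroup.centralizer (H : Set G) := hRS ▸ Subgroup.map_subtype_le _
    have hSA : (S : Subgroup G) ≤ Subgroup.centralizer (A : Set G) :=
      hSH.trans (Subgroup.centralizer_le (SetLike.coe_subset_coe.2 le_sup_right))
    refine ⟨P, (S : Subgroup G) ⊔ A, isMulCommutative_sup _ _ (hsyl r hr hrne S) hAc hSA,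
      sup_le (hSH.trans (Subgroup.centralizer_le (SetLike.coe_subset_coe.2 le_sup_left))) hAP, ?_⟩
    rw [card_sup_of_commute _ _ hSA, S.card_eq_multiplicity, hA,
      piPart_erase (σ := π.erase p) (r := r) hr', Finset.erase_right_comm]
    rw [S.card_eq_multiplicity, hA]
    exact Nat.coprime_of_dvd fun t ht h1 h2 => hrσ (Finset.mem_of_mem_erase
      ((Nat.prime_dvd_prime_iff_eq ht hrp.out).1 (ht.dvd_of_dvd_pow h1) ▸ mem_of_dvd_piPart hτ ht h2))
  exfalso
  push Not at hfull
  have hN₁r : r * N₁ ≤ N := by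
    obtain ⟨j, hj⟩ := IsPGroup.iff_card.1 R₁.2
    rw [hN₁, hj] at hfull ⊢
    rw [hNdef] at hfull ⊢
    rw [← pow_succ']
    exact Nat.pow_le_pow_right hrp.out.pos ((Nat.pow_lt_pow_iff_right hrp.out.one_lt).1 hfull)
  set T := Nat.card {c : RClasses r G // ∃ g : G,
    H.map (MulAut.conj g).toMonoidHom ≤ Subgroup.centralizer ({Quotient.out c.1} : Set G)} with hT
  have hTN : r * T ≤ N := (Nat.mul_le_mul_left r (card_good_le H R₁)).trans hN₁r
  have hall' : ∀ c : RClasses r G, piCount σ (Subgroup.centralizer ({Quotient.out c.1} : Set G)) ≤ M := fun c =>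
    (piCount_le σ hσ).trans (Nat.le_of_dvd (piPart_pos σ hσ _) (piPart_dvd_of_subgroup σ _))
  have hHcard : Nat.card H = M := by
    rw [hH, card_sup_of_commute _ _ (Subgroup.le_centralizer_iff.1 hAP), P.card_eq_multiplicity, hA, hMdef,
      piPart_erase hpσ]
    rw [P.card_eq_multiplicity, hA]
    refine Nat.coprime_of_dvd fun t ht h1 h2 => ?_
    have e := (Nat.prime_dvd_prime_iff_eq ht hpfact.out).1 (ht.dvd_of_dvd_pow h1)
    subst e
    exact Finset.notMem_erase t σ (mem_of_dvd_piPart hτ ht h2)
  have hbad : ∀ c : RClasses r G, ¬ (∃ g : G, H.map (MulAut.conj g).toMonoidHom ≤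
      Subgroup.centralizer ({Quotient.out c.1} : Set G)) →
      p * piCount σ (Subgroup.centralizer ({Quotient.out c.1} : Set G)) ≤ M := by
    intro c hc
    set C := Subgroup.centralizer ({Quotient.out c.1} : Set G)
    by_cases heq : piPart σ (Nat.card C) = M
    · by_contra hlt
      push Not at hlt
      apply hc
      obtain ⟨PC, AC, hACc, hACP, hAC⟩ := ih σ (Finset.erase_ssubset hr) hσ p hpσ hσp C (heq.symm ▸ hlt)
      -- they are full in `G`
      have hfac : ∀ q ∈ σ, (Nat.card C).factorization q = (Nat.card G).factorization q := by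
        intro q hq
        refine le_antisymm (factorization_le_subgroup C q) ?_
        refine (Nat.Prime.pow_dvd_iff_le_factorization (hσ q hq) Nat.card_pos.ne').1 ?_
        have h1 : q ^ (Nat.card G).factorization q ∣ piPart σ (Nat.card C) :=
          heq ▸ Finset.dvd_prod_of_mem (fun q => q ^ (Nat.card G).factorization q) hq
        exact h1.trans (piPart_dvd σ hσ _)
      set P' := Sylow.ofCard ((PC : Subgroup C).map C.subtype) (by
        rw [Subgroup.card_map_of_injective C.subtype_injective, PC.card_eq_multiplicity, hfac p hpσ]) with hP'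
      have hP'c : (P' : Subgroup G) = (PC : Subgroup C).map C.subtype := rfl
      set A' := AC.map C.subtype with hA'
      have hA'c : IsMulCommutative A' := Subgroup.map_isMulCommutative AC C.subtype
      have hA'card : Nat.card A' = piPart τ (Nat.card G) := by
        rw [hA', Subgroup.card_map_of_injective C.subtype_injective, hAC]
        exact Finset.prod_congr rfl fun q hq => by rw [hfac q (Finset.mem_of_mem_erase hq)]
      have hA'P : A' ≤ Subgroup.centralizer ((P' : Subgroup G) : Set G) := by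
        rintro _ ⟨a, ha, rfl⟩
        rw [Subgroup.mem_centralizer_iff, hP'c]
        rintro _ ⟨u, hu, rfl⟩
        rw [← map_mul, ← map_mul, Subgroup.mem_centralizer_iff.1 (hACP ha) u hu]
      obtain ⟨g, hg⟩ := exists_conj_pair hτ P P' A A' hAc hA'c hAP hA'P hA hA'card
      exact ⟨g, hg.trans (sup_le (hP'c ▸ Subgroup.map_subtype_le _) (Subgroup.map_subtype_le _))⟩
    · exact mul_piCount_le_of_ne hσ hσp C heq
  set k := Nat.card (RClasses r G) with hkdef
  obtain ⟨p', rfl⟩ := Nat.exists_eq_add_of_le hp2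
  by_cases hcase : ∃ c : RClasses r G, (∃ g : G, H.map (MulAut.conj g).toMonoidHom ≤
      Subgroup.centralizer ({Quotient.out c.1} : Set G)) ∧ ∀ s ∈ σ, ∀ [Fact s.Prime],
      HasNormalPComplement s (Subgroup.centralizer ({Quotient.out c.1} : Set G)) ∧
        ∀ S : Sylow s (Subgroup.centralizer ({Quotient.out c.1} : Set G)), IsMulCommutative (S : Subgroup (Subgroup.centralizer ({Quotient.out c.1} : Set G)))
  · obtain ⟨c, ⟨g, hg⟩, hnil⟩ := hcase
    set C := Subgroup.centralizer ({Quotient.out c.1} : Set G) with hC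
    obtain ⟨j, hj⟩ := out_rClass c
    obtain ⟨S, hS⟩ := (IsPGroup.of_card (p := r) (n := j)
      (show Nat.card (Subgroup.zpowers (Quotient.out c.1)) = r ^ j by rw [Nat.card_zpowers, hj])).exists_le_sylow
    have hSC : (S : Subgroup G) ≤ C := fun u hu => Subgroup.mem_centralizer_singleton_iff.2
      (congrArg Subtype.val ((hsyl r hr hrne S).is_comm.comm ⟨u, hu⟩ ⟨_, hS (Subgroup.mem_zpowers _)⟩))
    have hCfull : piPart σ (Nat.card C) = M := piPart_eq_of_dvd hσ C hMdef (by
      rw [← hHcard, ← Subgroup.card_map_of_injective (K := H) (f := (MulAut.conj g).toMonoidHom) (MulAut.conj g).injective]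
      exact Subgroup.card_dvd_of_le hg)
    obtain ⟨K, B, -, -, -, -, hBc, hB, hBN⟩ := exists_hall_normalizing σ hσ hrσ hnil (S.subtype hSC)
    set A' := B.map C.subtype with hA'
    have hA'c : Nat.card A' = M := by rw [hA', Subgroup.card_map_of_injective C.subtype_injective, hB, hCfull]
    have hA'comm : IsMulCommutative A' := Subgroup.map_isMulCommutative B C.subtype
    have hA'N : A' ≤ Subgroup.normalizer ((S : Subgroup G) : Set G) := by
      rintro _ ⟨a, ha, rfl⟩
      rw [← Subgroup.map_subgroupOf_eq_of_le hSC]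
      exact Subgroup.le_normalizer_map C.subtype ⟨a, hBN ha, rfl⟩
    -- `H` is abelian
    have hPc : IsMulCommutative (P : Subgroup G) := by
      have hpd : (P : Subgroup G).map (MulAut.conj g).toMonoidHom ≤ C := (Subgroup.map_mono le_sup_left).trans hg
      obtain ⟨Q, hQ⟩ := ((P.2.map (MulAut.conj g).toMonoidHom).comap_of_injective C.subtype C.subtype_injective).exists_le_sylow
      have hQc := (hnil (2 + p') hpσ).2 Q
      refine ⟨⟨fun a b => Subtype.ext ?_⟩⟩
      have h1 := congrArg (fun z : (Q : Subgroup C) => ((z : C) : G)) (hQc.is_comm.comm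
        ⟨⟨_, hpd (Subgroup.mem_map_of_mem _ a.2)⟩, hQ (Subgroup.mem_map_of_mem _ a.2)⟩
        ⟨⟨_, hpd (Subgroup.mem_map_of_mem _ b.2)⟩, hQ (Subgroup.mem_map_of_mem _ b.2)⟩)
      have h2 : g * ((a : G) * b) * g⁻¹ = g * ((b : G) * a) * g⁻¹ := by
        have h3 : (g * (a : G) * g⁻¹) * (g * b * g⁻¹) = (g * (b : G) * g⁻¹) * (g * a * g⁻¹) := h1
        calc g * ((a : G) * b) * g⁻¹ = (g * (a : G) * g⁻¹) * (g * b * g⁻¹) := by group
          _ = (g * (b : G) * g⁻¹) * (g * a * g⁻¹) := h3
          _ = _ := by group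
      exact mul_left_cancel (mul_right_cancel h2)
    have hHc : IsMulCommutative H := isMulCommutative_sup _ _ hPc hAc (Subgroup.le_centralizer_iff.1 hAP)
    by_cases hcen : A' ≤ Subgroup.centralizer ((S : Subgroup G) : Set G)
    · obtain ⟨g', hg'⟩ := CfsgLib.Transfer.abelian_hall_conj (Nat.card G) le_rfl H A' hHc hA'comm
        (by rw [hA'c, hHcard]) (coprime_index_of_card_eq_piPart σ hσ H hHcard)
      have hS' : (S : Subgroup G).map (MulAut.conj g').toMonoidHom ≤ Subgroup.centralizer (H : Set G) := by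
        rw [← hg']
        rintro _ ⟨u, hu, rfl⟩
        rw [Subgroup.mem_centralizer_iff]
        rintro _ ⟨a, ha, rfl⟩
        rw [← map_mul, ← map_mul, ← Subgroup.mem_centralizer_iff.1 (Subgroup.le_centralizer_iff.1 hcen hu) a ha]
      have hp' : IsPGroup r (((S : Subgroup G).map (MulAut.conj g').toMonoidHom).subgroupOf (Subgroup.centralizer (H : Set G))) :=
        (S.2.map _).comap_of_injective _ (Subgroup.subtype_injective _)
      obtain ⟨U, hU⟩ := hp'.exists_le_sylow
      have h1 := Subgroup.card_le_of_le hU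
      rw [Nat.card_congr (Subgroup.subgroupOfEquivOfLe hS').toEquiv, Subgroup.card_map_of_injective (MulAut.conj g').injective,
        S.card_eq_multiplicity, U.card_eq_multiplicity, ← R₁.card_eq_multiplicity] at h1
      exact absurd h1 (not_le.2 hfull)
    obtain ⟨s, hsp, hsA, hks⟩ := card_rClasses_le_of_action S A' hA'N hcen (by
      rw [hA'c]
      exact (hrp.out.coprime_iff_not_dvd.2 fun h => hrσ (mem_of_dvd_piPart hσ hrp.out h)).symm)
    rw [S.card_eq_multiplicity, ← hNdef, ← hkdef] at hks
    have hps := hσp s (mem_of_dvd_piPart hσ hsp (hA'c ▸ hsA))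
    have hk' : r * (2 + p') * k ≤ (2 + p' + (r - 1)) * N := by
      refine Nat.le_of_mul_le_mul_left ?_ hsp.pos
      calc s * (r * (2 + p') * k) = (2 + p') * (r * s * k) := by ring
        _ ≤ (2 + p') * ((s + (r - 1)) * N) := Nat.mul_le_mul_left _ hks
        _ ≤ s * ((2 + p' + (r - 1)) * N) := by nlinarith [Nat.mul_le_mul_right ((r - 1) * N) hps]
    have hw := weight_le σ hrσ (fun c : RClasses r G => ∃ g : G, H.map (MulAut.conj g).toMonoidHom ≤
        Subgroup.centralizer ({Quotient.out c.1} : Set G)) (2 + p') ((2 + p') * M) M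
      (fun c _ => Nat.mul_le_mul_left _ (hall' c)) hbad
    rw [hπσ, ← hT, ← hkdef] at hw
    have h1 : (2 + p') * piCount π G ≤ M * ((1 + p') * T + k) :=
      Nat.le_of_add_le_add_right (b := T * M) (hw.trans_eq (by ring))
    have hpos : 0 < r * (2 + p') := Nat.mul_pos hrp.out.pos (by omega)
    refine absurd hk (not_lt.2 (Nat.le_of_mul_le_mul_left ?_ hpos))
    calc r * (2 + p') * ((2 + p') * piCount π G) ≤ r * (2 + p') * (M * ((1 + p') * T + k)) := Nat.mul_le_mul_left _ h1
      _ = M * ((1 + p') * (2 + p') * (r * T) + r * (2 + p') * k) := by ring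
      _ ≤ M * ((1 + p') * (2 + p') * N + (2 + p' + (r - 1)) * N) :=
          Nat.mul_le_mul_left _ (Nat.add_le_add (Nat.mul_le_mul_left _ hTN) hk')
      _ = N * M * ((1 + p') * (2 + p') + (2 + p' + (r - 1))) := by ring
      _ ≤ N * M * (r * (2 + p')) := by
          refine Nat.mul_le_mul_left _ ?_
          obtain ⟨r'', rfl⟩ := Nat.exists_eq_add_of_le hr1
          have : 2 + p' + 1 + r'' - 1 = 2 + p' + r'' := by omega
          rw [this]
          nlinarith
      _ = _ := by ring
  · push Not at hcase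
    have hk' : 2 * r * k ≤ (r + 1) * N := card_rClasses_le_half fun h => hrn h.1
    have hgood : ∀ c : RClasses r G, (∃ g : G, H.map (MulAut.conj g).toMonoidHom ≤
        Subgroup.centralizer ({Quotient.out c.1} : Set G)) →
        2 * (2 + p') * piCount σ (Subgroup.centralizer ({Quotient.out c.1} : Set G)) ≤ (2 + p' + 1) * M := by
      intro c hc
      obtain ⟨s, hs, hsp, hsn⟩ := hcase c hc
      set C := Subgroup.centralizer ({Quotient.out c.1} : Set G)
      have hks := card_rClasses_le_half (G := C) (s := s) (fun h => by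
        obtain ⟨S, hS⟩ := hsn h.1
        exact hS (h.2 S))
      have h1 := piCount_le_erase (G := C) σ hσ hs
      have h2 := piPart_erase hs (Nat.card C)
      have h3 := Nat.le_of_dvd (piPart_pos σ hσ _) (piPart_dvd_of_subgroup σ C)
      have hps := hσp s hs
      set M' := piPart (σ.erase s) (Nat.card C)
      refine Nat.le_of_mul_le_mul_left ?_ hsp.out.pos
      calc s * (2 * (2 + p') * piCount σ C) ≤ s * (2 * (2 + p') * (Nat.card (RClasses s C) * M')) :=
            Nat.mul_le_mul_left _ (Nat.mul_le_mul_left _ h1)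
        _ = (2 + p') * (2 * s * Nat.card (RClasses s C)) * M' := by ring
        _ ≤ (2 + p') * ((s + 1) * s ^ (Nat.card C).factorization s) * M' :=
            Nat.mul_le_mul_right _ (Nat.mul_le_mul_left _ hks)
        _ = (2 + p') * (s + 1) * piPart σ (Nat.card C) := by rw [h2]; ring
        _ ≤ (2 + p' + 1) * s * M := Nat.mul_le_mul (by nlinarith) h3
        _ = _ := by ring
    have hw := weight_le σ hrσ (fun c : RClasses r G => ∃ g : G, H.map (MulAut.conj g).toMonoidHom ≤
        Subgroup.centralizer ({Quotient.out c.1} : Set G)) (2 * (2 + p')) _ (2 * M) hgood (fun c hc => by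
      rw [mul_assoc]; exact Nat.mul_le_mul_left _ (hbad c hc))
    rw [hπσ, ← hT, ← hkdef] at hw
    have h1 : 2 * (2 + p') * piCount π G ≤ M * ((1 + p') * T + 2 * k) :=
      Nat.le_of_add_le_add_right (b := T * (2 * M)) (hw.trans_eq (by ring))
    have hpos : 0 < 2 * r := Nat.mul_pos two_pos hrp.out.pos
    refine absurd hk (not_lt.2 (Nat.le_of_mul_le_mul_left ?_ hpos))
    calc 2 * r * ((2 + p') * piCount π G) = r * (2 * (2 + p') * piCount π G) := by ring
      _ ≤ r * (M * ((1 + p') * T + 2 * k)) := Nat.mul_le_mul_left _ h1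
      _ = M * ((1 + p') * (r * T) + 2 * r * k) := by ring
      _ ≤ M * ((1 + p') * N + (r + 1) * N) := Nat.mul_le_mul_left _ (Nat.add_le_add (Nat.mul_le_mul_left _ hTN) hk')
      _ = N * M * (1 + p' + (r + 1)) := by ring
      _ ≤ N * M * (2 * r) := Nat.mul_le_mul_left _ (by omega)
      _ = _ := by ring

end CfsgLib.ElementOrders
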