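import Cfsg.Agent.Lib.HallClasses.PiClasses

/-!
The classes of `π`-elements, sorted by one of the parts: `k_(insert r σ) = ∑ k_σ(C(x))`.
-/

set_option autoImplicit false

namespace CfsgLib.ElementOrders

open Cfsg CfsgLib.HallClasses

universe u

/-- The number of classes of `σ`-elements. -/
noncomputable def piCount (σ : Finset ℕ) (G : Type u) [Group G] : ℕ :=
  Nat.card {c : ConjClasses G // ∀ x ∈ c.carrier, PiEl σ x}

/-- The `σ`-part of `n`. -/
noncomputable def piPart (σ : Finset ℕ) (n : ℕ) : ℕ := σ.prod fun q => q ^ n.factorization q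

variable {G : Type u} [Group G] [Finite G]

/-- Classes of `r`-elements. -/
abbrev RClasses (r : ℕ) (G : Type u) [Group G] :=
  {c : ConjClasses G // ∀ x ∈ c.carrier, ∃ k : ℕ, orderOf x = r ^ k}

theorem out_rClass {r : ℕ} (c : RClasses r G) : ∃ k : ℕ, orderOf (Quotient.out c.1) = r ^ k :=
  c.2 _ (ConjClasses.mem_carrier_iff_mk_eq.2 (Quotient.out_eq c.1))

theorem coprime_of_piEl {σ : Finset ℕ} {r : ℕ} (hr : r.Prime) (hrσ : r ∉ σ) {w : G} (hw : PiEl σ w) :
    (orderOf w).Coprime r :=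
  (hr.coprime_iff_not_dvd.2 fun h => hrσ (hw r hr h)).symm

/-- One exponent takes every element to its `r`-part. -/
theorem exists_partExponent (r : ℕ) [hr : Fact r.Prime] :
    ∃ e : ℕ, ∀ x w : G, Commute x w → (∃ k : ℕ, orderOf x = r ^ k) → (orderOf w).Coprime r →
      (x * w) ^ e = x := by
  obtain ⟨a, N', hN', hn⟩ := Nat.exists_eq_pow_mul_and_not_dvd (Nat.card_pos (α := G)).ne' r hr.out.ne_one
  have hcop : (r ^ a).Coprime N' := ((hr.out.coprime_iff_not_dvd).2 hN').pow_left a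
  obtain ⟨e, he1, he0⟩ := Nat.chineseRemainder hcop 1 0
  refine ⟨e, fun x w hc hx hw => ?_⟩
  have hxa : orderOf x ∣ r ^ a := by
    obtain ⟨k, hk⟩ := hx
    have h1 := orderOf_dvd_natCard x
    rw [hn, hk] at h1
    rw [hk]
    exact ((hr.out.coprime_iff_not_dvd.2 hN').pow_left k).dvd_of_dvd_mul_right h1
  have hwN : orderOf w ∣ N' := by
    have h1 := orderOf_dvd_natCard w
    rw [hn] at h1
    exact (hw.pow_right a).dvd_of_dvd_mul_left h1
  rw [hc.mul_pow, orderOf_dvd_iff_pow_eq_one.1 (hwN.trans (Nat.modEq_zero_iff_dvd.1 he0)), mul_one]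
  conv_rhs => rw [← pow_one x]
  exact pow_eq_pow_iff_modEq.2 (he1.of_dvd hxa)

theorem piCount_insert (σ : Finset ℕ) (r : ℕ) [hr : Fact r.Prime] (hrσ : r ∉ σ) [Fintype (RClasses r G)] :
    piCount (insert r σ) G = ∑ c : RClasses r G, piCount σ (Subgroup.centralizer ({Quotient.out c.1} : Set G)) := by
  classical
  unfold piCount
  rw [← Nat.card_sigma]
  let T : RClasses r G → Type u := fun c =>
    {d : ConjClasses (Subgroup.centralizer ({Quotient.out c.1} : Set G)) //
      ∀ x ∈ d.carrier, PiEl σ x}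
  have hmem : ∀ {H : Type u} [Group H] (c : ConjClasses H), Quotient.out c ∈ c.carrier :=
    fun c => ConjClasses.mem_carrier_iff_mk_eq.2 (Quotient.out_eq c)
  have hcomm : ∀ (c : RClasses r G) (d : T c), Commute (Quotient.out c.1) ((Quotient.out d.1 :
      Subgroup.centralizer ({Quotient.out c.1} : Set G)) : G) := fun c d =>
    (Subgroup.mem_centralizer_singleton_iff.1
      (Quotient.out d.1 : Subgroup.centralizer ({Quotient.out c.1} : Set G)).2).symm
  let F : (Σ c : RClasses r G, T c) → {c : ConjClasses G // ∀ x ∈ c.carrier, PiEl (insert r σ) x} := fun cd =>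
    ⟨ConjClasses.mk (Quotient.out cd.1.1 * ((Quotient.out cd.2.1 :
        Subgroup.centralizer ({Quotient.out cd.1.1} : Set G)) : G)), by
      intro x hx
      refine (piEl_conj_iff (ConjClasses.mk_eq_mk_iff_isConj.1
        (ConjClasses.mem_carrier_iff_mk_eq.1 hx))).2 ?_
      obtain ⟨k, hk⟩ := cd.1.2 _ (hmem cd.1.1)
      have hd := cd.2.2 _ (hmem cd.2.1)
      intro q hq hdvd
      rcases (Nat.Prime.dvd_mul hq).1 (hdvd.trans
        ((hcomm cd.1 cd.2).orderOf_mul_dvd_lcm.trans (Nat.lcm_dvd_mul _ _))) with h | h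
      · rw [hk] at h
        exact Finset.mem_insert.2 (Or.inl
          ((Nat.prime_dvd_prime_iff_eq hq Fact.out).1 (hq.dvd_of_dvd_pow h)))
      · exact Finset.mem_insert_of_mem (hd q hq (by rwa [Subgroup.orderOf_coe] at h))⟩
  obtain ⟨e, he⟩ := exists_partExponent (G := G) r
  have hcopw : ∀ (c : RClasses r G) (d : T c), (orderOf ((Quotient.out d.1 :
      Subgroup.centralizer ({Quotient.out c.1} : Set G)) : G)).Coprime r := fun c d =>
    coprime_of_piEl hr.out hrσ (fun q hq hdvd => d.2 _ (hmem d.1) q hq (by rwa [Subgroup.orderOf_coe] at hdvd))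
  have hinj : Function.Injective F := by
    rintro ⟨c, d⟩ ⟨c', d'⟩ h
    obtain ⟨g, hg⟩ := isConj_iff.1 (ConjClasses.mk_eq_mk_iff_isConj.1
      (congrArg Subtype.val h : ConjClasses.mk _ = ConjClasses.mk _))
    have hpart : g * Quotient.out c.1 * g⁻¹ = Quotient.out c'.1 := by
      have h1 := congrArg (· ^ e) hg
      simp only [conj_pow] at h1
      rwa [he _ _ (hcomm c d) (out_rClass c) (hcopw c d),
        he _ _ (hcomm c' d') (out_rClass c') (hcopw c' d')] at h1
    have hcc : c = c' := Subtype.ext (by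
      rw [← Quotient.out_eq c.1, ← Quotient.out_eq c'.1]
      exact ConjClasses.mk_eq_mk_iff_isConj.2 (isConj_iff.2 ⟨g, hpart⟩))
    subst hcc
    have hgC : g ∈ Subgroup.centralizer ({Quotient.out c.1} : Set G) :=
      Subgroup.mem_centralizer_singleton_iff.2 (mul_inv_eq_iff_eq_mul.1 hpart)
    have hw : g * ((Quotient.out d.1 : Subgroup.centralizer ({Quotient.out c.1} : Set G)) : G) * g⁻¹ =
        ((Quotient.out d'.1 : Subgroup.centralizer ({Quotient.out c.1} : Set G)) : G) := by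
      have h2 : (g * Quotient.out c.1 * g⁻¹) *
          (g * ((Quotient.out d.1 : Subgroup.centralizer ({Quotient.out c.1} : Set G)) : G) * g⁻¹) =
          Quotient.out c.1 *
            ((Quotient.out d'.1 : Subgroup.centralizer ({Quotient.out c.1} : Set G)) : G) := by
        rw [← hg]; group
      rw [hpart] at h2
      exact mul_left_cancel h2
    have hdd : d = d' := Subtype.ext (by
      rw [← Quotient.out_eq d.1, ← Quotient.out_eq d'.1]
      exact ConjClasses.mk_eq_mk_iff_isConj.2 (isConj_iff.2 ⟨⟨g, hgC⟩, Subtype.ext hw⟩))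
    rw [hdd]
  have hsurj : Function.Surjective F := by
    rintro ⟨c, hc⟩
    obtain ⟨x, rfl⟩ := ConjClasses.exists_rep c
    obtain ⟨a, b, hab, ⟨k, hk⟩, hcop⟩ :=
      CfsgLib.NormalPComplement.exists_pParts (p := r) (isOfFinOrder_of_finite x)
    have hπ := hc x (ConjClasses.mem_carrier_iff_mk_eq.2 rfl)
    obtain ⟨j, -, hj⟩ := (Nat.dvd_prime_pow Fact.out).1 hk
    let c₁ : RClasses r G := ⟨ConjClasses.mk (x ^ a), fun z hz => by
      obtain ⟨g, hg⟩ := isConj_iff.1
        (ConjClasses.mk_eq_mk_iff_isConj.1 (ConjClasses.mem_carrier_iff_mk_eq.1 hz)).symm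
      refine ⟨j, ?_⟩
      rw [← hj, ← hg]
      exact orderOf_injective (MulAut.conj g).toMonoidHom (MulAut.conj g).injective _⟩
    obtain ⟨g, hg⟩ := isConj_iff.1 (ConjClasses.mk_eq_mk_iff_isConj.1
      (Quotient.out_eq (ConjClasses.mk (x ^ a)) : ConjClasses.mk _ = _)).symm
    set w : G := g * x ^ b * g⁻¹ with hw
    have hwC : w ∈ Subgroup.centralizer ({Quotient.out c₁.1} : Set G) := by
      rw [Subgroup.mem_centralizer_singleton_iff]
      show w * Quotient.out (ConjClasses.mk (x ^ a)) = Quotient.out (ConjClasses.mk (x ^ a)) * w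
      rw [← hg, hw]
      have := (Commute.pow_pow_self x b a).eq
      calc g * x ^ b * g⁻¹ * (g * x ^ a * g⁻¹) = g * (x ^ b * x ^ a) * g⁻¹ := by group
        _ = g * x ^ a * g⁻¹ * (g * x ^ b * g⁻¹) := by rw [this]; group
    let d : T c₁ := ⟨ConjClasses.mk ⟨w, hwC⟩, fun z hz => by
      refine (piEl_conj_iff (ConjClasses.mk_eq_mk_iff_isConj.1
        (ConjClasses.mem_carrier_iff_mk_eq.1 hz))).2 ?_
      intro q hq hdvd
      rw [Subgroup.orderOf_mk] at hdvd
      have hwo : orderOf w = orderOf (x ^ b) :=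
        orderOf_injective (MulAut.conj g).toMonoidHom (MulAut.conj g).injective _
      rw [hwo] at hdvd
      refine (Finset.mem_insert.1 (hπ q hq (hdvd.trans (orderOf_pow_dvd _)))).resolve_left ?_
      rintro rfl
      exact (Nat.Prime.coprime_iff_not_dvd hq).1 hcop.symm hdvd⟩
    refine ⟨⟨c₁, d⟩, Subtype.ext ?_⟩
    show ConjClasses.mk _ = ConjClasses.mk x
    obtain ⟨h, hh⟩ := isConj_iff.1 (ConjClasses.mk_eq_mk_iff_isConj.1
      (Quotient.out_eq d.1 : ConjClasses.mk _ = ConjClasses.mk (⟨w, hwC⟩ :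
        Subgroup.centralizer ({Quotient.out c₁.1} : Set G))))
    have hh' : (h : G) * ((Quotient.out d.1 :
        Subgroup.centralizer ({Quotient.out c₁.1} : Set G)) : G) * (h : G)⁻¹ = w :=
      congrArg Subtype.val hh
    have hhy := Subgroup.mem_centralizer_singleton_iff.1 h.2
    rw [ConjClasses.mk_eq_mk_iff_isConj]
    refine IsConj.trans (isConj_iff.2 ⟨(h : G), ?_⟩) (isConj_iff.2 ⟨g, rfl⟩).symm
    calc (h : G) * (Quotient.out c₁.1 * ((Quotient.out d.1 :
          Subgroup.centralizer ({Quotient.out c₁.1} : Set G)) : G)) * (h : G)⁻¹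
        = ((h : G) * Quotient.out c₁.1) * (h : G)⁻¹ * w := by rw [← hh']; group
      _ = Quotient.out c₁.1 * w := by rw [hhy]; group
      _ = g * (x ^ a * x ^ b) * g⁻¹ := by
          rw [show Quotient.out c₁.1 = g * x ^ a * g⁻¹ from hg.symm, hw]; group
      _ = g * x * g⁻¹ := by rw [hab]
  exact (Nat.card_congr (Equiv.ofBijective F ⟨hinj, hsurj⟩)).symm

theorem factorization_le_subgroup (H : Subgroup G) (q : ℕ) :
    (Nat.card H).factorization q ≤ (Nat.card G).factorization q :=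
  (Nat.factorization_le_iff_dvd Nat.card_pos.ne' Nat.card_pos.ne').2 (Subgroup.card_subgroup_dvd_card _) q

theorem piPart_dvd_of_subgroup (σ : Finset ℕ) (H : Subgroup G) :
    piPart σ (Nat.card H) ∣ piPart σ (Nat.card G) :=
  Finset.prod_dvd_prod_of_dvd _ _ fun q _ => pow_dvd_pow q (factorization_le_subgroup H q)

theorem piPart_dvd (σ : Finset ℕ) (hσ : ∀ q ∈ σ, q.Prime) (n : ℕ) : piPart σ n ∣ n := by
  induction σ using Finset.induction_on with
  | empty => simp [piPart]
  | insert r τ hr ih =>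
    rw [piPart, Finset.prod_insert hr]
    refine Nat.Coprime.mul_dvd_of_dvd_of_dvd ?_ (Nat.ordProj_dvd n r) (ih fun q hq => hσ q (Finset.mem_insert_of_mem hq))
    refine Nat.Coprime.prod_right fun q hq => ?_
    exact Nat.Coprime.pow _ _ ((Nat.coprime_primes (hσ r (Finset.mem_insert_self _ _))
      (hσ q (Finset.mem_insert_of_mem hq))).2 fun h => hr (h ▸ hq))

theorem mem_of_dvd_piPart {σ : Finset ℕ} (hσ : ∀ q ∈ σ, q.Prime) {n t : ℕ} (ht : t.Prime)
    (h : t ∣ piPart σ n) : t ∈ σ := by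
  obtain ⟨q, hq, hd⟩ := (ht.prime.dvd_finsetProd_iff _).1 h
  have := (Nat.prime_dvd_prime_iff_eq ht (hσ q hq)).1 (ht.dvd_of_dvd_pow hd)
  exact this ▸ hq

theorem piPart_pos (σ : Finset ℕ) (hσ : ∀ q ∈ σ, q.Prime) (n : ℕ) : 0 < piPart σ n :=
  Finset.prod_pos fun q hq => pow_pos (hσ q hq).pos _

theorem not_dvd_div_piPart {σ : Finset ℕ} (hσ : ∀ q ∈ σ, q.Prime) {n c : ℕ} (hn : n ≠ 0)
    (hc : piPart σ n * c = n) {t : ℕ} (ht : t ∈ σ) : ¬ t ∣ c := by
  intro h
  refine Nat.pow_succ_factorization_not_dvd hn (hσ t ht) ?_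
  rw [pow_succ]
  exact (Nat.mul_dvd_mul (Finset.dvd_prod_of_mem _ ht) h).trans (dvd_of_eq hc)

/-- The `σ`-part is the only splitting into a `σ`-number and a `σ'`-number. -/
theorem eq_piPart {σ : Finset ℕ} (hσ : ∀ q ∈ σ, q.Prime) {n a b : ℕ} (hn : n ≠ 0) (hab : a * b = n)
    (ha : ∀ q : ℕ, q.Prime → q ∣ a → q ∉ σ) (hb : ∀ q : ℕ, q.Prime → q ∣ b → q ∈ σ) :
    b = piPart σ n := by
  obtain ⟨c, hc⟩ := piPart_dvd σ hσ n
  refine Nat.dvd_antisymm ?_ ?_
  · have h1 : b.Coprime c := Nat.coprime_of_dvd fun t ht h1 h2 =>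
      not_dvd_div_piPart hσ hn hc.symm (hb t ht h1) h2
    exact h1.dvd_of_dvd_mul_right (hc ▸ ⟨a, by rw [← hab, mul_comm]⟩)
  · have h1 : (piPart σ n).Coprime a := Nat.coprime_of_dvd fun t ht h1 h2 =>
      ha t ht h2 (mem_of_dvd_piPart hσ ht h1)
    exact h1.dvd_of_dvd_mul_left (dvd_trans ⟨c, hc⟩ (dvd_of_eq hab.symm))

theorem piCount_le (σ : Finset ℕ) (hσ : ∀ q ∈ σ, q.Prime) : piCount σ G ≤ piPart σ (Nat.card G) :=
  card_piClasses_le σ hσ G

theorem piCount_le_erase (σ : Finset ℕ) (hσ : ∀ q ∈ σ, q.Prime) {r : ℕ} [Fact r.Prime] (hr : r ∈ σ) :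
    piCount σ G ≤ Nat.card (RClasses r G) * piPart (σ.erase r) (Nat.card G) :=
  card_piClasses_le_erase σ hσ hr

theorem piPart_erase {σ : Finset ℕ} {r : ℕ} (hr : r ∈ σ) (n : ℕ) :
    piPart σ n = r ^ n.factorization r * piPart (σ.erase r) n :=
  (Finset.mul_prod_erase σ _ hr).symm

/-- Dropping a prime loses at most its part of the order. -/
theorem piCount_insert_le (σ : Finset ℕ) (hσ : ∀ q ∈ σ, q.Prime) {r : ℕ} (hr : r.Prime) (hrσ : r ∉ σ) :
    ∀ (G : Type u) [Group G] [Finite G],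
      piCount (insert r σ) G ≤ piCount σ G * r ^ (Nat.card G).factorization r := by
  classical
  induction σ using Finset.induction_on with
  | empty =>
    intro G _ _
    have h1 : piCount (insert r (∅ : Finset ℕ)) G ≤ piPart (insert r (∅ : Finset ℕ)) (Nat.card G) :=
      piCount_le _ (by simpa using hr)
    have h2 : piPart (insert r (∅ : Finset ℕ)) (Nat.card G) = r ^ (Nat.card G).factorization r := by
      simp [piPart]
    have h3 : 1 ≤ piCount (∅ : Finset ℕ) G := by
      unfold piCount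
      have : Nonempty {c : ConjClasses G // ∀ x ∈ c.carrier, PiEl (∅ : Finset ℕ) x} := by
        refine ⟨⟨ConjClasses.mk 1, fun x hx => ?_⟩⟩
        rw [ConjClasses.mem_carrier_iff_mk_eq, ConjClasses.mk_eq_mk_iff_isConj, isConj_one_left] at hx
        intro q hq h
        rw [hx, orderOf_one] at h
        exact absurd h hq.not_dvd_one
      exact Nat.card_pos
    rw [h2] at h1
    exact h1.trans (Nat.le_mul_of_pos_left _ h3)
  | insert t τ ht ih =>
    intro G _ _
    have : Fact t.Prime := ⟨hσ t (Finset.mem_insert_self _ _)⟩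
    have hne : t ≠ r := fun h => hrσ (h ▸ Finset.mem_insert_self _ _)
    have : Fintype (RClasses t G) := Fintype.ofFinite _
    rw [Finset.insert_comm r t τ, piCount_insert (insert r τ) t (by simp [hne, ht]),
      piCount_insert τ t ht, Finset.sum_mul]
    refine Finset.sum_le_sum fun c _ => ?_
    refine (ih (fun q hq => hσ q (Finset.mem_insert_of_mem hq)) (fun h => hrσ (Finset.mem_insert_of_mem h)) _).trans ?_
    exact Nat.mul_le_mul_left _ (Nat.pow_le_pow_right hr.pos (factorization_le_subgroup _ r))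

end CfsgLib.ElementOrders
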