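import Mathlib
import Cfsg.Agent.S0713
import Cfsg.Agent.Lib.AltGroups.MultiTrans

/-!
Generation of alternating groups by two elements of large prime order.
-/

namespace CfsgLib.ElementOrders.PrimeGen

open Equiv Equiv.Perm MulAction
open scoped Pointwise

/-- A group of order `p (p + 1)` whose Sylow `p`-subgroup is self-normalising has `p + 1` a prime power. -/
theorem false_of_self_normalizing {H : Type*} [Group H] [Finite H] {p : ℕ} [Fact p.Prime]
    (P : Subgroup H) (hP : Nat.card P = p) (hN : Subgroup.normalizer (P : Set H) = P)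
    (hH : Nat.card H = p * (p + 1)) (h2 : 2 ∣ p + 1) (h3 : 3 ∣ p + 1) (h5 : 5 ≤ p) : False := by
  classical
  let _ : Fintype H := Fintype.ofFinite H
  have hp : p.Prime := Fact.out
  -- every conjugate family of an element of order prime to `p` has at least `p` members
  have hconj : ∀ x : H, x ≠ 1 → orderOf x ≠ p →
      p ≤ (Finset.univ.filter fun h : H => orderOf h = orderOf x).card := by
    intro x hx hxp
    let f : P → H := fun g => (g : H) * x * (g : H)⁻¹
    have hf : Function.Injective f := by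
      intro g g' h
      by_contra hne
      have hmem : x ∈ Subgroup.normalizer (P : Set H) := by
        set d : P := g'⁻¹ * g with hd
        have hd1 : d ≠ 1 := fun e => hne (inv_mul_eq_one.1 e).symm
        have hgen : Subgroup.zpowers (d : H) = P := by
          refine Subgroup.eq_of_le_of_card_ge (Subgroup.zpowers_le.2 d.2) ?_
          rw [Nat.card_zpowers, Subgroup.orderOf_coe, hP]
          exact ((hp.eq_one_or_self_of_dvd _ (hP ▸ orderOf_dvd_natCard d)).resolve_left
            (fun e => hd1 (orderOf_eq_one_iff.1 e))).ge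
        have hc : Commute x (d : H) := by
          show x * (d : H) = (d : H) * x
          simp only [hd, Subgroup.coe_mul, Subgroup.coe_inv]
          calc x * ((g' : H)⁻¹ * g) = (g' : H)⁻¹ * ((g' : H) * x * (g' : H)⁻¹) * g := by group
            _ = (g' : H)⁻¹ * ((g : H) * x * (g : H)⁻¹) * g := by rw [show (g' : H) * x * (g' : H)⁻¹ = (g : H) * x * (g : H)⁻¹ from h.symm]
            _ = (g' : H)⁻¹ * g * x := by group
        refine Subgroup.mem_normalizer_fintype fun n hn => ?_
        obtain ⟨k, rfl⟩ := Subgroup.mem_zpowers_iff.1 (hgen.ge hn)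
        rw [(hc.zpow_right k).eq, mul_inv_cancel_right]
        exact P.zpow_mem d.2 k
      rw [hN] at hmem
      refine hx ?_
      rcases hp.eq_one_or_self_of_dvd _ (hP ▸ P.orderOf_dvd_natCard hmem) with e | e
      · exact orderOf_eq_one_iff.1 e
      · exact absurd e hxp
    calc p = Nat.card P := hP.symm
      _ = (Finset.univ.image f).card := by rw [Finset.card_image_of_injective _ hf, Finset.card_univ, Nat.card_eq_fintype_card]
      _ ≤ _ := Finset.card_le_card fun y hy => by
        obtain ⟨g, -, rfl⟩ := Finset.mem_image.1 hy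
        exact Finset.mem_filter.2 ⟨Finset.mem_univ _,
          orderOf_injective (MulAut.conj (g : H)).toMonoidHom (MulAut.conj (g : H)).injective x⟩
  -- the conjugates of `P` supply `(p + 1) (p - 1)` elements of order `p`
  have hA : (p + 1) * (p - 1) ≤ (Finset.univ.filter fun h : H => orderOf h = p).card := by
    let f : (H ⧸ P) × {z : P // z ≠ 1} → H := fun s => s.1.out * (s.2.1 : H) * (s.1.out)⁻¹
    have hord : ∀ z : P, z ≠ 1 → orderOf (z : H) = p := fun z hz => by
      rw [Subgroup.orderOf_coe]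
      exact (hp.eq_one_or_self_of_dvd _ (hP ▸ orderOf_dvd_natCard z)).resolve_left
        (fun e => hz (orderOf_eq_one_iff.1 e))
    have hgen : ∀ z : P, z ≠ 1 → Subgroup.zpowers (z : H) = P := fun z hz =>
      Subgroup.eq_of_le_of_card_ge (Subgroup.zpowers_le.2 z.2) (by rw [Nat.card_zpowers, hord z hz, hP])
    have hf : Function.Injective f := by
      rintro ⟨c, z, hz⟩ ⟨c', z', hz'⟩ h
      have hzz : (c'.out)⁻¹ * c.out * (z : H) * ((c'.out)⁻¹ * c.out)⁻¹ = z' := by
        calc (c'.out)⁻¹ * c.out * (z : H) * ((c'.out)⁻¹ * c.out)⁻¹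
            = (c'.out)⁻¹ * (c.out * (z : H) * (c.out)⁻¹) * c'.out := by group
          _ = (c'.out)⁻¹ * (c'.out * (z' : H) * (c'.out)⁻¹) * c'.out := by rw [show c.out * (z : H) * (c.out)⁻¹ = c'.out * (z' : H) * (c'.out)⁻¹ from h]
          _ = z' := by group
      have hmem : (c'.out)⁻¹ * c.out ∈ Subgroup.normalizer (P : Set H) := by
        have hmap : P.map (MulAut.conj ((c'.out)⁻¹ * c.out)).toMonoidHom = P := by
          refine (congrArg (Subgroup.map (MulAut.conj ((c'.out)⁻¹ * c.out)).toMonoidHom) (hgen z hz).symm).trans ?_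
          rw [MonoidHom.map_zpowers]
          show Subgroup.zpowers ((c'.out)⁻¹ * c.out * (z : H) * ((c'.out)⁻¹ * c.out)⁻¹) = P
          rw [hzz, hgen z' hz']
        apply Subgroup.mem_normalizer_fintype
        intro n hn
        exact hmap.le (Subgroup.mem_map_of_mem _ hn)
      rw [hN] at hmem
      have hc : c' = c := by
        rw [← QuotientGroup.out_eq' c', ← QuotientGroup.out_eq' c, QuotientGroup.eq]; exact hmem
      subst hc
      obtain rfl : z = z' := Subtype.ext (mul_left_cancel (mul_right_cancel h))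
      rfl
    have hidx : Nat.card (H ⧸ P) = p + 1 := by
      have := P.index_mul_card
      rw [hH, hP, mul_comm p, Subgroup.index_eq_card] at this
      exact Nat.eq_of_mul_eq_mul_right hp.pos this
    have hz1 : Nat.card {z : P // z ≠ 1} = p - 1 := by
      let _ : Fintype P := Fintype.ofFinite _
      rw [Nat.card_eq_fintype_card, Fintype.card_subtype_compl, Fintype.card_subtype_eq,
        ← Nat.card_eq_fintype_card, hP]
    rw [← hidx, ← hz1, ← Nat.card_prod, ← Nat.card_eq_finsetCard]
    refine Nat.card_le_card_of_injective (fun s => ⟨f s, Finset.mem_filter.2 ⟨Finset.mem_univ _, ?_⟩⟩)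
      fun s t h => hf (congrArg Subtype.val h)
    exact (orderOf_injective (MulAut.conj s.1.out).toMonoidHom (MulAut.conj s.1.out).injective _).trans (hord _ s.2.2)
  have : Fact (Nat.Prime 2) := ⟨Nat.prime_two⟩
  have : Fact (Nat.Prime 3) := ⟨Nat.prime_three⟩
  obtain ⟨x, hx⟩ := exists_prime_orderOf_dvd_card' (G := H) 2 (hH ▸ dvd_mul_of_dvd_right h2 p)
  obtain ⟨y, hy⟩ := exists_prime_orderOf_dvd_card' (G := H) 3 (hH ▸ dvd_mul_of_dvd_right h3 p)
  have hB := hconj x (fun e => by rw [e, orderOf_one] at hx; omega) (by omega)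
  have hC := hconj y (fun e => by rw [e, orderOf_one] at hy; omega) (by omega)
  rw [hx] at hB
  rw [hy] at hC
  have hsum : (Finset.univ.filter fun h : H => orderOf h = p).card +
      (Finset.univ.filter fun h : H => orderOf h = 2).card +
      (Finset.univ.filter fun h : H => orderOf h = 3).card ≤ Nat.card H := by
    rw [← Finset.card_union_of_disjoint, ← Finset.card_union_of_disjoint, Nat.card_eq_fintype_card]
    · exact Finset.card_le_univ _
    · simp only [Finset.disjoint_left, Finset.mem_union, Finset.mem_filter]; intro a; omega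
    · simp only [Finset.disjoint_left, Finset.mem_filter]; intro a; omega
  obtain ⟨k, rfl⟩ : ∃ k, p = k + 1 := ⟨p - 1, by omega⟩
  rw [hH] at hsum
  simp only [Nat.add_sub_cancel] at hA
  nlinarith

variable {α : Type*} [Fintype α] [DecidableEq α]

/-- Orbit-stabiliser inside `Equiv.Perm α`. -/
theorem card_eq_mul_stab (H : Subgroup (Perm α)) (z : α) (O : Finset α) (h1 : ∀ h ∈ H, h z ∈ O)
    (h2 : ∀ w ∈ O, ∃ h ∈ H, h z = w) :
    Nat.card H = O.card * Nat.card ↥(H ⊓ stabilizer (Perm α) z) := by
  have h := (Subgroup.index_mul_card (stabilizer H z)).symm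
  rw [MulAction.index_stabilizer] at h
  rw [h]
  congr 1
  · rw [← Set.ncard_coe_finset]
    congr 1
    ext w
    constructor
    · rintro ⟨g, rfl⟩; exact h1 _ g.2
    · intro hw; obtain ⟨g, hg, rfl⟩ := h2 w hw; exact ⟨⟨g, hg⟩, rfl⟩
  · have e : stabilizer H z = (H ⊓ stabilizer (Perm α) z).subgroupOf H := by
      ext g; simp [MulAction.mem_stabilizer_iff, Subgroup.mem_subgroupOf, Subgroup.smul_def]
    rw [e]
    exact Nat.card_congr (Subgroup.subgroupOfEquivOfLe inf_le_left).toEquiv

/-- A group of order `p (p + 1)` in which the stabiliser of order `p` fixes a single point. -/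
theorem false_of_stab {p : ℕ} [Fact p.Prime] (H : Subgroup (Perm α)) (b : α)
    (hH : Nat.card H = p * (p + 1)) (hP : Nat.card ↥(H ⊓ stabilizer (Perm α) b) = p)
    (hfix : ∀ h ∈ H, (∀ g ∈ H ⊓ stabilizer (Perm α) b, g (h b) = h b) → h b = b)
    (h2 : 2 ∣ p + 1) (h3 : 3 ∣ p + 1) (h5 : 5 ≤ p) : False := by
  refine false_of_self_normalizing ((H ⊓ stabilizer (Perm α) b).subgroupOf H)
    (p := p) ?_ ?_ hH h2 h3 h5
  · rw [Nat.card_congr (Subgroup.subgroupOfEquivOfLe inf_le_left).toEquiv, hP]
  · refine le_antisymm (fun h hh => ?_) Subgroup.le_normalizer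
    refine Subgroup.mem_subgroupOf.2 ⟨h.2, hfix h h.2 fun g hg => ?_⟩
    have h0 := (Subgroup.mem_normalizer_iff.1 (inv_mem hh) ⟨g, hg.1⟩).1 (Subgroup.mem_subgroupOf.2 hg)
    have h1 : ((h : Perm α)⁻¹ * g * (h : Perm α)) b = b := by
      simpa [Subgroup.mem_subgroupOf, mul_assoc] using (Subgroup.mem_subgroupOf.1 h0).2
    calc g ((h : Perm α) b) = (h : Perm α) (((h : Perm α)⁻¹ * g * (h : Perm α)) b) := by simp [mul_assoc]
      _ = (h : Perm α) b := by rw [h1]

/-- An element of prime order moving fewer than `2p` points is a cycle. -/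
theorem isCycle_of_lt {σ : Perm α} {p : ℕ} (hp : p.Prime) (ho : orderOf σ = p)
    (h : σ.support.card < 2 * p) : σ.IsCycle ∧ σ.support.card = p := by
  have hc : σ.IsCycle := Equiv.Perm.isCycle_of_prime_order (ho ▸ hp) (ho ▸ h)
  exact ⟨hc, hc.orderOf ▸ ho⟩

/-- The two-element generating set of large prime orders gives a primitive group. -/
theorem isPreprimitive_closure {x y : Perm α} {p q : ℕ} (hp : p.Prime) (hq : q.Prime)
    (hx : orderOf x = p) (hy : orderOf y = q) (hyc : y.IsCycle) (hys : y.support.card = q)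
    (hcov : ∀ a : α, x a ≠ a ∨ y a ≠ a) (hd : Fintype.card α < p + q) (hd' : Fintype.card α < 2 * q) :
    IsPreprimitive (Subgroup.closure ({x, y} : Set (Perm α))) α := by
  set G := Subgroup.closure ({x, y} : Set (Perm α))
  have hxG : x ∈ G := Subgroup.subset_closure (Or.inl rfl)
  have hyG : y ∈ G := Subgroup.subset_closure (Or.inr rfl)
  obtain ⟨a, ha⟩ := Finset.card_pos.1 (hys.symm ▸ hq.pos : 0 < y.support.card)
  have horb : ∀ z : α, ∃ g : G, g • z = a := by
    intro z
    have hsupp : ∀ z ∈ y.support, ∃ g : G, g • z = a := fun z hz => by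
      obtain ⟨i, hi⟩ := hyc.exists_zpow_eq (Equiv.Perm.mem_support.1 hz) (Equiv.Perm.mem_support.1 ha)
      exact ⟨⟨y ^ i, G.zpow_mem hyG i⟩, hi⟩
    rcases hcov z with hz | hz
    swap
    · exact hsupp z (Equiv.Perm.mem_support.2 hz)
    by_contra hne
    push Not at hne
    have hout : ∀ k : Fin p, (x ^ (k : ℕ)) z ∈ y.supportᶜ := fun k => by
      rw [Finset.mem_compl]
      intro hk
      obtain ⟨g, hg⟩ := hsupp _ hk
      exact hne (g * ⟨x ^ (k : ℕ), G.pow_mem hxG _⟩) hg
    have hper : Function.minimalPeriod x z = p := by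
      refine (hp.eq_one_or_self_of_dvd _ (Function.IsPeriodicPt.minimalPeriod_dvd ?_)).resolve_left ?_
      · show x^[p] z = z
        rw [← Equiv.Perm.coe_pow, ← hx, pow_orderOf_eq_one]; rfl
      · rw [Function.minimalPeriod_eq_one_iff_isFixedPt]; exact hz
    have hinj : Function.Injective fun k : Fin p => (x ^ (k : ℕ)) z := by
      intro i j h
      simp only [Equiv.Perm.coe_pow] at h
      exact Fin.ext ((Function.iterate_eq_iterate_iff_of_lt_minimalPeriod
        (hper.symm ▸ i.2) (hper.symm ▸ j.2)).1 h)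
    have hle := Finset.card_le_card (s := Finset.univ.image fun k : Fin p => (x ^ (k : ℕ)) z)
      (t := y.supportᶜ) fun w hw => by
        obtain ⟨k, -, rfl⟩ := Finset.mem_image.1 hw; exact hout k
    rw [Finset.card_image_of_injective _ hinj, Finset.card_univ, Fintype.card_fin, Finset.card_compl, hys] at hle
    have := hp.pos
    omega
  have : IsPretransitive G α := ⟨fun u v => by
    obtain ⟨g, hg⟩ := horb u
    obtain ⟨h, hh⟩ := horb v
    exact ⟨h⁻¹ * g, by rw [mul_smul, hg, inv_smul_eq_iff, hh]⟩⟩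
  refine IsPreprimitive.of_isTrivialBlock_base a fun {B} haB hB => ?_
  by_cases hyB : (⟨y, hyG⟩ : G) • B = B
  · refine Or.inr (hB.eq_univ_of_card_lt ?_)
    have hsub : (y.support : Set α) ⊆ B := fun z hz => by
      obtain ⟨i, rfl⟩ := hyc.exists_pow_eq (Equiv.Perm.mem_support.1 ha) (Equiv.Perm.mem_support.1 hz)
      have hi : (⟨y, hyG⟩ : G) ^ i • B = B :=
        MulAction.mem_stabilizer_iff.1 (pow_mem (MulAction.mem_stabilizer_iff.2 hyB) i)
      rw [← hi]
      exact ⟨a, haB, rfl⟩
    have := Set.ncard_le_ncard hsub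
    rw [Set.ncard_coe_finset, hys] at this
    rw [Nat.card_eq_fintype_card]
    omega
  · refine Or.inl (hB.subsingleton_of_card_lt ?_)
    have hper : Function.minimalPeriod (fun C : Set α => (⟨y, hyG⟩ : G) • C) B = q := by
      refine (hq.eq_one_or_self_of_dvd _ (Function.IsPeriodicPt.minimalPeriod_dvd ?_)).resolve_left ?_
      · show (fun C : Set α => (⟨y, hyG⟩ : G) • C)^[q] B = B
        rw [smul_iterate]
        show (⟨y, hyG⟩ : G) ^ q • B = B
        rw [show (⟨y, hyG⟩ : G) ^ q = 1 from Subtype.ext (hy ▸ pow_orderOf_eq_one y), one_smul]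
      · rw [Function.minimalPeriod_eq_one_iff_isFixedPt]; exact hyB
    have hle : q ≤ (orbit G B).ncard := by
      rw [← Set.ncard_range_of_injective (f := fun k : Fin q => (⟨y, hyG⟩ : G) ^ (k : ℕ) • B) ?_ |>.trans
        (Nat.card_fin q)]
      · exact Set.ncard_le_ncard (by rintro _ ⟨k, rfl⟩; exact ⟨_, rfl⟩)
      · intro i j h
        have h' : (fun C : Set α => (⟨y, hyG⟩ : G) • C)^[(i : ℕ)] B = (fun C : Set α => (⟨y, hyG⟩ : G) • C)^[(j : ℕ)] B := by
          simpa [smul_iterate] using h
        exact Fin.ext ((Function.iterate_eq_iterate_iff_of_lt_minimalPeriod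
          (hper.symm ▸ i.2) (hper.symm ▸ j.2)).1 h')
    rw [Nat.card_eq_fintype_card]
    omega

end CfsgLib.ElementOrders.PrimeGen
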