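import Mathlib
import Cfsg.Agent.Lib.ElementOrders.PrimeGen

/-!
The exceptional small degrees for generation of alternating groups by two prime-order elements.
-/

namespace CfsgLib.ElementOrders.PrimeGen

open Equiv Equiv.Perm MulAction
open scoped Pointwise

variable {α : Type*} [Fintype α] [DecidableEq α]

/-- A subgroup of an alternating group of index `1 < i` has index at least the degree, and in
degree six index six forces an alternating group of degree five. -/
theorem card_alternating (h5 : 5 ≤ Fintype.card α) :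
    Nat.card (alternatingGroup α) * 2 = (Fintype.card α).factorial := by
  have : Nontrivial α := Fintype.one_lt_card_iff_nontrivial.1 (by omega)
  rw [← alternatingGroup.index_eq_two (α := α), Subgroup.card_mul_index, Nat.card_perm,
    Nat.card_eq_fintype_card]

theorem le_index_of_ne_top (h5 : 5 ≤ Fintype.card α) (A : Subgroup (alternatingGroup α)) (hA : A ≠ ⊤) :
    Fintype.card α ≤ A.index := by
  by_contra hlt
  have hs : IsSimpleGroup (alternatingGroup α) :=
    alternatingGroup.isSimpleGroup (by rw [Nat.card_eq_fintype_card]; omega)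
  have hi : A.index ≠ 1 := fun h => hA (Subgroup.index_eq_one.1 h)
  let f := MulAction.toPermHom (alternatingGroup α) (alternatingGroup α ⧸ A)
  have hker : f.ker = ⊥ := (hs.eq_bot_or_eq_top_of_normal f.ker inferInstance).resolve_right fun h => by
    have h1 : A.normalCore = ⊤ := by rw [Subgroup.normalCore_eq_ker]; exact h
    exact hA (top_le_iff.1 (h1 ▸ A.normalCore_le))
  have hd := Subgroup.card_dvd_of_injective f ((MonoidHom.ker_eq_bot_iff f).1 hker)
  rw [Nat.card_perm, ← Subgroup.index_eq_card] at hd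
  have h1 := Nat.le_of_dvd (Nat.factorial_pos _) hd
  have h2 : A.index.factorial ≤ (Fintype.card α - 1).factorial := Nat.factorial_le (by omega)
  have h3 := card_alternating h5
  rw [← Nat.mul_factorial_pred (show Fintype.card α ≠ 0 by omega)] at h3
  have h4 := Nat.factorial_pos (Fintype.card α - 1)
  nlinarith

theorem card_eq_of_le (G : Subgroup (Perm α)) (hG : G ≤ alternatingGroup α) (h5 : 5 ≤ Fintype.card α) :
    Nat.card G * (2 * (G.subgroupOf (alternatingGroup α)).index) = (Fintype.card α).factorial := by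
  rw [← card_alternating h5, ← (G.subgroupOf (alternatingGroup α)).card_mul_index,
    Nat.card_congr (Subgroup.subgroupOfEquivOfLe hG).toEquiv]
  ring

theorem eq_alternating_of_index_lt (G : Subgroup (Perm α)) (hG : G ≤ alternatingGroup α)
    (h5 : 5 ≤ Fintype.card α) (hi : (G.subgroupOf (alternatingGroup α)).index < Fintype.card α) :
    G = alternatingGroup α := by
  refine le_antisymm hG ?_
  by_contra h
  exact absurd (le_index_of_ne_top h5 _ fun e => h (Subgroup.subgroupOf_eq_top.1 e)) (by omega)

theorem iso_five_of_index_six (hd : Fintype.card α = 6) (A : Subgroup (alternatingGroup α))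
    (hA : A.index = 6) : Nonempty (A ≃* alternatingGroup (Fin 5)) := by
  classical
  have hs : IsSimpleGroup (alternatingGroup α) :=
    alternatingGroup.isSimpleGroup (by rw [Nat.card_eq_fintype_card]; omega)
  have hne : A ≠ ⊤ := fun h => by rw [h, Subgroup.index_top] at hA; omega
  let β := alternatingGroup α ⧸ A
  let _ : Fintype β := Fintype.ofFinite β
  have hβ : Fintype.card β = 6 := by rw [← Nat.card_eq_fintype_card, ← Subgroup.index_eq_card]; exact hA
  let f := MulAction.toPermHom (alternatingGroup α) β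
  have hker : f.ker = ⊥ := (hs.eq_bot_or_eq_top_of_normal f.ker inferInstance).resolve_right fun h => by
    have h1 : A.normalCore = ⊤ := by rw [Subgroup.normalCore_eq_ker]; exact h
    exact hne (top_le_iff.1 (h1 ▸ A.normalCore_le))
  have hf : Function.Injective f := (MonoidHom.ker_eq_bot_iff f).1 hker
  have hcα : Nat.card (alternatingGroup α) * 2 = 720 := by
    rw [card_alternating (by omega), hd]; decide
  have hr : f.range = alternatingGroup β := by
    apply Equiv.Perm.eq_alternatingGroup_of_index_eq_two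
    have h := f.range.card_mul_index
    rw [Nat.card_perm, Nat.card_congr (MonoidHom.ofInjective hf).toEquiv.symm, Nat.card_eq_fintype_card (α := β), hβ] at h
    have h7 : Nat.factorial 6 = 720 := by decide
    rw [h7, ← hcα] at h
    exact Nat.eq_of_mul_eq_mul_left Nat.card_pos h
  let b : β := QuotientGroup.mk 1
  let g : A →* Perm {z : β // z ≠ b} :=
    { toFun := fun a => (f a.1).subtypePerm (fun z => by
        have hfix : f a.1 b = b := by
          show (a.1 : alternatingGroup α) • (QuotientGroup.mk 1 : alternatingGroup α ⧸ A) = QuotientGroup.mk 1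
          rw [MulAction.Quotient.smul_mk, QuotientGroup.eq]
          simp [smul_eq_mul]
        exact ⟨fun h e => h (by rw [e, hfix]), fun h e => h ((f a.1).injective (e.trans hfix.symm))⟩)
      map_one' := by ext z; simp
      map_mul' := fun a a' => by ext z; simp; rfl }
  have hfixb : ∀ a : A, f a.1 b = b := fun a => by
    show (a.1 : alternatingGroup α) • (QuotientGroup.mk 1 : alternatingGroup α ⧸ A) = QuotientGroup.mk 1
    rw [MulAction.Quotient.smul_mk, QuotientGroup.eq]
    simp [smul_eq_mul]
  have hg : ∀ a, g a ∈ alternatingGroup {z : β // z ≠ b} := fun a => by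
    rw [Equiv.Perm.mem_alternatingGroup]
    simp only [g, MonoidHom.coe_mk, OneHom.coe_mk]
    refine (Equiv.Perm.sign_subtypePerm (p := fun z => z ≠ b) (f a.1) _ (fun z hz e => hz (e ▸ hfixb a))).trans ?_
    exact Equiv.Perm.mem_alternatingGroup.1 (hr ▸ ⟨a.1, rfl⟩)
  have hgi : Function.Injective g := fun a a' h => by
    refine Subtype.ext (hf (Equiv.ext fun z => ?_))
    by_cases hz : z = b
    · rw [hz, hfixb, hfixb]
    · exact congrArg Subtype.val (Equiv.congr_fun h ⟨z, hz⟩)
  let g' : A →* alternatingGroup {z : β // z ≠ b} := g.codRestrict _ hg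
  have hcard : Fintype.card {z : β // z ≠ b} = 5 := by
    rw [Fintype.card_subtype_compl, Fintype.card_subtype_eq, hβ]
  have hbij : Function.Bijective g' := by
    refine Function.Injective.bijective_of_nat_card_le (fun a a' h => hgi (congrArg Subtype.val h)) ?_
    have h1 := card_alternating (α := {z : β // z ≠ b}) (by omega)
    rw [hcard, show Nat.factorial 5 = 120 from rfl] at h1
    have h2 := A.card_mul_index
    rw [hA] at h2
    omega
  exact ⟨(MulEquiv.ofBijective g' hbij).trans (Equiv.altCongrHom (Fintype.equivFinOfCardEq hcard))⟩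

variable {G : Subgroup (Perm α)}

/-- Degree six: a transitive group of even permutations containing a 5-cycle. -/
theorem six_case (hG : G ≤ alternatingGroup α) (hd : Fintype.card α = 6) (hG' : IsPretransitive G α)
    {y : Perm α} (hy : y ∈ G) (hyc : y.IsCycle) (hys : y.support.card = 5) :
    ∃ d, 5 ≤ d ∧ Nonempty (G ≃* alternatingGroup (Fin d)) := by
  classical
  have : Fact (Nat.Prime 5) := ⟨by norm_num⟩
  obtain ⟨b, hb⟩ : ∃ b, y b = b := by
    obtain ⟨b, hb⟩ := Finset.card_pos.1 (show 0 < y.supportᶜ.card by rw [Finset.card_compl, hys, hd]; norm_num)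
    exact ⟨b, Equiv.Perm.notMem_support.1 (Finset.mem_compl.1 hb)⟩
  have h6 := card_eq_mul_stab G b Finset.univ (fun h _ => Finset.mem_univ _) fun w _ => by
    obtain ⟨g, hg⟩ := MulAction.exists_smul_eq G b w
    exact ⟨g, g.2, hg⟩
  rw [Finset.card_univ, hd] at h6
  set i := (G.subgroupOf (alternatingGroup α)).index
  have hi := card_eq_of_le G hG (by omega)
  rw [hd, show Nat.factorial 6 = 720 from rfl] at hi
  have hy5 : 5 ∣ Nat.card ↥(G ⊓ stabilizer (Perm α) b) := by
    rw [← hys, ← hyc.orderOf]
    exact Subgroup.orderOf_dvd_natCard _ ⟨hy, MulAction.mem_stabilizer_iff.2 hb⟩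
  obtain ⟨t, ht⟩ := hy5
  rw [ht] at h6
  rcases lt_or_ge i 6 with hi6 | hi6
  · obtain rfl := eq_alternating_of_index_lt G hG (by omega) (by omega)
    exact ⟨6, by norm_num, ⟨Equiv.altCongrHom (Fintype.equivFinOfCardEq hd)⟩⟩
  rcases eq_or_lt_of_le hi6 with hi6 | hi6
  · obtain ⟨e⟩ := iso_five_of_index_six hd _ hi6.symm
    exact ⟨5, le_rfl, ⟨(Subgroup.subgroupOfEquivOfLe hG).symm.trans e⟩⟩
  exfalso
  have ht1 : t = 1 := by
    rw [h6] at hi
    have h1 : t * i = 12 := by linarith
    rcases Nat.eq_zero_or_pos t with rfl | ht0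
    · simp at h1
    by_contra hne
    have : 2 * i ≤ t * i := Nat.mul_le_mul_right _ (by omega)
    omega
  subst ht1
  refine false_of_stab (p := 5) G b h6 (by simpa using ht) (fun h _ hfix => ?_) (by norm_num) (by norm_num) le_rfl
  by_contra hne
  have := hfix y ⟨hy, MulAction.mem_stabilizer_iff.2 hb⟩
  have hsub : ({b, h b} : Finset α) ⊆ y.supportᶜ := by
    intro z hz
    rw [Finset.mem_compl, Equiv.Perm.notMem_support]
    rcases Finset.mem_insert.1 hz with rfl | hz
    · exact hb
    · rw [Finset.mem_singleton.1 hz]; exact this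
  have := Finset.card_le_card hsub
  rw [Finset.card_pair (Ne.symm hne), Finset.card_compl, hys, hd] at this
  omega

/-- `3`-transitivity from a cycle of prime length `p = card α - 2`. -/
theorem three_transitive (hG : IsPreprimitive G α) {p : ℕ} (hp : p.Prime) {g : Perm α} (hg : g ∈ G)
    (hgc : g.IsCycle) (hgs : g.support.card = p) (hd : Fintype.card α = p + 2) :
    IsMultiplyPretransitive G α 3 := by
  classical
  have hp2 := hp.two_le
  have htr := Equiv.Perm.isPretransitive_of_isCycle_mem hgc hg
  have hprim : IsPreprimitive (fixingSubgroup G (g.support : Set α)ᶜ)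
      (SubMulAction.ofFixingSubgroup G (g.support : Set α)ᶜ) := by
    apply MulAction.IsPreprimitive.of_prime_card
    convert! hp using 1
    rw [Nat.card_eq_fintype_card, Fintype.card_subtype, ← hgs]
    apply congr_arg
    ext x
    simp [SubMulAction.mem_ofFixingSubgroup_iff]
  have hF : (g.support : Set α)ᶜ.ncard = 1 + 1 := by
    rw [Set.ncard_compl, Set.ncard_coe_finset, hgs, Nat.card_eq_fintype_card, hd]; omega
  exact (hG.isMultiplyPreprimitive hF (by rw [Nat.card_eq_fintype_card]; omega) hprim).isMultiplyPretransitive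

/-- The common setup in degree `p + 2`. -/
theorem setup (hG : IsPreprimitive G α) {p : ℕ} (hp : p.Prime) {g : Perm α} (hg : g ∈ G)
    (hgc : g.IsCycle) (hgs : g.support.card = p) (hd : Fintype.card α = p + 2) :
    ∃ a b c : α, a ≠ b ∧ a ≠ c ∧ b ≠ c ∧ g a = a ∧ g b = b ∧
      (∀ z, g z = z → z = a ∨ z = b) ∧ g c ≠ c ∧
      Nat.card G = (p + 2) * ((p + 1) * (p * Nat.card
        ↥(G ⊓ stabilizer (Perm α) a ⊓ stabilizer (Perm α) b ⊓ stabilizer (Perm α) c))) ∧
      Nat.card ↥(G ⊓ stabilizer (Perm α) a) = (p + 1) * (p * Nat.card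
        ↥(G ⊓ stabilizer (Perm α) a ⊓ stabilizer (Perm α) b ⊓ stabilizer (Perm α) c)) ∧
      Nat.card ↥(G ⊓ stabilizer (Perm α) a ⊓ stabilizer (Perm α) b) = p * Nat.card
        ↥(G ⊓ stabilizer (Perm α) a ⊓ stabilizer (Perm α) b ⊓ stabilizer (Perm α) c) := by
  classical
  have h3 := three_transitive hG hp hg hgc hgs hd
  have hF : g.supportᶜ.card = 2 := by rw [Finset.card_compl, hgs, hd]; omega
  obtain ⟨a, b, hab, hFe⟩ := Finset.card_eq_two.1 hF
  obtain ⟨c, hc⟩ := Finset.card_pos.1 (hgs.symm ▸ hp.pos : 0 < g.support.card)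
  have hfix : ∀ z, g z = z ↔ z = a ∨ z = b := fun z => by
    have h : z ∈ g.supportᶜ ↔ z ∈ ({a, b} : Finset α) := by rw [hFe]
    simpa [Finset.mem_compl] using h
  have hgc' : g c ≠ c := Equiv.Perm.mem_support.1 hc
  have hga := (hfix a).2 (Or.inl rfl)
  have hgb := (hfix b).2 (Or.inr rfl)
  have hac : a ≠ c := fun h => hgc' (h ▸ hga)
  have hbc : b ≠ c := fun h => hgc' (h ▸ hgb)
  have hreal : ∀ (s : Finset α), s.card ≤ 3 → ∀ f : α → α, Set.InjOn f s →
      ∃ h ∈ G, ∀ z ∈ s, h z = f z := by
    intro s hs f hf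
    obtain ⟨h, hh⟩ := CfsgLib.AltGroups.exists_smul_eqOn (G := G) (k := 3)
      (by rw [Nat.card_eq_fintype_card]; have := hp.two_le; omega) s hs f hf
    exact ⟨h, h.2, hh⟩
  have e1 := card_eq_mul_stab G a Finset.univ (fun _ _ => Finset.mem_univ _) fun w _ => by
    obtain ⟨h, hh, e⟩ := hreal {a} (by simp) (fun _ => w) (by simp)
    exact ⟨h, hh, e a (by simp)⟩
  have e2 := card_eq_mul_stab (G ⊓ stabilizer (Perm α) a) b (Finset.univ.erase a)
    (fun h hh => Finset.mem_erase.2 ⟨fun e => hab (h.injective (e.trans (MulAction.mem_stabilizer_iff.1 hh.2).symm)).symm,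
      Finset.mem_univ _⟩)
    fun w hw => by
      obtain ⟨h, hh, e⟩ := hreal {a, b} (Finset.card_le_two.trans (by norm_num))
        (Equiv.swap b w) (Equiv.injective _).injOn
      refine ⟨h, ⟨hh, MulAction.mem_stabilizer_iff.2 ?_⟩, ?_⟩
      · show h a = a
        rw [e a (by simp), Equiv.swap_apply_of_ne_of_ne hab (Finset.mem_erase.1 hw).1.symm]
      · rw [e b (by simp), Equiv.swap_apply_left]
  have e3 := card_eq_mul_stab (G ⊓ stabilizer (Perm α) a ⊓ stabilizer (Perm α) b) c g.support
    (fun h hh => by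
      rw [Equiv.Perm.mem_support]
      intro e
      rcases (hfix _).1 e with e | e
      · exact hac (h.injective (e.trans (MulAction.mem_stabilizer_iff.1 hh.1.2).symm)).symm
      · exact hbc (h.injective (e.trans (MulAction.mem_stabilizer_iff.1 hh.2).symm)).symm)
    fun w hw => by
      obtain ⟨i, hi⟩ := hgc.exists_zpow_eq hgc' (Equiv.Perm.mem_support.1 hw)
      exact ⟨g ^ i, ⟨⟨G.zpow_mem hg i,
        MulAction.mem_stabilizer_iff.2 (Equiv.Perm.zpow_apply_eq_self_of_apply_eq_self hga i)⟩,
        MulAction.mem_stabilizer_iff.2 (Equiv.Perm.zpow_apply_eq_self_of_apply_eq_self hgb i)⟩, hi⟩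
  rw [hgs] at e3
  rw [e3, Finset.card_erase_of_mem (Finset.mem_univ a), Finset.card_univ, hd, show p + 2 - 1 = p + 1 by omega] at e2
  rw [e2, Finset.card_univ, hd] at e1
  exact ⟨a, b, c, hab, hac, hbc, hga, hgb, fun z => (hfix z).1, hgc', e1, e2, e3⟩

/-- In degree `p + 2` the three-point stabiliser is nontrivial. -/
theorem stab_three_ne_one {p : ℕ} [Fact p.Prime] (h2 : 2 ∣ p + 1) (h3 : 3 ∣ p + 1) (h5 : 5 ≤ p)
    {g : Perm α} (hg : g ∈ G) {a b : α} (hga : g a = a) (hgb : g b = b)
    (hfix : ∀ z, g z = z → z = a ∨ z = b)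
    (hGa : Nat.card ↥(G ⊓ stabilizer (Perm α) a) = (p + 1) * p)
    (hGab : Nat.card ↥(G ⊓ stabilizer (Perm α) a ⊓ stabilizer (Perm α) b) = p) (hab : a ≠ b) : False := by
  refine false_of_stab (p := p) (G ⊓ stabilizer (Perm α) a) b (by rw [hGa, mul_comm]) hGab
    (fun h hh hf => ?_) h2 h3 h5
  rcases hfix _ (hf g ⟨⟨hg, MulAction.mem_stabilizer_iff.2 hga⟩, MulAction.mem_stabilizer_iff.2 hgb⟩) with e | e
  · exact absurd (h.injective (e.trans (MulAction.mem_stabilizer_iff.1 hh.2).symm)) hab.symm
  · exact e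

/-- Degree seven. -/
theorem seven_case (hG : G ≤ alternatingGroup α) (hprim : IsPreprimitive G α) (hd : Fintype.card α = 7)
    {g : Perm α} (hg : g ∈ G) (hgc : g.IsCycle) (hgs : g.support.card = 5) :
    G = alternatingGroup α := by
  have : Fact (Nat.Prime 5) := ⟨by norm_num⟩
  obtain ⟨a, b, c, hab, -, -, hga, hgb, hfix, -, e1, e2, e3⟩ := setup hprim (by norm_num) hg hgc hgs hd
  set t := Nat.card ↥(G ⊓ stabilizer (Perm α) a ⊓ stabilizer (Perm α) b ⊓ stabilizer (Perm α) c)
  refine eq_alternating_of_index_lt G hG (by omega) ?_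
  have hi := card_eq_of_le G hG (by omega)
  rw [hd, show Nat.factorial 7 = 5040 from rfl, e1] at hi
  rw [hd]
  by_contra hcon
  have h1 : t * (G.subgroupOf (alternatingGroup α)).index = 12 := by linarith
  have ht0 : 0 < t := Nat.card_pos
  have : t = 1 := by
    by_contra hne
    have : 2 * (G.subgroupOf (alternatingGroup α)).index ≤ t * (G.subgroupOf (alternatingGroup α)).index :=
      Nat.mul_le_mul_right _ (by omega)
    omega
  rw [this, mul_one] at e2 e3
  exact stab_three_ne_one (by norm_num) (by norm_num) le_rfl hg hga hgb hfix e2 e3 hab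

end CfsgLib.ElementOrders.PrimeGen
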