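import Mathlib
import Cfsg.Agent.Lib.ElementOrders.PrimeGenSmall

/-!
A primitive group of degree thirteen with an 11-cycle contains the alternating group.
-/

namespace CfsgLib.ElementOrders.PrimeGen

open Equiv Equiv.Perm MulAction
open scoped Pointwise

variable {α : Type*} [Fintype α] [DecidableEq α] {G : Subgroup (Perm α)}

theorem pow_ten_mod_eleven (r : ℕ) (h : r % 11 ≠ 0) : r ^ 10 % 11 = 1 := by
  have key : ∀ k < 11, k ≠ 0 → k ^ 10 % 11 = 1 := by decide
  rw [Nat.pow_mod]; exact key _ (Nat.mod_lt _ (by norm_num)) h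

theorem sq_mod_eleven (r : ℕ) (h : r ^ 2 % 11 = 1) : r % 11 = 1 ∨ r % 11 = 10 := by
  have key : ∀ k < 11, k ^ 2 % 11 = 1 → k = 1 ∨ k = 10 := by decide
  rw [Nat.pow_mod] at h; exact key _ (Nat.mod_lt _ (by norm_num)) h

theorem inverse_mod_eleven : ∀ i < 10, ∃ e < 11, (i + 1) * e % 11 = 1 := by decide

theorem pow_four_mod_five (r : ℕ) (h : r % 5 ≠ 0) : r ^ 4 % 5 = 1 := by
  have key : ∀ k < 5, k ≠ 0 → k ^ 4 % 5 = 1 := by decide
  rw [Nat.pow_mod]; exact key _ (Nat.mod_lt _ (by norm_num)) h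

theorem pow_five_mod_five (r : ℕ) : r ^ 5 % 5 = r % 5 := by
  have key : ∀ k < 5, k ^ 5 % 5 = k := by decide
  rw [Nat.pow_mod]; exact key _ (Nat.mod_lt _ (by norm_num))

/-- `u` of order five with two cycles: the square of a commuting permutation is a power of `u` on each. -/
theorem sq_on_cycles {u w : Perm α} (ho : orderOf u = 5) (hs : u.support.card = 10) (hwu : Commute w u)
    (z : α) (hz : z ∈ u.support) :
    ∃ (c : Perm α) (j : ℤ), z ∈ c.support ∧ c.support ⊆ u.support ∧ c.support.card = 5 ∧ ∀ v ∈ c.support, (w * w) v = (u ^ j) v := by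
  classical
  set c := u.cycleOf z with hc
  have huz : u z ≠ z := Equiv.Perm.mem_support.1 hz
  have hcc : c.IsCycle := Equiv.Perm.isCycle_cycleOf _ huz
  have hzc : z ∈ c.support := by rw [hc, Equiv.Perm.mem_support_cycleOf_iff]; exact ⟨Equiv.Perm.SameCycle.refl _ _, hz⟩
  have horb : ∀ v ∈ c.support, ∃ i : ℕ, (u ^ i) z = v := fun v hv => by
    rw [hc, Equiv.Perm.mem_support_cycleOf_iff] at hv
    exact hv.1.exists_nat_pow_eq
  have hc5 : c.support.card = 5 := by
    have h2 := Equiv.Perm.IsCycle.orderOf hcc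
    have hd : orderOf c ∣ 5 := by
      rw [← ho]; exact Equiv.Perm.orderOf_cycleOf_dvd_orderOf u z
    rw [h2] at hd
    rcases (Nat.dvd_prime (by norm_num : Nat.Prime 5)).1 hd with h | h
    · exact absurd h (by have := hcc.two_le_card_support; omega)
    · exact h
  -- the three points `z`, `w z`, `w (w z)` cannot lie in three different cycles
  have hmem : ∀ v ∈ u.support, w v ∈ u.support := fun v hv => by
    rw [Equiv.Perm.mem_support] at hv ⊢
    intro e
    exact hv (w.injective (by rw [← Equiv.Perm.mul_apply, hwu.eq, Equiv.Perm.mul_apply, e]))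
  have hcyc : ∀ v ∈ u.support, (u.cycleOf v).support.card = 5 := fun v hv => by
    have h2 := Equiv.Perm.IsCycle.orderOf (Equiv.Perm.isCycle_cycleOf _ (Equiv.Perm.mem_support.1 hv))
    have hd : orderOf (u.cycleOf v) ∣ 5 := by
      rw [← ho]; exact Equiv.Perm.orderOf_cycleOf_dvd_orderOf u v
    rw [h2] at hd
    rcases (Nat.dvd_prime (by norm_num : Nat.Prime 5)).1 hd with h | h
    · exact absurd h (by have := (Equiv.Perm.isCycle_cycleOf _ (Equiv.Perm.mem_support.1 hv)).two_le_card_support; omega)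
    · exact h
  have hpres : ∀ a b : α, u.SameCycle a b → u.SameCycle (w a) (w b) := fun a b h => by
    obtain ⟨i, rfl⟩ := h
    exact ⟨i, by rw [← Equiv.Perm.mul_apply, ← (hwu.zpow_right i).eq, Equiv.Perm.mul_apply]⟩
  have hsame : u.SameCycle z (w (w z)) := by
    by_contra hne
    have hwz := hmem z hz
    have hwwz := hmem _ hwz
    have h1 : ¬ u.SameCycle z (w z) := fun h => hne (h.trans (hpres _ _ h))
    have h3 : ¬ u.SameCycle (w z) (w (w z)) := fun h => by
      apply h1
      obtain ⟨i, hi⟩ := h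
      refine ⟨i, w.injective ?_⟩
      rw [← Equiv.Perm.mul_apply, (hwu.zpow_right i).eq, Equiv.Perm.mul_apply, hi]
    have hdis : ∀ a b : α, ¬ u.SameCycle a b → Disjoint (u.cycleOf a).support (u.cycleOf b).support :=
      fun a b hab => Finset.disjoint_left.2 fun v ha hb => by
        rw [Equiv.Perm.mem_support_cycleOf_iff] at ha hb
        exact hab (ha.1.trans hb.1.symm)
    have h15 : ((u.cycleOf z).support ∪ (u.cycleOf (w z)).support ∪ (u.cycleOf (w (w z))).support).card ≤ 10 := by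
      rw [← hs]
      exact Finset.card_le_card (Finset.union_subset (Finset.union_subset
        (Equiv.Perm.support_cycleOf_le _ _) (Equiv.Perm.support_cycleOf_le _ _)) (Equiv.Perm.support_cycleOf_le _ _))
    rw [Finset.card_union_of_disjoint, Finset.card_union_of_disjoint (hdis _ _ h1), hcyc _ hz, hcyc _ hwz,
      hcyc _ hwwz] at h15
    · omega
    · exact Finset.disjoint_union_left.2 ⟨hdis _ _ hne, hdis _ _ h3⟩
  obtain ⟨j, hj⟩ := hsame
  refine ⟨c, j, hzc, Equiv.Perm.support_cycleOf_le u z, hc5, fun v hv => ?_⟩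
  obtain ⟨i, rfl⟩ := horb v hv
  rw [← Equiv.Perm.mul_apply (w * w), ((hwu.mul_left hwu).pow_right i).eq, Equiv.Perm.mul_apply,
    Equiv.Perm.mul_apply, ← hj, ← Equiv.Perm.mul_apply, ← Equiv.Perm.mul_apply, ← zpow_natCast,
    ← zpow_add, ← zpow_add, add_comm]

variable {a b c : α}

/-- The three-point stabiliser contains an element of order five. -/
theorem five_dvd_stab (hG : G ≤ alternatingGroup α) (hd : Fintype.card α = 13) {g : Perm α} (hg : g ∈ G)
    (hgc : g.IsCycle) (hgs : g.support.card = 11) (hab : a ≠ b) (hac : a ≠ c) (hbc : b ≠ c)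
    (hga : g a = a) (hgb : g b = b) (hfix : ∀ z, g z = z → z = a ∨ z = b) (hgc' : g c ≠ c)
    (e2 : Nat.card ↥(G ⊓ stabilizer (Perm α) a) = (11 + 1) * (11 * Nat.card
      ↥(G ⊓ stabilizer (Perm α) a ⊓ stabilizer (Perm α) b ⊓ stabilizer (Perm α) c)))
    (e3 : Nat.card ↥(G ⊓ stabilizer (Perm α) a ⊓ stabilizer (Perm α) b) = 11 * Nat.card
      ↥(G ⊓ stabilizer (Perm α) a ⊓ stabilizer (Perm α) b ⊓ stabilizer (Perm α) c)) :
    5 ∣ Nat.card ↥(G ⊓ stabilizer (Perm α) a ⊓ stabilizer (Perm α) b ⊓ stabilizer (Perm α) c) := by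
  classical
  have hp11 : Fact (Nat.Prime 11) := ⟨by norm_num⟩
  set K := G ⊓ stabilizer (Perm α) a ⊓ stabilizer (Perm α) b with hK
  set L := K ⊓ stabilizer (Perm α) c with hL
  -- members of `L` fix the three points
  have hLfix : ∀ u ∈ L, u a = a ∧ u b = b ∧ u c = c := fun u hu => ⟨hu.1.1.2, hu.1.2, hu.2⟩
  have hLG : ∀ u ∈ L, u ∈ G := fun u hu => hu.1.1.1
  have hsupp : ∀ u ∈ L, u.support ⊆ Finset.univ \ {a, b, c} := fun u hu z hz => by
    obtain ⟨h1, h2, h3⟩ := hLfix u hu
    simp only [Finset.mem_sdiff, Finset.mem_univ, Finset.mem_insert, Finset.mem_singleton, true_and]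
    rw [Equiv.Perm.mem_support] at hz
    rintro (rfl | rfl | rfl)
    exacts [hz h1, hz h2, hz h3]
  have hten : (Finset.univ \ ({a, b, c} : Finset α)).card = 10 := by
    rw [Finset.card_sdiff_of_subset (Finset.subset_univ _), Finset.card_univ, hd,
      Finset.card_eq_three.2 ⟨a, b, c, hab, hac, hbc, rfl⟩]
  have hle10 : ∀ u ∈ L, u.support.card ≤ 10 := fun u hu => hten ▸ Finset.card_le_card (hsupp u hu)
  have hgK : g ∈ K := ⟨⟨hg, MulAction.mem_stabilizer_iff.2 hga⟩, MulAction.mem_stabilizer_iff.2 hgb⟩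
  have hgo : orderOf g = 11 := by rw [hgc.orderOf, hgs]
  by_contra h5
  have hLne : Nat.card L ≠ 1 := fun h1 => by
    rw [h1, mul_one] at e2 e3
    exact stab_three_ne_one (p := 11) (by norm_num) (by norm_num) (by norm_num) hg hga hgb hfix e2 e3 hab
  -- elements of `K` normalising `⟨g⟩` are powers of `g`
  have hN : ∀ u ∈ K, (∃ r : ℕ, u * g * u⁻¹ = g ^ r) → u ∈ Subgroup.zpowers g := by
    intro u hu ⟨r, hr⟩
    have huc : u c ∈ g.support := by
      rw [Equiv.Perm.mem_support]
      intro e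
      rcases hfix _ e with e' | e'
      · exact hac (u.injective (e'.trans (MulAction.mem_stabilizer_iff.1 hu.1.2).symm)).symm
      · exact hbc (u.injective (e'.trans (MulAction.mem_stabilizer_iff.1 hu.2).symm)).symm
    obtain ⟨i, hi⟩ := hgc.exists_pow_eq hgc' (Equiv.Perm.mem_support.1 huc)
    set v := (g ^ i)⁻¹ * u with hv
    have hvK : v ∈ K := K.mul_mem (K.inv_mem (K.pow_mem hgK i)) hu
    have hvc : v c = c := by
      rw [hv, Equiv.Perm.mul_apply, Equiv.Perm.inv_eq_iff_eq]; exact hi.symm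
    have hvL : v ∈ L := ⟨hvK, hvc⟩
    have hvg : v * g * v⁻¹ = g ^ r := by
      rw [hv, show ((g ^ i)⁻¹ * u) * g * ((g ^ i)⁻¹ * u)⁻¹ = (g ^ i)⁻¹ * (u * g * u⁻¹) * g ^ i by group, hr]
      group
    have hpows : ∀ k l : ℕ, v ^ k * g ^ l * (v ^ k)⁻¹ = g ^ (l * r ^ k) := by
      intro k
      induction k with
      | zero => intro l; simp
      | succ k ih =>
        intro l
        rw [pow_succ, show v ^ k * v * g ^ l * (v ^ k * v)⁻¹ = v ^ k * (v * g ^ l * v⁻¹) * (v ^ k)⁻¹ by group,
          ← conj_pow, hvg, ← pow_mul, ih]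
        ring_nf
    have htriv : ∀ w : Perm α, w a = a → w b = b → w c = c → (∀ l : ℕ, w * g ^ l * w⁻¹ = g ^ l) → w = 1 := by
      intro w ha hb hc h
      refine Equiv.ext fun z => ?_
      rw [Equiv.Perm.one_apply]
      by_cases hz : g z = z
      · rcases hfix z hz with rfl | rfl <;> assumption
      · obtain ⟨l, rfl⟩ := hgc.exists_pow_eq hgc' hz
        rw [← Equiv.Perm.mul_apply, mul_inv_eq_iff_eq_mul.1 (h l), Equiv.Perm.mul_apply, hc]
    have hr11 : r % 11 ≠ 0 := fun h0 => by
      have : v * g * v⁻¹ = 1 := by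
        rw [hvg, ← pow_mod_orderOf g r, hgo, h0, pow_zero]
      rw [conj_eq_one_iff] at this
      rw [this, Equiv.Perm.one_apply] at hgc'
      exact hgc' rfl
    have hfer : r ^ 10 % 11 = 1 := pow_ten_mod_eleven r hr11
    have hv10 : v ^ 10 = 1 := htriv _ (hLfix _ (L.pow_mem hvL 10)).1 (hLfix _ (L.pow_mem hvL 10)).2.1
      (hLfix _ (L.pow_mem hvL 10)).2.2 fun l => by
        rw [hpows 10 l, ← pow_mod_orderOf g (l * r ^ 10), hgo, Nat.mul_mod, hfer, mul_one, Nat.mod_mod,
          ← hgo, pow_mod_orderOf]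
    have hv2 : v ^ 2 = 1 := by
      rw [← orderOf_dvd_iff_pow_eq_one]
      have hd10 : orderOf v ∣ 2 * 5 := orderOf_dvd_of_pow_eq_one hv10
      exact ((Nat.Prime.coprime_iff_not_dvd (by norm_num : Nat.Prime 5)).2
        (fun h => h5 (h.trans (L.orderOf_dvd_natCard hvL)))).symm.dvd_of_dvd_mul_right hd10
    suffices hv1 : v = 1 by
      rw [hv, inv_mul_eq_one] at hv1
      exact hv1 ▸ Subgroup.npow_mem_zpowers g i
    have hr2 : r ^ 2 % 11 = 1 := by
      have h1 := hpows 2 1
      rw [hv2, pow_one, one_mul, inv_one, mul_one, one_mul] at h1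
      have h2 : g ^ 1 = g ^ (r ^ 2) := by rwa [pow_one]
      rw [pow_inj_mod, hgo] at h2
      omega
    have hr' : r % 11 = 1 ∨ r % 11 = 10 := sq_mod_eleven r hr2
    obtain ⟨hva, hvb, -⟩ := hLfix v hvL
    rcases hr' with h | h
    · refine htriv v hva hvb hvc fun l => ?_
      have h1 := hpows 1 l
      rw [pow_one, pow_one] at h1
      rw [h1, ← pow_mod_orderOf g (l * r), hgo, Nat.mul_mod, h, mul_one, Nat.mod_mod, ← hgo, pow_mod_orderOf]
    · exfalso
      -- an involution with exactly five transpositions is odd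
      have hmove : ∀ z, g z ≠ z → z ≠ c → v z ≠ z := by
        intro z hz hzc e
        obtain ⟨l, rfl⟩ := hgc.exists_pow_eq hgc' hz
        have h1 : v ((g ^ l) c) = (g ^ (l * r)) c := by
          have h2 := hpows 1 l
          rw [pow_one, pow_one] at h2
          rw [← Equiv.Perm.mul_apply, mul_inv_eq_iff_eq_mul.1 h2, Equiv.Perm.mul_apply, hvc]
        rw [e] at h1
        have h3 : g ^ l = g ^ (l * r) := (hgc.pow_eq_pow_iff).2 ⟨c, hgc', h1⟩
        rw [pow_inj_mod, hgo] at h3
        apply hzc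
        have h4 : l % 11 = 0 := by
          rw [Nat.mul_mod, h] at h3
          omega
        rw [← pow_mod_orderOf g l, hgo, h4, pow_zero, Equiv.Perm.one_apply]
      have hsup : v.support = Finset.univ \ {a, b, c} := by
        refine Finset.Subset.antisymm (hsupp v hvL) fun z hz => ?_
        simp only [Finset.mem_sdiff, Finset.mem_univ, Finset.mem_insert, Finset.mem_singleton, true_and, not_or] at hz
        rw [Equiv.Perm.mem_support]
        exact hmove z (fun e => (hfix z e).elim hz.1 hz.2.1) hz.2.2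
      have hcard : v.support.card = 10 := by rw [hsup, hten]
      have hct : ∀ n ∈ v.cycleType, n = 2 := fun n hn => by
        have h1 := Equiv.Perm.two_le_of_mem_cycleType hn
        have h2 := (Equiv.Perm.dvd_of_mem_cycleType hn).trans (orderOf_dvd_of_pow_eq_one hv2)
        exact le_antisymm (Nat.le_of_dvd (by norm_num) h2) h1
      have hrep := Multiset.eq_replicate_card.2 hct
      have hsum := Equiv.Perm.sum_cycleType v
      rw [hcard, hrep, Multiset.sum_replicate, smul_eq_mul] at hsum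
      have hs := Equiv.Perm.mem_alternatingGroup.1 (hG (hLG v hvL))
      rw [Equiv.Perm.sign_of_cycleType, hrep, Multiset.sum_replicate, Multiset.card_replicate,
        smul_eq_mul] at hs
      rw [show v.cycleType.card = 5 by omega] at hs
      exact absurd hs (by decide)
  -- count the elements of order `11` in `K`
  let S : Finset (Perm α) := Finset.univ.filter fun u => u ∈ K ∧ orderOf u = 11
  let R : Finset (Perm α) := Finset.univ.filter fun u => u ∈ K ∧ orderOf u ≠ 11
  have hKcard : S.card + R.card = 11 * Nat.card L := by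
    rw [← e3, ← Finset.card_union_of_disjoint (by simp only [S, R, Finset.disjoint_left, Finset.mem_filter]; intro u hu hu'; exact hu'.2.2 hu.2.2),
      ← Nat.card_eq_finsetCard]
    exact Nat.card_congr (Equiv.subtypeEquivRight fun u => by simp [S, R]; tauto)
  have hS : 10 * Nat.card L ≤ S.card := by
    let f : (↥K ⧸ (Subgroup.zpowers g).subgroupOf K) × Fin 10 → Perm α :=
      fun s => (s.1.out : Perm α) * g ^ ((s.2 : ℕ) + 1) * (s.1.out : Perm α)⁻¹
    have hpow : ∀ i : Fin 10, orderOf (g ^ ((i : ℕ) + 1)) = 11 := fun i => by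
      rw [Nat.Coprime.orderOf_pow, hgo]
      rw [hgo]
      exact (Nat.Prime.coprime_iff_not_dvd (by norm_num : Nat.Prime 11)).2
        (fun h => absurd (Nat.le_of_dvd (by omega) h) (by omega))
    have hf : Function.Injective f := by
      rintro ⟨q, i⟩ ⟨q', i'⟩ h
      have h' : (q'.out : Perm α)⁻¹ * q.out * g ^ ((i : ℕ) + 1) * ((q'.out : Perm α)⁻¹ * q.out)⁻¹ = g ^ ((i' : ℕ) + 1) := by
        calc _ = (q'.out : Perm α)⁻¹ * ((q.out : Perm α) * g ^ ((i : ℕ) + 1) * (q.out : Perm α)⁻¹) * q'.out := by group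
          _ = (q'.out : Perm α)⁻¹ * ((q'.out : Perm α) * g ^ ((i' : ℕ) + 1) * (q'.out : Perm α)⁻¹) * q'.out := by
            rw [show (q.out : Perm α) * g ^ ((i : ℕ) + 1) * (q.out : Perm α)⁻¹ = (q'.out : Perm α) * g ^ ((i' : ℕ) + 1) * (q'.out : Perm α)⁻¹ from h]
          _ = g ^ ((i' : ℕ) + 1) := by group
      have hmem : q'.out⁻¹ * q.out ∈ (Subgroup.zpowers g).subgroupOf K := by
        rw [Subgroup.mem_subgroupOf, Subgroup.coe_mul, Subgroup.coe_inv]
        set u := (q'.out : Perm α)⁻¹ * q.out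
        have hu : u ∈ K := K.mul_mem (K.inv_mem q'.out.2) q.out.2
        obtain ⟨e, -, he⟩ := inverse_mod_eleven i i.2
        refine hN u hu ⟨((i' : ℕ) + 1) * e, ?_⟩
        rw [pow_mul, ← h', conj_pow, ← pow_mul, ← pow_mod_orderOf g (((i : ℕ) + 1) * e), hgo, he, pow_one]
      have hq : q' = q := by
        rw [← QuotientGroup.out_eq' q', ← QuotientGroup.out_eq' q, QuotientGroup.eq]; exact hmem
      subst hq
      have hi' := mul_left_cancel (mul_right_cancel h)
      rw [pow_inj_mod, hgo] at hi'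
      exact Prod.ext rfl (Fin.ext (by have := i.2; have := i'.2; simp only at hi' ⊢; omega))
    have hidx : Nat.card (↥K ⧸ (Subgroup.zpowers g).subgroupOf K) = Nat.card L := by
      have h := ((Subgroup.zpowers g).subgroupOf K).index_mul_card
      rw [Nat.card_congr (Subgroup.subgroupOfEquivOfLe (Subgroup.zpowers_le.2 hgK)).toEquiv,
        Nat.card_zpowers, hgo, e3, mul_comm 11, Subgroup.index_eq_card] at h
      exact Nat.eq_of_mul_eq_mul_right (by norm_num) h
    have hcard := Nat.card_le_card_of_injective (fun s => (⟨f s, Finset.mem_filter.2 ⟨Finset.mem_univ _,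
      K.mul_mem (K.mul_mem s.1.out.2 (K.pow_mem hgK _)) (K.inv_mem s.1.out.2),
      (orderOf_injective (MulAut.conj (s.1.out : Perm α)).toMonoidHom (MulAut.conj (s.1.out : Perm α)).injective _).trans (hpow s.2)⟩⟩ : S))
      fun s t h => hf (congrArg Subtype.val h)
    rw [Nat.card_prod, hidx, Nat.card_fin, Nat.card_eq_finsetCard] at hcard
    omega
  have hLR : (Finset.univ.filter fun u => u ∈ L) = R := by
    refine Finset.eq_of_subset_of_card_le (fun u hu => ?_) ?_
    · simp only [Finset.mem_filter, Finset.mem_univ, true_and] at hu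
      refine Finset.mem_filter.2 ⟨Finset.mem_univ _, hu.1, fun ho => ?_⟩
      have h1 : u ≠ 1 := fun e => by rw [e, orderOf_one] at ho; omega
      obtain ⟨z, hz⟩ := Finset.card_pos.1 (Finset.card_pos.2 (Finset.nonempty_iff_ne_empty.2
        (mt Equiv.Perm.support_eq_empty_iff.1 h1)))
      have hcyc := Equiv.Perm.isCycle_cycleOf u (Equiv.Perm.mem_support.1 hz)
      have hd := Equiv.Perm.orderOf_cycleOf_dvd_orderOf u z
      rw [hcyc.orderOf, ho] at hd
      have hle := (Finset.card_le_card (Equiv.Perm.support_cycleOf_le u z)).trans (hle10 u hu)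
      have h2 := hcyc.two_le_card_support
      rcases (Nat.dvd_prime (by norm_num : Nat.Prime 11)).1 hd with h | h <;> omega
    · rw [show (Finset.univ.filter fun u => u ∈ L).card = Nat.card L by
        rw [← Nat.card_eq_finsetCard]; exact Nat.card_congr (Equiv.subtypeEquivRight fun u => by simp)]
      omega
  -- so `L` is normal in `K`, hence trivial
  apply hLne
  rw [Subgroup.card_eq_one, eq_bot_iff]
  intro u hu
  obtain ⟨hua, hub, huc⟩ := hLfix u hu
  rw [Subgroup.mem_bot]
  refine Equiv.ext fun z => ?_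
  rw [Equiv.Perm.one_apply]
  by_cases hz : g z = z
  · rcases hfix z hz with rfl | rfl <;> assumption
  · obtain ⟨i, rfl⟩ := hgc.exists_pow_eq hgc' hz
    have h1 : (g ^ i)⁻¹ * u * g ^ i ∈ R := by
      refine Finset.mem_filter.2 ⟨Finset.mem_univ _,
        K.mul_mem (K.mul_mem (K.inv_mem (K.pow_mem hgK i)) hu.1) (K.pow_mem hgK i), ?_⟩
      have h2 : u ∈ R := hLR ▸ Finset.mem_filter.2 ⟨Finset.mem_univ _, hu⟩
      have h3 : orderOf ((g ^ i)⁻¹ * u * g ^ i) = orderOf u := by
        rw [show (g ^ i)⁻¹ * u * g ^ i = MulAut.conj (g ^ i)⁻¹ u by rw [MulAut.conj_apply, inv_inv]]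
        exact MulEquiv.orderOf_eq _ u
      rw [h3]; exact (Finset.mem_filter.1 h2).2.2
    rw [← hLR] at h1
    have h4 := (hLfix _ (Finset.mem_filter.1 h1).2).2.2
    rw [Equiv.Perm.mul_apply, Equiv.Perm.mul_apply, Equiv.Perm.inv_eq_iff_eq] at h4
    exact h4

/-- A subgroup of fixing-three-points elements with a double five-cycle either gives a five-cycle or has
centraliser `⟨u⟩` among elements of order five. -/
theorem commuting_order_five (hprim : IsPreprimitive G α) (hd : Fintype.card α = 13) {L : Subgroup (Perm α)}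
    (hLG : L ≤ G) {T : Finset α} (hT : T.card = 10) (hsupp : ∀ u ∈ L, u.support ⊆ T) {u : Perm α}
    (huL : u ∈ L) (hu5' : orderOf u = 5) (hu10 : u.support.card = 10) (hnot : ¬ alternatingGroup α ≤ G)
    {v : Perm α} (hv : v ∈ L) (hvo : orderOf v = 5) (hvu : Commute v u) : v ∈ Subgroup.zpowers u := by
  classical
  have hp5 : Fact (Nat.Prime 5) := ⟨by norm_num⟩
  have hle10 : ∀ u ∈ L, u.support.card ≤ 10 := fun u hu => hT ▸ Finset.card_le_card (hsupp u hu)
  have h5 : ∀ v ∈ L, orderOf v = 5 → v.support.card = 10 := by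
    intro v hv hvo
    by_contra h
    obtain ⟨hc, hs⟩ := isCycle_of_lt (by norm_num : Nat.Prime 5) hvo (by have := hle10 v hv; omega)
    exact hnot (Cfsg.Agent.S0713.result G hprim (by norm_num : Nat.Prime 5) (by omega) (by omega) hc hs (hLG hv))
  by_contra hmem
  obtain ⟨z, hz⟩ := Finset.card_pos.1 (show 0 < u.support.card by omega)
  obtain ⟨d, j, -, hdu, hd5, hj⟩ := sq_on_cycles hu5' hu10 hvu z hz
  set w := (u ^ j)⁻¹ * (v * v) with hw
  have hwL : w ∈ L := L.mul_mem (L.inv_mem (L.zpow_mem huL j)) (L.mul_mem hv hv)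
  have hwne : w ≠ 1 := fun h1 => by
    rw [hw, inv_mul_eq_one] at h1
    apply hmem
    refine ⟨3 * j, ?_⟩
    show u ^ (3 * j) = v
    rw [mul_comm, zpow_mul, h1, show (3 : ℤ) = ((3 : ℕ) : ℤ) from rfl, zpow_natCast, ← pow_two, ← pow_mul]
    have := pow_mod_orderOf v 6
    rw [hvo] at this
    simpa using this.symm
  have hwo : orderOf w = 5 := by
    refine orderOf_eq_prime ?_ hwne
    have hc : Commute (u ^ j)⁻¹ (v * v) := ((hvu.symm.mul_right hvu.symm).zpow_left j).inv_left
    rw [hw, hc.mul_pow, inv_pow, ← zpow_natCast, ← zpow_mul, mul_comm, zpow_mul, zpow_natCast, ← hu5',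
      pow_orderOf_eq_one, one_zpow, inv_one, one_mul, ← pow_two, ← pow_mul, mul_comm, pow_mul, hu5', ← hvo,
      pow_orderOf_eq_one, one_pow]
  have h := h5 w hwL hwo
  have hsub : w.support ⊆ T \ d.support := fun y hy => Finset.mem_sdiff.2
    ⟨hsupp w hwL hy, fun hyd => Equiv.Perm.mem_support.1 hy (by
      rw [hw, Equiv.Perm.mul_apply, hj y hyd, Equiv.Perm.inv_eq_iff_eq])⟩
  have := Finset.card_le_card hsub
  rw [Finset.card_sdiff_of_subset (hdu.trans (hsupp u huL)), hT, hd5, h] at this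
  omega

/-- The subgroup generated by such an element is a Sylow subgroup. -/
theorem sylow_eq_zpowers {L : Subgroup (Perm α)} (hle10 : ∀ v ∈ L, v.support.card ≤ 10) {u : Perm α}
    (huL : u ∈ L) (hu5' : orderOf u = 5)
    (hcyc5 : ∀ v ∈ L, orderOf v = 5 → Commute v u → v ∈ Subgroup.zpowers u)
    [Fact (Nat.Prime 5)] (P : Sylow 5 L) (hP : Subgroup.zpowers (⟨u, huL⟩ : L) ≤ P) :
    (P : Subgroup L) = Subgroup.zpowers ⟨u, huL⟩ := by
  classical
  set U : Subgroup L := Subgroup.zpowers ⟨u, huL⟩ with hUdef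
  by_contra hne
  have hPU : U < P := lt_of_le_of_ne hP (Ne.symm hne)
  have : Group.IsNilpotent (P : Subgroup L) := P.isPGroup'.isNilpotent
  obtain ⟨x, hxN, hxU⟩ := SetLike.exists_of_lt
    (Group.normalizerCondition_of_isNilpotent (U.subgroupOf (P : Subgroup L))
      (lt_of_le_of_ne le_top fun h => hne (le_antisymm (Subgroup.subgroupOf_eq_top.1 h) hP)))
  have hord : ∃ n, orderOf ((x : L) : Perm α) = 5 ^ n := by
    obtain ⟨n, hn⟩ := IsPGroup.iff_orderOf.1 P.isPGroup' x
    exact ⟨n, by rw [Subgroup.orderOf_coe, Subgroup.orderOf_coe, hn]⟩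
  have hx5 : orderOf ((x : L) : Perm α) = 5 := by
    obtain ⟨n, hn⟩ := hord
    have hne1 : ((x : L) : Perm α) ≠ 1 := fun e => hxU (by
      rw [show x = 1 from Subtype.ext (Subtype.ext e)]; exact one_mem _)
    refine orderOf_eq_prime ?_ hne1
    refine Equiv.ext fun z => ?_
    rw [Equiv.Perm.one_apply]
    by_contra hz
    have hz' : z ∈ ((x : L) : Perm α).support := Equiv.Perm.mem_support.2 fun e =>
      hz (Equiv.Perm.pow_apply_eq_self_of_apply_eq_self e 5)
    have hcy := Equiv.Perm.isCycle_cycleOf ((x : L) : Perm α) (Equiv.Perm.mem_support.1 hz')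
    have hd' := Equiv.Perm.orderOf_cycleOf_dvd_orderOf ((x : L) : Perm α) z
    rw [hcy.orderOf, hn] at hd'
    obtain ⟨i, -, hi⟩ := (Nat.dvd_prime_pow (by norm_num : Nat.Prime 5)).1 hd'
    have hle := (Finset.card_le_card (Equiv.Perm.support_cycleOf_le _ z)).trans (hle10 _ (x : L).2)
    have h2 := hcy.two_le_card_support
    have hi1 : i = 1 := by
      rcases i with _ | _ | i
      · simp at hi; omega
      · rfl
      · have : 25 ≤ 5 ^ (i + 2) := by
          calc 25 = 5 ^ 2 := by norm_num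
            _ ≤ 5 ^ (i + 2) := Nat.pow_le_pow_right (by norm_num) (by omega)
        omega
    subst hi1
    apply hz
    rw [← Equiv.Perm.pow_mod_orderOf_cycleOf_apply]
    simp [hcy.orderOf, hi]
  apply hxU
  have hnorm := (Subgroup.mem_normalizer_iff.1 hxN ⟨⟨u, huL⟩, hP (Subgroup.mem_zpowers _)⟩).1
    (Subgroup.mem_subgroupOf.2 (Subgroup.mem_zpowers _))
  have hmem' : (x : L) * (⟨u, huL⟩ : L) * (x : L)⁻¹ ∈ U := by
    simpa [Subgroup.mem_subgroupOf] using hnorm
  rw [hUdef, mem_zpowers_iff_mem_range_orderOf, Finset.mem_image] at hmem'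
  obtain ⟨i, -, hi⟩ := hmem'
  have hcomm : Commute ((x : L) : Perm α) u := by
    set X := ((x : L) : Perm α)
    have hi' : X * u * X⁻¹ = u ^ i := (congrArg (fun w : L => (w : Perm α)) hi).symm
    have hiter : ∀ k : ℕ, X ^ k * u * (X ^ k)⁻¹ = u ^ (i ^ k) := by
      intro k
      induction k with
      | zero => simp
      | succ k ih =>
        rw [pow_succ', show X * X ^ k * u * (X * X ^ k)⁻¹ = X * (X ^ k * u * (X ^ k)⁻¹) * X⁻¹ by group, ih,
          ← conj_pow, hi', ← pow_mul, pow_succ' i]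
    have h5i := hiter 5
    rw [show X ^ 5 = 1 by rw [← hx5]; exact pow_orderOf_eq_one X, one_mul, inv_one, mul_one] at h5i
    have h3 : u ^ i = u := by
      have h := pow_mod_orderOf u (i ^ 5)
      rw [hu5'] at h
      rw [← pow_mod_orderOf u i, hu5', ← pow_five_mod_five i, h, ← h5i]
    rw [h3] at hi'
    exact mul_inv_eq_iff_eq_mul.1 hi'
  obtain ⟨j, hj⟩ := Subgroup.mem_zpowers_iff.1 (hcyc5 _ (x : L).2 hx5 hcomm)
  refine Subgroup.mem_subgroupOf.2 (Subgroup.mem_zpowers_iff.2 ⟨j, Subtype.ext ?_⟩)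
  simpa using hj

/-- Degree thirteen. -/
theorem thirteen_case (hG : G ≤ alternatingGroup α) (hprim : IsPreprimitive G α)
    (hd : Fintype.card α = 13) {g : Perm α} (hg : g ∈ G) (hgc : g.IsCycle) (hgs : g.support.card = 11) :
    G = alternatingGroup α := by
  classical
  have hp11 : Fact (Nat.Prime 11) := ⟨by norm_num⟩
  have hp5 : Fact (Nat.Prime 5) := ⟨by norm_num⟩
  obtain ⟨a, b, c, hab, hac, hbc, hga, hgb, hfix, hgc', -, e2, e3⟩ :=
    setup hprim (by norm_num) hg hgc hgs hd
  set K := G ⊓ stabilizer (Perm α) a ⊓ stabilizer (Perm α) b with hK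
  set L := K ⊓ stabilizer (Perm α) c with hL
  refine le_antisymm hG ?_
  -- members of `L` fix the three points
  have hLfix : ∀ u ∈ L, u a = a ∧ u b = b ∧ u c = c := fun u hu => ⟨hu.1.1.2, hu.1.2, hu.2⟩
  have hLG : ∀ u ∈ L, u ∈ G := fun u hu => hu.1.1.1
  have hsupp : ∀ u ∈ L, u.support ⊆ Finset.univ \ {a, b, c} := fun u hu z hz => by
    obtain ⟨h1, h2, h3⟩ := hLfix u hu
    simp only [Finset.mem_sdiff, Finset.mem_univ, Finset.mem_insert, Finset.mem_singleton, true_and]
    rw [Equiv.Perm.mem_support] at hz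
    rintro (rfl | rfl | rfl)
    exacts [hz h1, hz h2, hz h3]
  have hten : (Finset.univ \ ({a, b, c} : Finset α)).card = 10 := by
    rw [Finset.card_sdiff_of_subset (Finset.subset_univ _), Finset.card_univ, hd,
      Finset.card_eq_three.2 ⟨a, b, c, hab, hac, hbc, rfl⟩]
  have hle10 : ∀ u ∈ L, u.support.card ≤ 10 := fun u hu => hten ▸ Finset.card_le_card (hsupp u hu)
  have hgK : g ∈ K := ⟨⟨hg, MulAction.mem_stabilizer_iff.2 hga⟩, MulAction.mem_stabilizer_iff.2 hgb⟩
  have hgo : orderOf g = 11 := by rw [hgc.orderOf, hgs]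
  have h5L : 5 ∣ Nat.card L := five_dvd_stab hG hd hg hgc hgs hab hac hbc hga hgb hfix hgc' e2 e3
  obtain ⟨⟨u, huL⟩, hu5'⟩ := exists_prime_orderOf_dvd_card' 5 h5L
  rw [Subgroup.orderOf_mk] at hu5'
  -- elements of order five in `L` are cycles (and then Jordan applies) or move ten points
  have h5 : ∀ v ∈ L, orderOf v = 5 → alternatingGroup α ≤ G ∨ v.support.card = 10 := by
    intro v hv hvo
    by_cases h : v.support.card = 10
    · exact Or.inr h
    · obtain ⟨hc, hs⟩ := isCycle_of_lt (by norm_num : Nat.Prime 5) hvo (by have := hle10 v hv; omega)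
      exact Or.inl (Cfsg.Agent.S0713.result G hprim (by norm_num : Nat.Prime 5) (by omega) (by omega) hc hs (hLG v hv))
  rcases h5 u huL hu5' with h | hu10
  · exact h
  have hsuppu : u.support = Finset.univ \ {a, b, c} := Finset.eq_of_subset_of_card_le (hsupp u huL) (by rw [hten, hu10])
  -- a three-cycle, from an element normalising `⟨u⟩` that permutes `a, b, c` cyclically
  let f : α → α := fun z => if z = a then b else if z = b then c else a
  obtain ⟨k0, hk0⟩ := @CfsgLib.AltGroups.exists_smul_eqOn G α _ _ _ 3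
    (three_transitive hprim (by norm_num) hg hgc hgs hd) (by rw [Nat.card_eq_fintype_card]; omega)
    {a, b, c} Finset.card_le_three f (by
      intro x hx y hy hxy
      simp only [Finset.coe_insert, Finset.coe_singleton, Set.mem_insert_iff, Set.mem_singleton_iff] at hx hy
      rcases hx with rfl | rfl | rfl <;> rcases hy with rfl | rfl | rfl <;>
        simp_all [f, hab.symm, hac.symm, hbc.symm])
  have hk0' : ∀ z ∈ ({a, b, c} : Finset α), (k0 : Perm α) z = f z := hk0
  have hka : (k0 : Perm α) a = b := by rw [hk0' a (by simp)]; simp [f]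
  have hkb : (k0 : Perm α) b = c := by rw [hk0' b (by simp)]; simp [f, hab.symm]
  have hkc : (k0 : Perm α) c = a := by rw [hk0' c (by simp)]; simp [f, hac.symm, hbc.symm]
  have hconjL : ∀ v ∈ L, (k0 : Perm α) * v * (k0 : Perm α)⁻¹ ∈ L := fun v hv => by
    obtain ⟨hva, hvb, hvc⟩ := hLfix v hv
    refine ⟨⟨⟨G.mul_mem (G.mul_mem k0.2 (hLG v hv)) (G.inv_mem k0.2), ?_⟩, ?_⟩, ?_⟩ <;>
      (refine MulAction.mem_stabilizer_iff.2 ?_; simp only [Equiv.Perm.smul_def, Equiv.Perm.mul_apply])
    · rw [Equiv.Perm.inv_eq_iff_eq.2 hkc.symm, hvc, hkc]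
    · rw [Equiv.Perm.inv_eq_iff_eq.2 hka.symm, hva, hka]
    · rw [Equiv.Perm.inv_eq_iff_eq.2 hkb.symm, hvb, hkb]
  -- Sylow argument: some member of `L` moves the conjugate of `⟨u⟩` back
  by_contra hnot
  have hcyc5 : ∀ v ∈ L, orderOf v = 5 → Commute v u → v ∈ Subgroup.zpowers u := fun v hv ho hc =>
    commuting_order_five hprim hd (fun w hw => hLG w hw) hten hsupp huL hu5' hu10 hnot hv ho hc
  let U : Subgroup L := Subgroup.zpowers ⟨u, huL⟩
  have hU5 : Nat.card U = 5 := by rw [Nat.card_zpowers, Subgroup.orderOf_mk, hu5']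
  obtain ⟨P, hP⟩ := (IsPGroup.of_card (n := 1) (by rw [hU5, pow_one]) : IsPGroup 5 U).exists_le_sylow
  have hUP : (P : Subgroup L) = U := sylow_eq_zpowers hle10 huL hu5' hcyc5 P hP
  have hnext : ∃ k ∈ G, k a = b ∧ k b = c ∧ k c = a ∧ ∃ r : ℕ, k * u * k⁻¹ = u ^ r := by
    obtain ⟨Q, hQ⟩ := (IsPGroup.of_card (n := 1) (by
      rw [Nat.card_zpowers, Subgroup.orderOf_mk, ← hu5', pow_one]
      exact orderOf_injective (MulAut.conj (k0 : Perm α)).toMonoidHom (MulAut.conj (k0 : Perm α)).injective u) :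
        IsPGroup 5 (Subgroup.zpowers (⟨_, hconjL u huL⟩ : L))).exists_le_sylow
    obtain ⟨l, hl⟩ := MulAction.exists_smul_eq L Q P
    have hmem : l * (⟨_, hconjL u huL⟩ : L) * l⁻¹ ∈ U := by
      rw [← hUP, ← hl, Sylow.coe_subgroup_smul]
      exact ⟨_, hQ (Subgroup.mem_zpowers _), rfl⟩
    rw [mem_zpowers_iff_mem_range_orderOf, Finset.mem_image] at hmem
    obtain ⟨r, -, hr⟩ := hmem
    obtain ⟨hla, hlb, hlc⟩ := hLfix _ l.2
    refine ⟨(l : Perm α) * k0, G.mul_mem (hLG _ l.2) k0.2, by simp [hka, hlb], by simp [hkb, hlc],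
      by simp [hkc, hla], r, ?_⟩
    have := congrArg (fun w : L => (w : Perm α)) hr
    simp only [Subgroup.coe_pow, Subgroup.coe_mul, Subgroup.coe_inv] at this
    rw [this]; group
  obtain ⟨k, hkG, ha', hb', hc', r, hr⟩ := hnext
  have hiter : ∀ n : ℕ, k ^ n * u * (k ^ n)⁻¹ = u ^ (r ^ n) := by
    intro n
    induction n with
    | zero => simp
    | succ n ih =>
      rw [pow_succ', show k * k ^ n * u * (k * k ^ n)⁻¹ = k * (k ^ n * u * (k ^ n)⁻¹) * k⁻¹ by group, ih,
        ← conj_pow, hr, ← pow_mul, pow_succ' r]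
  have hr5 : r % 5 ≠ 0 := fun h0 => by
    have : k * u * k⁻¹ = 1 := by rw [hr, ← pow_mod_orderOf u r, hu5', h0, pow_zero]
    rw [conj_eq_one_iff] at this
    rw [this, orderOf_one] at hu5'
    omega
  have hr4 : r ^ 4 % 5 = 1 := pow_four_mod_five r hr5
  have hwu : Commute (k ^ 4) u := by
    have h := hiter 4
    rw [← pow_mod_orderOf u (r ^ 4), hu5', hr4, pow_one] at h
    exact mul_inv_eq_iff_eq_mul.1 h
  set τ := k ^ 40 with hτ
  have hτu : ∀ z ∈ u.support, τ z = z := by
    intro z hz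
    obtain ⟨d, j, hzd, -, -, hj⟩ := sq_on_cycles hu5' hu10 hwu z hz
    have hstep : ∀ n : ℕ, ((k ^ 4 * k ^ 4) ^ n) z = ((u ^ j) ^ n) z := by
      intro n
      induction n with
      | zero => rfl
      | succ n ih =>
        rw [pow_succ, Equiv.Perm.mul_apply, hj z hzd, ← Equiv.Perm.mul_apply,
          (((hwu.mul_left hwu).pow_left n).zpow_right j).eq, Equiv.Perm.mul_apply, ih,
          ← Equiv.Perm.mul_apply, ← pow_succ']
    have := hstep 5
    rw [← pow_add, ← pow_mul] at this
    rw [hτ, this, ← zpow_natCast, ← zpow_mul, mul_comm, zpow_mul, zpow_natCast, ← hu5', pow_orderOf_eq_one,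
      one_zpow, Equiv.Perm.one_apply]
  have hperiod : ∀ z, z ∈ ({a, b, c} : Finset α) → τ z = k z := by
    intro z hz
    have h3 : ∀ y ∈ ({a, b, c} : Finset α), (k ^ 3) y = y := by
      intro y hy
      simp only [Finset.mem_insert, Finset.mem_singleton] at hy
      rw [show (3 : ℕ) = 2 + 1 from rfl, pow_succ, pow_two]
      rcases hy with rfl | rfl | rfl <;> simp [ha', hb', hc']
    rw [hτ, show 40 = 1 + 3 * 13 from rfl, pow_add, pow_mul, pow_one, Equiv.Perm.mul_apply,
      Equiv.Perm.pow_apply_eq_self_of_apply_eq_self (h3 z hz)]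
  have hτ3 : τ = Equiv.swap a b * Equiv.swap b c := by
    refine Equiv.ext fun z => ?_
    by_cases hz : z ∈ ({a, b, c} : Finset α)
    · rw [hperiod z hz, Equiv.Perm.mul_apply]
      simp only [Finset.mem_insert, Finset.mem_singleton] at hz
      rcases hz with rfl | rfl | rfl
      · rw [ha', Equiv.swap_apply_of_ne_of_ne hab hac, Equiv.swap_apply_left]
      · rw [hb', Equiv.swap_apply_left, Equiv.swap_apply_of_ne_of_ne hac.symm hbc.symm]
      · rw [hc', Equiv.swap_apply_right, Equiv.swap_apply_right]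
    · rw [hτu z (by rw [hsuppu]; exact Finset.mem_sdiff.2 ⟨Finset.mem_univ _, hz⟩), Equiv.Perm.mul_apply]
      simp only [Finset.mem_insert, Finset.mem_singleton, not_or] at hz
      rw [Equiv.swap_apply_of_ne_of_ne hz.2.1 hz.2.2, Equiv.swap_apply_of_ne_of_ne hz.1 hz.2.1]
  have hthree : τ.IsThreeCycle := by
    rw [hτ3, Equiv.swap_comm a b]
    exact Equiv.Perm.isThreeCycle_swap_mul_swap_same hab.symm hbc hac
  exact hnot (Equiv.Perm.alternatingGroup_le_of_isPreprimitive_of_isThreeCycle_mem hprim hthree (G.pow_mem hkG 40))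

end CfsgLib.ElementOrders.PrimeGen
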