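import Mathlib
import Cfsg.Prelude.Def_OddOrderLocal
import Cfsg.Agent.Lib.CoprimeAction.Abelian
import Cfsg.Agent.Lib.TwoGroups.RankOne

/-!
TI-subgroups that are Hall subgroups of their normalisers, inside a separable group.
-/

namespace CfsgLib.ElementOrders.TIHall

open scoped IsMulCommutative

variable {G : Type*} [Group G] [Finite G] {H : Subgroup G}

/-- An element conjugating a nontrivial element of a TI-subgroup back into it normalises it. -/
theorem mem_normalizer_of_conj_mem (hTI : Cfsg.IsTISubset (H : Set G)) {g z : G} (hz : z ∈ H) (hz1 : z ≠ 1)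
    (h : g * z * g⁻¹ ∈ H) : g ∈ Subgroup.normalizer (H : Set G) := by
  by_contra hg
  exact hz1 (hTI g hg z hz h)

/-- The centraliser of a nontrivial element of a TI-subgroup lies in the normaliser. -/
theorem centralizer_le_normalizer (hTI : Cfsg.IsTISubset (H : Set G)) {z : G} (hz : z ∈ H) (hz1 : z ≠ 1) :
    Subgroup.centralizer ({z} : Set G) ≤ Subgroup.normalizer (H : Set G) := fun g hg => by
  rw [Subgroup.mem_centralizer_singleton_iff] at hg
  exact mem_normalizer_of_conj_mem hTI hz hz1 (by rw [hg, mul_inv_cancel_right]; exact hz)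

/-- The normaliser of a nontrivial subgroup of a TI-subgroup lies in the normaliser. -/
theorem normalizer_le_normalizer (hTI : Cfsg.IsTISubset (H : Set G)) {P : Subgroup G} (hPH : P ≤ H)
    (hP : P ≠ ⊥) : Subgroup.normalizer (P : Set G) ≤ Subgroup.normalizer (H : Set G) := fun g hg => by
  obtain h | ⟨z, hz, hz1⟩ := Subgroup.bot_or_exists_ne_one P
  · exact absurd h hP
  exact mem_normalizer_of_conj_mem hTI (hPH hz) hz1 (hPH ((Subgroup.mem_normalizer_iff.1 hg z).1 hz))

/-- An element of `N(H)` whose order is prime to `[N(H):H]` lies in `H`. -/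
theorem mem_of_orderOf_coprime {g : G} (hg : g ∈ Subgroup.normalizer (H : Set G))
    (hcop : (orderOf g).Coprime (H.subgroupOf (Subgroup.normalizer (H : Set G))).index) : g ∈ H := by
  set N := Subgroup.normalizer (H : Set G)
  have : (H.subgroupOf N).Normal := Subgroup.normal_in_normalizer
  let q : N ⧸ H.subgroupOf N := QuotientGroup.mk ⟨g, hg⟩
  have h1 : orderOf q ∣ orderOf g := by
    rw [← Subgroup.orderOf_mk g hg]; exact orderOf_map_dvd (QuotientGroup.mk' _) _
  have h2 : orderOf q ∣ (H.subgroupOf N).index :=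
    Subgroup.index_eq_card (H.subgroupOf N) ▸ orderOf_dvd_natCard q
  have h3 : q = 1 := orderOf_eq_one_iff.1 (Nat.eq_one_of_dvd_one (hcop.gcd_eq_one ▸ Nat.dvd_gcd h1 h2))
  exact Subgroup.mem_subgroupOf.1 ((QuotientGroup.eq_one_iff (⟨g, hg⟩ : N)).1 h3)

/-- A TI-subgroup that is Hall in its normaliser is a Hall subgroup. -/
theorem coprime_index (hTI : Cfsg.IsTISubset (H : Set G))
    (hHall : (Nat.card H).Coprime (H.subgroupOf (Subgroup.normalizer (H : Set G))).index) :
    (Nat.card H).Coprime H.index := by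
  refine Nat.coprime_of_dvd fun p hp h1 h2 => ?_
  have : Fact p.Prime := ⟨hp⟩
  let P : Sylow p H := default
  set P0 := (P : Subgroup H).map H.subtype with hP0
  have hP0p : IsPGroup p P0 := P.isPGroup'.map _
  have hP0ne : P0 ≠ ⊥ := fun h =>
    P.ne_bot_of_dvd_card h1 ((Subgroup.map_eq_bot_iff_of_injective _ H.subtype_injective).1 h)
  obtain ⟨Q, hQ⟩ := hP0p.exists_le_sylow
  have hne : P0 ≠ Q := fun h => by
    refine Q.not_dvd_index (h2.trans ?_)
    rw [← h]
    exact Subgroup.index_dvd_of_le (Subgroup.map_subtype_le _)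
  have : Group.IsNilpotent (Q : Subgroup G) := Q.isPGroup'.isNilpotent
  obtain ⟨x, hxN, hxP⟩ := SetLike.exists_of_lt
    (Group.normalizerCondition_of_isNilpotent (P0.subgroupOf (Q : Subgroup G))
      (lt_of_le_of_ne le_top fun h => hne (le_antisymm hQ (Subgroup.subgroupOf_eq_top.1 h))))
  have hxN' : (x : G) ∈ Subgroup.normalizer (P0 : Set G) := by
    apply Subgroup.mem_normalizer_fintype
    intro n hn
    have := (Subgroup.mem_normalizer_iff.1 hxN ⟨n, hQ hn⟩).1 (Subgroup.mem_subgroupOf.2 hn)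
    simpa [Subgroup.mem_subgroupOf] using this
  have hxH : (x : G) ∈ H := by
    refine mem_of_orderOf_coprime (normalizer_le_normalizer hTI (Subgroup.map_subtype_le _) hP0ne hxN') ?_
    obtain ⟨k, hk⟩ := IsPGroup.iff_orderOf.1 Q.isPGroup' x
    rw [Subgroup.orderOf_coe, hk]
    exact (hHall.coprime_dvd_left h1).pow_left k
  apply hxP
  rw [Subgroup.mem_subgroupOf]
  -- `P0 ⊔ ⟨x⟩ ≤ H ⊓ Q` is a `p`-group inside `H` containing the Sylow subgroup
  have hle : (P : Subgroup H) ≤ ((Q : Subgroup G)).subgroupOf H := fun y hy =>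
    Subgroup.mem_subgroupOf.2 (hQ (Subgroup.mem_map_of_mem _ hy))
  have heq := P.is_maximal' (Q.isPGroup'.comap_of_injective H.subtype H.subtype_injective) hle
  exact ⟨⟨x, hxH⟩, heq.le (show (x : G) ∈ (Q : Subgroup G) from x.2), rfl⟩

open scoped Pointwise

/-- A normal subgroup has a Sylow subgroup inside a given Hall subgroup, for each of its primes. -/
theorem exists_sylow_le (hcop : (Nat.card H).Coprime H.index) {p : ℕ} [Fact p.Prime]
    (hp : p ∣ Nat.card H) (X : Subgroup G) [X.Normal] :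
    ∃ P : Sylow p X, (P : Subgroup X).map X.subtype ≤ H := by
  have hpp : p.Prime := Fact.out
  let P0 : Sylow p H := default
  have hc : Nat.card ((P0 : Subgroup H).map H.subtype) = p ^ (Nat.card G).factorization p := by
    rw [Subgroup.card_map_of_injective H.subtype_injective, P0.card_eq_multiplicity, ← H.card_mul_index,
      Nat.factorization_mul Nat.card_pos.ne' Subgroup.index_ne_zero_of_finite, Finsupp.add_apply,
      Nat.factorization_eq_zero_of_not_dvd fun h : p ∣ H.index =>
        hpp.one_lt.ne' (Nat.eq_one_of_dvd_one (hcop.gcd_eq_one ▸ Nat.dvd_gcd hp h)), add_zero]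
  let P' : Sylow p G := Sylow.ofCard _ hc
  let Q : Sylow p X := default
  obtain ⟨R, hR⟩ := ((Q.isPGroup'.map X.subtype)).exists_le_sylow
  obtain ⟨c, hc'⟩ := MulAction.exists_smul_eq G R P'
  let φ : X ≃* X := MulAut.conjNormal c
  have hcard : Nat.card ((Q : Subgroup X).map φ.toMonoidHom) = p ^ (Nat.card X).factorization p := by
    rw [← Nat.card_congr ((Q : Subgroup X).equivMapOfInjective φ.toMonoidHom φ.injective).toEquiv, Q.card_eq_multiplicity]
  refine ⟨Sylow.ofCard _ hcard, ?_⟩
  rintro _ ⟨_, ⟨z, hz, rfl⟩, rfl⟩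
  have h1 : c * (z : G) * c⁻¹ ∈ (P' : Subgroup G) := by
    rw [← hc', Sylow.coe_subgroup_smul]
    exact ⟨z, hR (Subgroup.mem_map_of_mem _ hz), rfl⟩
  show ((φ z : X) : G) ∈ H
  rw [MulAut.conjNormal_apply]
  exact Subgroup.map_subtype_le _ h1

/-- `G = O N(H)` and `O ⊔ H` is normal, for `O = O_{π'}(G)` and a separable group. -/
theorem sup_normalizer_eq_top (hTI : Cfsg.IsTISubset (H : Set G))
    (hHall : (Nat.card H).Coprime (H.subgroupOf (Subgroup.normalizer (H : Set G))).index) (hH : H ≠ ⊥)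
    (hsep : ∃ (n : ℕ) (M : Fin (n + 1) → Subgroup G), M 0 = ⊥ ∧ M (Fin.last n) = ⊤ ∧ Monotone M ∧ (∀ i, (M i).Normal) ∧
      ∀ i : Fin n, (∀ q : ℕ, q.Prime → q ∣ (M i.castSucc).relIndex (M i.succ) → q ∣ Nat.card H) ∨
        ((M i.castSucc).relIndex (M i.succ)).Coprime (Nat.card H))
    {O : Subgroup G} [O.Normal] (hOc : (Nat.card O).Coprime (Nat.card H))
    (hOmax : ∀ K : Subgroup G, K.Normal → (Nat.card K).Coprime (Nat.card H) → K ≤ O) :
    O ⊔ Subgroup.normalizer (H : Set G) = ⊤ ∧ (O ⊔ H).Normal := by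
  obtain ⟨n, M, h0, hn, hmono, hN, hstep⟩ := hsep
  have hcop := coprime_index hTI hHall
  have hex : ∃ i : Fin n, M i.castSucc ≤ O ∧ ¬ M i.succ ≤ O := by
    by_contra h
    push Not at h
    have hall : ∀ i : Fin (n + 1), M i ≤ O := by
      intro i
      induction i using Fin.induction with
      | zero => rw [h0]; exact bot_le
      | succ i ih => exact h i ih
    have hOtop : O = ⊤ := top_le_iff.1 (hn ▸ hall (Fin.last n))
    refine hH (H.eq_bot_of_card_eq (Nat.eq_one_of_dvd_one ?_))
    rw [← hOc.gcd_eq_one, hOtop, Subgroup.card_top]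
    exact Nat.dvd_gcd H.card_subgroup_dvd_card dvd_rfl
  obtain ⟨i, hi0, hi1⟩ := hex
  set Mi := M i.succ with hMi
  have := hN i.succ
  have := hN i.castSucc
  have hpi : ∀ q : ℕ, q.Prime → q ∣ (M i.castSucc).relIndex Mi → q ∣ Nat.card H := by
    refine (hstep i).resolve_right fun hcp => hi1 (hOmax _ (hN _) ?_)
    have hle : M i.castSucc ≤ Mi := hmono Fin.castSucc_lt_succ.le
    rw [← Subgroup.relIndex_bot_left, ← Subgroup.relIndex_mul_relIndex ⊥ (M i.castSucc) Mi bot_le hle,
      Subgroup.relIndex_bot_left]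
    exact (hOc.coprime_dvd_left (Subgroup.card_dvd_of_le hi0)).mul_left hcp
  set X := O ⊔ Mi with hX
  have hrel : O.relIndex X ∣ (M i.castSucc).relIndex Mi := by
    rw [hX, Subgroup.relIndex_sup_left]
    exact Subgroup.relIndex_dvd_of_le_left Mi hi0
  -- some prime of `H` divides `|X : O|`
  obtain ⟨p, hp, hpX⟩ := Nat.exists_prime_and_dvd (n := O.relIndex X) fun h => hi1 (le_sup_right.trans (Subgroup.relIndex_eq_one.1 h))
  have : Fact p.Prime := ⟨hp⟩
  obtain ⟨P, hP⟩ := exists_sylow_le hcop (hpi p hp (hpX.trans hrel)) X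
  have hPne : (P : Subgroup X).map X.subtype ≠ ⊥ := fun h => P.ne_bot_of_dvd_card
    (hpX.trans (Subgroup.relIndex_dvd_card O X)) ((Subgroup.map_eq_bot_iff_of_injective _ X.subtype_injective).1 h)
  have hXO : X = O ⊔ (H ⊓ X) := by
    refine le_antisymm ?_ (sup_le le_sup_left inf_le_right)
    rw [← Subgroup.relIndex_eq_one]
    by_contra hne
    obtain ⟨q, hq, hqd⟩ := Nat.exists_prime_and_dvd hne
    have : Fact q.Prime := ⟨hq⟩
    have hqO : q ∣ O.relIndex X := hqd.trans (Subgroup.relIndex_dvd_of_le_left X le_sup_left)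
    obtain ⟨Q, hQ⟩ := exists_sylow_le hcop (hpi q hq (hqO.trans hrel)) X
    refine Q.not_dvd_index (hqd.trans ((Subgroup.relIndex_dvd_of_le_left X ((le_inf hQ (Subgroup.map_subtype_le _)).trans le_sup_right)).trans ?_))
    rw [Subgroup.relIndex, Subgroup.subgroupOf, Subgroup.comap_map_eq_self_of_injective X.subtype_injective]
  have hfr : Subgroup.normalizer (((P : Subgroup X).map X.subtype : Subgroup G) : Set G) ⊔ X = ⊤ :=
    Sylow.normalizer_sup_eq_top P
  have hsup : O ⊔ Subgroup.normalizer (H : Set G) = ⊤ := by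
    rw [eq_top_iff, ← hfr]
    refine sup_le ((normalizer_le_normalizer hTI hP hPne).trans le_sup_right) ?_
    rw [hXO]
    exact sup_le le_sup_left (inf_le_left.trans (Subgroup.le_normalizer.trans le_sup_right))
  refine ⟨hsup, Subgroup.normalizer_eq_top_iff.1 (top_le_iff.1 ?_)⟩
  rw [← hsup]
  refine sup_le (le_sup_left.trans Subgroup.le_normalizer) fun g hg => ?_
  apply Subgroup.mem_normalizer_fintype
  intro x hx
  obtain ⟨o, ho, h, hh, rfl⟩ := Subgroup.mem_sup_of_normal_left.1 (show x ∈ O ⊔ H from hx)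
  rw [show g * (o * h) * g⁻¹ = (g * o * g⁻¹) * (g * h * g⁻¹) by group]
  exact Subgroup.mul_mem_sup ((inferInstance : O.Normal).conj_mem o ho g) ((Subgroup.mem_normalizer_iff.1 hg h).1 hh)

/-- `O ∩ N(H)` centralises `H`. -/
theorem inf_normalizer_le_centralizer {O : Subgroup G} [O.Normal] (hOc : (Nat.card O).Coprime (Nat.card H)) :
    O ⊓ Subgroup.normalizer (H : Set G) ≤ Subgroup.centralizer (H : Set G) := by
  rintro x ⟨hxO, hxN⟩
  rw [Subgroup.mem_centralizer_iff]
  intro h hh
  have h1 : h * x * h⁻¹ * x⁻¹ ∈ O := O.mul_mem ((inferInstance : O.Normal).conj_mem x hxO h) (O.inv_mem hxO)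
  have h2 : h * x * h⁻¹ * x⁻¹ ∈ H := by
    rw [show h * x * h⁻¹ * x⁻¹ = h * (x * h⁻¹ * x⁻¹) by group]
    exact H.mul_mem hh ((Subgroup.mem_normalizer_iff.1 hxN _).1 (H.inv_mem hh))
  have h3 : h * x * h⁻¹ * x⁻¹ ∈ O ⊓ H := ⟨h1, h2⟩
  rw [Subgroup.inf_eq_bot_of_coprime hOc, Subgroup.mem_bot, mul_inv_eq_one, mul_inv_eq_iff_eq_mul] at h3
  exact h3

/-- For a non-normal `H`, every abelian subgroup of `H` is cyclic. -/
theorem isCyclic_of_le (hTI : Cfsg.IsTISubset (H : Set G)) (hnn : ¬ H.Normal) {O : Subgroup G} [O.Normal]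
    (hOc : (Nat.card O).Coprime (Nat.card H)) (hsup : O ⊔ Subgroup.normalizer (H : Set G) = ⊤)
    {A : Subgroup G} [IsMulCommutative A] (hA : A ≤ H) : IsCyclic A := by
  by_contra hA'
  refine hnn (Subgroup.normalizer_eq_top_iff.1 (top_le_iff.1 (hsup ▸ sup_le ?_ le_rfl)))
  exact CfsgLib.CoprimeAction.le_of_centralizers hA'
    (Subgroup.normalizer_eq_top_iff.2 (inferInstance : O.Normal) ▸ le_top)
    ((hOc.coprime_dvd_right (Subgroup.card_dvd_of_le hA)).symm)
    fun a ha ha1 => inf_le_right.trans (centralizer_le_normalizer hTI (hA ha) ha1)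

/-- For a non-normal `H`, every `p`-subgroup of `H` has a unique subgroup of order `p`. -/
theorem uniqueOrderP (hTI : Cfsg.IsTISubset (H : Set G)) (hnn : ¬ H.Normal) {O : Subgroup G} [O.Normal]
    (hOc : (Nat.card O).Coprime (Nat.card H)) (hsup : O ⊔ Subgroup.normalizer (H : Set G) = ⊤)
    {p : ℕ} [Fact p.Prime] (P : Sylow p H) : CfsgLib.TwoGroups.UniqueOrderP p (P : Subgroup H) := by
  intro a b ha hb
  have hne : Nontrivial (P : Subgroup H) := ⟨a, 1, fun h => by
    rw [h, orderOf_one] at ha; exact (Fact.out : p.Prime).one_lt.ne ha⟩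
  have hz : Nontrivial (Subgroup.center (P : Subgroup H)) := P.isPGroup'.center_nontrivial
  obtain ⟨k, hk⟩ := (P.isPGroup'.to_subgroup (Subgroup.center (P : Subgroup H))).exists_card_eq
  obtain ⟨z, hzo⟩ := exists_prime_orderOf_dvd_card' (G := Subgroup.center (P : Subgroup H)) p
    (hk ▸ dvd_pow_self p fun h => by
      rw [h, pow_zero] at hk
      exact (Finite.one_lt_card (α := Subgroup.center (P : Subgroup H))).ne' hk)
  rw [← Subgroup.orderOf_coe] at hzo
  have key : ∀ c : (P : Subgroup H), orderOf c = p → c ∈ Subgroup.zpowers (z : (P : Subgroup H)) := by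
    intro c hc
    by_contra hcz
    let E : Subgroup (P : Subgroup H) := Subgroup.closure {(z : (P : Subgroup H)), c}
    have hEc : IsMulCommutative E := Subgroup.isMulCommutative_closure fun x hx y hy => by
      simp only [Set.mem_insert_iff, Set.mem_singleton_iff] at hx hy
      rcases hx with rfl | rfl <;> rcases hy with rfl | rfl
      · rfl
      · exact (Subgroup.mem_center_iff.1 z.2 _).symm
      · exact Subgroup.mem_center_iff.1 z.2 _
      · rfl
    let f : (P : Subgroup H) →* G := H.subtype.comp (P : Subgroup H).subtype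
    have hf : Function.Injective f := H.subtype_injective.comp (P : Subgroup H).subtype_injective
    have : IsMulCommutative (E.map f) := inferInstance
    have hcyc : IsCyclic (E.map f) := isCyclic_of_le hTI hnn hOc hsup (by rintro _ ⟨y, -, rfl⟩; exact y.1.2)
    have : IsCyclic E := isCyclic_of_surjective _ (E.equivMapOfInjective f hf).symm.surjective
    have hzE : (z : (P : Subgroup H)) ∈ E := Subgroup.subset_closure (Or.inl rfl)
    have hcE : c ∈ E := Subgroup.subset_closure (Or.inr rfl)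
    have h1 : Subgroup.zpowers (⟨c, hcE⟩ : E) = Subgroup.zpowers (⟨z, hzE⟩ : E) := by
      classical
      let _ : Fintype E := Fintype.ofFinite E
      have hsub : ∀ w : E, orderOf w = p → Finset.univ.filter (· ∈ Subgroup.zpowers w) =
          Finset.univ.filter fun x : E => x ^ p = 1 := by
        intro w hw
        refine Finset.eq_of_subset_of_card_le (fun x hx => ?_) ?_
        · simp only [Finset.mem_filter, Finset.mem_univ, true_and] at hx ⊢
          rw [← orderOf_dvd_iff_pow_eq_one]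
          exact (orderOf_dvd_of_mem_zpowers hx).trans (dvd_of_eq hw)
        · refine (IsCyclic.card_pow_eq_one_le (Fact.out : p.Prime).pos).trans (le_of_eq ?_)
          refine hw.symm.trans ?_
          rw [← Nat.card_zpowers, Nat.card_eq_fintype_card, Fintype.card_subtype]
      ext x
      have h2 := (hsub _ (by rw [Subgroup.orderOf_mk, hc] : orderOf (⟨c, hcE⟩ : E) = p)).trans
        (hsub _ (by rw [Subgroup.orderOf_mk, hzo] : orderOf (⟨z, hzE⟩ : E) = p)).symm
      have h3 := Finset.ext_iff.1 h2 x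
      simpa using h3
    obtain ⟨m, hm⟩ := Subgroup.mem_zpowers_iff.1 (h1 ▸ Subgroup.mem_zpowers (⟨c, hcE⟩ : E))
    exact hcz ⟨m, by simpa using congrArg Subtype.val hm⟩
  have he : Subgroup.zpowers a = Subgroup.zpowers (z : (P : Subgroup H)) :=
    Subgroup.eq_of_le_of_card_ge (Subgroup.zpowers_le.2 (key a ha))
      (by rw [Nat.card_zpowers, Nat.card_zpowers, ha, hzo])
  rw [he]
  exact key b hb

/-- For a non-normal `H` with abelian Sylow 2-subgroups, all Sylow subgroups of `H` are cyclic. -/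
theorem isZGroup (hTI : Cfsg.IsTISubset (H : Set G)) (hnn : ¬ H.Normal) {O : Subgroup G} [O.Normal]
    (hOc : (Nat.card O).Coprime (Nat.card H)) (hsup : O ⊔ Subgroup.normalizer (H : Set G) = ⊤)
    (h2 : ∀ P : Sylow 2 H, IsMulCommutative (P : Subgroup H)) : IsZGroup H := by
  refine ⟨fun p hp P => ?_⟩
  have : Fact p.Prime := ⟨hp⟩
  have hu := uniqueOrderP hTI hnn hOc hsup P
  rcases CfsgLib.TwoGroups.isCyclic_or_quaternion P.isPGroup' hu with h | ⟨rfl, -⟩
  · exact h
  · have := h2 P
    exact CfsgLib.TwoGroups.isCyclic_of_uniqueOrderP_comm P.isPGroup' hu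

end CfsgLib.ElementOrders.TIHall
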