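import Mathlib

/-!
Two primes `p < q` in `(m/2, m]` at distance at least 3, by Erdős's argument with the central
binomial coefficient.
-/

namespace CfsgLib.ElementOrders

open Nat in
theorem centralBinom_le_of_few_primes (n : ℕ) (n_large : 2 < n) :
    n.centralBinom ≤ (2 * n) ^ (sqrt (2 * n) + ((Finset.Ioc n (2 * n)).filter Nat.Prime).card) *
      4 ^ (2 * n / 3) := by
  have n_pos : 0 < 2 * n := by omega
  have n2_pos : 1 ≤ 2 * n := n_pos
  set T := (Finset.Ioc n (2 * n)).filter Nat.Prime with hT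
  let f x := x ^ n.centralBinom.factorization x
  let S := {p ∈ Finset.range (2 * n / 3 + 1) | Nat.Prime p}
  have hdis : Disjoint S T := Finset.disjoint_left.2 fun x hx hx' => by
    have := Finset.mem_range.1 (Finset.mem_filter.1 hx).1
    have := (Finset.mem_Ioc.1 (Finset.mem_filter.1 hx').1).1
    omega
  have h1 : n.centralBinom = ∏ x ∈ S ∪ T, f x := by
    refine (Eq.trans ?_ n.prod_pow_factorization_centralBinom).symm
    refine Finset.prod_subset ?_ fun x hx h2x => ?_
    · intro x hx
      rw [Finset.mem_range]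
      rcases Finset.mem_union.1 hx with h | h
      · have := Finset.mem_range.1 (Finset.mem_filter.1 h).1; omega
      · have := (Finset.mem_Ioc.1 (Finset.mem_filter.1 h).1).2; omega
    · rw [Finset.mem_union] at h2x
      push Not at h2x
      by_cases hp : x.Prime
      · have hx' := Finset.mem_range.1 hx
        have a1 : 2 * n / 3 < x := by
          by_contra h; exact h2x.1 (Finset.mem_filter.2 ⟨Finset.mem_range.2 (by omega), hp⟩)
        have a2 : x ≤ n := by
          by_contra h; exact h2x.2 (Finset.mem_filter.2 ⟨Finset.mem_Ioc.2 ⟨by omega, by omega⟩, hp⟩)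
        simp only [f]
        rw [show n.centralBinom.factorization x = 0 from
          factorization_centralBinom_of_two_mul_self_lt_three_mul n_large a2 (by omega), pow_zero]
      · simp only [f]
        rw [factorization_eq_zero_of_not_prime n.centralBinom hp, pow_zero]
  have hT' : ∏ x ∈ T, f x ≤ (2 * n) ^ T.card := by
    rw [← Finset.prod_const]
    exact Finset.prod_le_prod' fun p _ => pow_factorization_choose_le n_pos
  have hS' : ∏ x ∈ S, f x ≤ (2 * n) ^ sqrt (2 * n) * 4 ^ (2 * n / 3) := by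
    rw [← Finset.prod_filter_mul_prod_filter_not S (· ≤ sqrt (2 * n))]
    apply mul_le_mul'
    · refine (Finset.prod_le_prod' fun p _ => (?_ : f p ≤ 2 * n)).trans ?_
      · exact pow_factorization_choose_le n_pos
      have : (Finset.Icc 1 (sqrt (2 * n))).card = sqrt (2 * n) := by rw [card_Icc, Nat.add_sub_cancel]
      rw [Finset.prod_const]
      refine pow_right_mono₀ n2_pos ((Finset.card_le_card fun x hx => ?_).trans this.le)
      obtain ⟨h1, h2⟩ := Finset.mem_filter.1 hx
      exact Finset.mem_Icc.mpr ⟨(Finset.mem_filter.1 h1).2.one_lt.le, h2⟩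
    · refine le_trans ?_ (primorial_le_four_pow (2 * n / 3))
      refine (Finset.prod_le_prod' fun p hp => (?_ : f p ≤ p)).trans ?_
      · obtain ⟨h1, h2⟩ := Finset.mem_filter.1 hp
        refine (pow_right_mono₀ (Finset.mem_filter.1 h1).2.one_lt.le ?_).trans (pow_one p).le
        exact Nat.factorization_choose_le_one (sqrt_lt'.mp <| not_le.1 h2)
      refine Finset.prod_le_prod_of_subset_of_one_le' (Finset.filter_subset _ _) ?_
      exact fun p hp _ => (Finset.mem_filter.1 hp).2.one_lt.le
  rw [h1, Finset.prod_union hdis, pow_add, mul_right_comm]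
  exact Nat.mul_le_mul hS' hT'

theorem three_primes_inequality (n : ℕ) (hn : 1024 ≤ n) :
    n * (2 * n) ^ (Nat.sqrt (2 * n) + 2) * 4 ^ (2 * n / 3) ≤ 4 ^ n := by
  set s := Nat.sqrt (2 * n) with hs
  set L := Nat.log 2 s + 1 with hL
  have hs45 : 45 ≤ s := Nat.le_sqrt.2 (by omega)
  have hsle : s * s ≤ 2 * n := Nat.sqrt_le _
  have hlt : 2 * n < (s + 1) * (s + 1) := Nat.lt_succ_sqrt _
  have hpow1 : s + 1 ≤ 2 ^ L := Nat.lt_pow_succ_log_self (by norm_num) s
  have hpow2 : 2 ^ (L - 1) ≤ s := Nat.pow_log_le_self 2 (by omega)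
  have key : 6 * L * (s + 3) ≤ s * s := by
    rcases le_or_gt L 6 with h | h
    · calc 6 * L * (s + 3) ≤ 36 * (s + 3) := Nat.mul_le_mul_right _ (by omega)
        _ ≤ s * s := by nlinarith
    · have h8 : ∀ k : ℕ, 7 ≤ k → 8 * k ≤ 2 ^ (k - 1) := fun k hk => by
        induction k, hk using Nat.le_induction with
        | base => norm_num
        | succ k hk ih =>
          rw [show k + 1 - 1 = (k - 1) + 1 by omega, pow_succ]
          omega
      have := (h8 L h).trans hpow2
      nlinarith
  set k := n - 2 * n / 3 with hk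
  have hkL : L * (s + 3) ≤ k := by
    have : 2 * n ≤ 6 * k := by omega
    have := key.trans (hsle.trans this)
    rw [mul_assoc] at this
    omega
  have h1 : n * (2 * n) ^ (s + 2) ≤ 4 ^ k :=
    calc n * (2 * n) ^ (s + 2) ≤ (2 * n) * (2 * n) ^ (s + 2) := Nat.mul_le_mul_right _ (by omega)
      _ = (2 * n) ^ (s + 3) := (pow_succ' _ _).symm
      _ ≤ ((2 ^ L) * (2 ^ L)) ^ (s + 3) :=
        Nat.pow_le_pow_left (hlt.le.trans (Nat.mul_le_mul hpow1 hpow1)) _
      _ = 4 ^ (L * (s + 3)) := by rw [← mul_pow, ← pow_mul]; norm_num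
      _ ≤ 4 ^ k := Nat.pow_le_pow_right (by norm_num) hkL
  calc n * (2 * n) ^ (s + 2) * 4 ^ (2 * n / 3) ≤ 4 ^ k * 4 ^ (2 * n / 3) := Nat.mul_le_mul_right _ h1
    _ = 4 ^ n := by rw [← pow_add]; congr 1; omega

/-- There are at least three primes in `(n, 2n]` for `n ≥ 1024`. -/
theorem three_le_card_primes_Ioc (n : ℕ) (hn : 1024 ≤ n) :
    3 ≤ ((Finset.Ioc n (2 * n)).filter Nat.Prime).card := by
  by_contra h
  have h1 := Nat.four_pow_lt_mul_centralBinom n (by omega)
  have h2 := centralBinom_le_of_few_primes n (by omega)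
  have h3 := three_primes_inequality n hn
  have h4 : n.centralBinom ≤ (2 * n) ^ (Nat.sqrt (2 * n) + 2) * 4 ^ (2 * n / 3) :=
    h2.trans (Nat.mul_le_mul_right _ (Nat.pow_le_pow_right (by omega) (by omega)))
  have h5 := (h1.trans_le (Nat.mul_le_mul_left n h4))
  rw [← mul_assoc] at h5
  omega

theorem primes_cover {m : ℕ} (p q : ℕ) (hp : p.Prime) (hq : q.Prime) (hpq : p + 3 ≤ q)
    (h1 : q ≤ m) (h2 : m < 2 * p) :
    ∃ p q : ℕ, p.Prime ∧ q.Prime ∧ m < 2 * p ∧ p + 3 ≤ q ∧ q ≤ m :=
  ⟨p, q, hp, hq, h2, hpq, h1⟩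

/-- For `m ≥ 17` there are primes `p`, `q` with `m/2 < p`, `p + 3 ≤ q ≤ m`. -/
theorem exists_two_primes (m : ℕ) (hm : 17 ≤ m) :
    ∃ p q : ℕ, p.Prime ∧ q.Prime ∧ m < 2 * p ∧ p + 3 ≤ q ∧ q ≤ m := by
  rcases le_or_gt 2048 m with h | h
  · have h3 := three_le_card_primes_Ioc (m / 2) (by omega)
    obtain ⟨a, ha, b, hb, c, hc, hab, hac, hbc⟩ := Finset.two_lt_card.1 h3
    simp only [Finset.mem_filter, Finset.mem_Ioc] at ha hb hc
    obtain ⟨oa, ob, oc⟩ : a % 2 = 1 ∧ b % 2 = 1 ∧ c % 2 = 1 :=
      ⟨ha.2.eq_two_or_odd.resolve_left (by omega), hb.2.eq_two_or_odd.resolve_left (by omega),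
        hc.2.eq_two_or_odd.resolve_left (by omega)⟩
    rcases (by omega : a + 3 ≤ b ∨ a + 3 ≤ c ∨ b + 3 ≤ a ∨ b + 3 ≤ c ∨ c + 3 ≤ a ∨ c + 3 ≤ b)
      with h | h | h | h | h | h
    · exact primes_cover a b ha.2 hb.2 h (by omega) (by omega)
    · exact primes_cover a c ha.2 hc.2 h (by omega) (by omega)
    · exact primes_cover b a hb.2 ha.2 h (by omega) (by omega)
    · exact primes_cover b c hb.2 hc.2 h (by omega) (by omega)
    · exact primes_cover c a hc.2 ha.2 h (by omega) (by omega)
    · exact primes_cover c b hc.2 hb.2 h (by omega) (by omega)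
  rcases lt_or_ge m 22 with h1 | h1
  · exact primes_cover 11 17 (by norm_num) (by norm_num) (by norm_num) (by omega) (by omega)
  rcases lt_or_ge m 26 with h2 | h2
  · exact primes_cover 13 19 (by norm_num) (by norm_num) (by norm_num) (by omega) (by omega)
  rcases lt_or_ge m 38 with h3 | h3
  · exact primes_cover 19 23 (by norm_num) (by norm_num) (by norm_num) (by omega) (by omega)
  rcases lt_or_ge m 58 with h4 | h4
  · exact primes_cover 29 37 (by norm_num) (by norm_num) (by norm_num) (by omega) (by omega)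
  rcases lt_or_ge m 94 with h5 | h5
  · exact primes_cover 47 53 (by norm_num) (by norm_num) (by norm_num) (by omega) (by omega)
  rcases lt_or_ge m 166 with h6 | h6
  · exact primes_cover 83 89 (by norm_num) (by norm_num) (by norm_num) (by omega) (by omega)
  rcases lt_or_ge m 314 with h7 | h7
  · exact primes_cover 157 163 (by norm_num) (by norm_num) (by norm_num) (by omega) (by omega)
  rcases lt_or_ge m 614 with h8 | h8
  · exact primes_cover 307 313 (by norm_num) (by norm_num) (by norm_num) (by omega) (by omega)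
  rcases lt_or_ge m 1202 with h9 | h9
  · exact primes_cover 601 607 (by norm_num) (by norm_num) (by norm_num) (by omega) (by omega)
  exact primes_cover 1193 1201 (by norm_num) (by norm_num) (by norm_num) (by omega) (by omega)

end CfsgLib.ElementOrders
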